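import Mathlib
import Cfsg.Agent.H1.BTDefs

set_option autoImplicit false

/-!
# S0997, type B (helper1's team project), piece CEN (helper29)

If all involutions are conjugate to `τ` then `2 ^ b ∣ |C(τ)|` whenever `2 ^ b ∣ |G|`.
-/

namespace Cfsg.Agent.H29.BT

open Cfsg Cfsg.Agent.H1.BT

universe u

/-- Conjugate elements have centralisers of the same order. -/
theorem card_centralizer_conj_bt {G : Type u} [Group G] (c a : G) :
    Nat.card ↥(Subgroup.centralizer ({c * a * c⁻¹} : Set G)) =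
      Nat.card ↥(Subgroup.centralizer ({a} : Set G)) := by
  refine Nat.card_congr
    { toFun := fun x => ⟨c⁻¹ * (x : G) * c, ?_⟩
      invFun := fun x => ⟨c * (x : G) * c⁻¹, ?_⟩
      left_inv := ?_
      right_inv := ?_ }
  · have hx := Subgroup.mem_centralizer_singleton_iff.mp x.2
    rw [Subgroup.mem_centralizer_singleton_iff]
    have h0 : c⁻¹ * (x : G) * c * a = c⁻¹ * ((x : G) * (c * a * c⁻¹)) * c := by group
    have h1 : a * (c⁻¹ * (x : G) * c) = c⁻¹ * ((c * a * c⁻¹) * (x : G)) * c := by group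
    rw [h0, h1, hx]
  · have hx := Subgroup.mem_centralizer_singleton_iff.mp x.2
    rw [Subgroup.mem_centralizer_singleton_iff]
    have h0 : c * (x : G) * c⁻¹ * (c * a * c⁻¹) = c * ((x : G) * a) * c⁻¹ := by group
    have h1 : c * a * c⁻¹ * (c * (x : G) * c⁻¹) = c * (a * (x : G)) * c⁻¹ := by group
    rw [h0, h1, hx]
  · intro x
    apply Subtype.ext
    show c * (c⁻¹ * (x : G) * c) * c⁻¹ = (x : G)
    group
  · intro x
    apply Subtype.ext
    show c⁻¹ * (c * (x : G) * c⁻¹) * c = (x : G)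
    group

/-- **S0997-B-CEN.** -/
theorem cen : StCen.{u} := by
  intro G _ _ b hb τ hτ hconj
  rcases Nat.eq_zero_or_pos b with hb0 | hbpos
  · rw [hb0, pow_zero]; exact one_dvd _
  haveI : Fact (Nat.Prime 2) := ⟨Nat.prime_two⟩
  obtain ⟨Q⟩ : Nonempty (Sylow 2 G) := inferInstance
  have hQb : 2 ^ b ∣ Nat.card ↥(Q : Subgroup G) := Q.pow_dvd_card_of_pow_dvd_card hb
  have hQ1 : 1 < Nat.card ↥(Q : Subgroup G) :=
    lt_of_lt_of_le (Nat.one_lt_two_pow hbpos.ne') (Nat.le_of_dvd Nat.card_pos hQb)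
  haveI : Nontrivial ↥(Q : Subgroup G) := Finite.one_lt_card_iff_nontrivial.mp hQ1
  have hQp : IsPGroup 2 ↥(Q : Subgroup G) := Q.isPGroup'
  haveI : Nontrivial ↥(Subgroup.center ↥(Q : Subgroup G)) := hQp.center_nontrivial
  have hZp : IsPGroup 2 ↥(Subgroup.center ↥(Q : Subgroup G)) := hQp.to_subgroup _
  have h2Z : 2 ∣ Nat.card ↥(Subgroup.center ↥(Q : Subgroup G)) := by
    rcases hZp.card_eq_or_dvd with h | h
    · exact absurd h (Finite.one_lt_card).ne'
    · exact h
  obtain ⟨z, hz⟩ := exists_prime_orderOf_dvd_card' 2 h2Z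
  have hzo : orderOf (((z : ↥(Q : Subgroup G)) : G)) = 2 := by
    rw [Subgroup.orderOf_coe, Subgroup.orderOf_coe]; exact hz
  obtain ⟨g, hg⟩ := hconj _ hzo
  have hQle : (Q : Subgroup G) ≤
      Subgroup.centralizer ({((z : ↥(Q : Subgroup G)) : G)} : Set G) := by
    intro q hq
    rw [Subgroup.mem_centralizer_singleton_iff]
    have h1 := Subgroup.mem_center_iff.mp z.2 ⟨q, hq⟩
    exact congrArg Subtype.val h1
  have h1 := Subgroup.card_dvd_of_le hQle
  rw [← hg, card_centralizer_conj_bt] at h1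
  exact hQb.trans h1

example : ∀ {G : Type u} [Group G] [Finite G] (b : ℕ) (_ : 2 ^ b ∣ Nat.card G) (τ : G)
    (_ : orderOf τ = 2) (_ : ∀ u : G, orderOf u = 2 → ∃ g : G, g * τ * g⁻¹ = u),
    2 ^ b ∣ Nat.card (Subgroup.centralizer ({τ} : Set G)) :=
  cen

end Cfsg.Agent.H29.BT
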