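import Mathlib
import Cfsg.Agent.H1.BTDefs

set_option autoImplicit false

/-!
# S0997, type B (helper1's team project), piece DEGA (helper29)

The arithmetic of the degrees of the non-exceptional characters for `t = 2`.
-/

namespace Cfsg.Agent.H29.BT

open Cfsg Cfsg.Agent.H1.BT

universe u

/-- **S0997-B-DEGA.** -/
theorem degA : StDegA.{u} := by
  intro ι Sp Sm D p e hp he4 hev hcard hSp hSm hsum hle hne
  classical
  obtain ⟨f, hf⟩ := hev
  -- the dichotomy for the degrees in `Sm`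
  have hm : ∀ i ∈ Sm, D i = 2 * e ∨ 6 * e + 2 ≤ D i := by
    intro i hi
    obtain ⟨hE, h2, hmod⟩ := hSm i hi
    have hd : (p : ℤ) ∣ ((D i + 1 : ℕ) : ℤ) := by
      have h0 := Int.ModEq.dvd hmod
      have h' : ((D i + 1 : ℕ) : ℤ) = -(-1 - (D i : ℤ)) := by push_cast; ring
      rw [h']; exact (dvd_neg).mpr h0
    obtain ⟨k, hk⟩ := Int.natCast_dvd_natCast.mp hd
    obtain ⟨c, hc⟩ := hE
    rcases Nat.lt_or_ge k 3 with hk3 | hk3
    · interval_cases k
      · omega
      · left; omega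
      · exfalso; omega
    · right
      have h3 : p * 3 ≤ p * k := Nat.mul_le_mul_left p hk3
      omega
  -- the dichotomy for the degrees in `Sp`
  have hpl : ∀ i ∈ Sp, D i = 2 * e + 2 ∨ 6 * e + 4 ≤ D i := by
    intro i hi
    obtain ⟨hE, h2, hmod⟩ := hSp i hi
    have hd : (p : ℤ) ∣ ((D i - 1 : ℕ) : ℤ) := by
      have h0 := Int.ModEq.dvd hmod
      have h' : ((D i - 1 : ℕ) : ℤ) = -(1 - (D i : ℤ)) := by
        rw [Nat.cast_sub (by omega : 1 ≤ D i)]; push_cast; ring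
      rw [h']; exact (dvd_neg).mpr h0
    obtain ⟨k, hk⟩ := Int.natCast_dvd_natCast.mp hd
    obtain ⟨c, hc⟩ := hE
    rcases Nat.lt_or_ge k 3 with hk3 | hk3
    · interval_cases k
      · omega
      · left; omega
      · exfalso; omega
    · right
      have h3 : p * 3 ≤ p * k := Nat.mul_le_mul_left p hk3
      omega
  have hmlow : ∀ i ∈ Sm, 2 * e ≤ D i := fun i hi => by
    rcases hm i hi with h | h <;> omega
  have hplow : ∀ i ∈ Sp, 2 * e + 2 ≤ D i := fun i hi => by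
    rcases hpl i hi with h | h <;> omega
  have hB1 : Sm.card * (2 * e) ≤ ∑ i ∈ Sm, D i := by
    have h0 := Finset.card_nsmul_le_sum Sm D (2 * e) hmlow
    simpa [smul_eq_mul] using h0
  have hA1 : Sp.card * (2 * e + 2) ≤ ∑ i ∈ Sp, D i := by
    have h0 := Finset.card_nsmul_le_sum Sp D (2 * e + 2) hplow
    simpa [smul_eq_mul] using h0
  obtain ⟨c, hc⟩ : Even (∑ i ∈ Sm, D i) := Finset.even_sum _ (fun i hi => (hSm i hi).1)
  -- `B ≤ (e+1)² - 3`
  have hsq : (e + 1) ^ 2 = 4 * (f * f) + 4 * f + 1 := by rw [hf]; ring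
  have hB2 : ∑ i ∈ Sm, D i + 2 ≤ 4 * (f * f) + 4 * f := by
    rw [hsq] at hle hne
    omega
  -- the cardinalities
  have hnm : Sm.card ≤ f := by
    by_contra hcon
    have h1 : (f + 1) * (2 * e) ≤ Sm.card * (2 * e) := Nat.mul_le_mul_right _ (by omega)
    have h2 : (f + 1) * (2 * e) = 4 * (f * f) + 4 * f := by rw [hf]; ring
    omega
  have hnp : Sp.card + 1 ≤ f := by
    by_contra hcon
    have h1 : f * (2 * e + 2) ≤ Sp.card * (2 * e + 2) := Nat.mul_le_mul_right _ (by omega)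
    have h2 : f * (2 * e + 2) = 4 * (f * f) + 2 * f := by rw [hf]; ring
    omega
  have hnm' : Sm.card = f := by omega
  have hnp' : Sp.card + 1 = f := by omega
  refine ⟨?_, ?_, by omega, by omega⟩
  · intro i hi
    rcases hm i hi with h | h
    · omega
    · exfalso
      have h3 := Finset.add_sum_erase Sm D hi
      have h4 : (Sm.erase i).card * (2 * e) ≤ ∑ x ∈ Sm.erase i, D x := by
        have h0 := Finset.card_nsmul_le_sum (Sm.erase i) D (2 * e)
          (fun x hx => hmlow x (Finset.mem_of_mem_erase hx))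
        simpa [smul_eq_mul] using h0
      have h5 : (Sm.erase i).card + 1 = f := by
        rw [Finset.card_erase_add_one hi]; exact hnm'
      obtain ⟨g, hg⟩ : ∃ g : ℕ, (Sm.erase i).card = g := ⟨_, rfl⟩
      rw [hg] at h4 h5
      subst h5
      subst hf
      nlinarith [h4, h3, h, hB2]
  · intro i hi
    rcases hpl i hi with h | h
    · omega
    · exfalso
      have h3 := Finset.add_sum_erase Sp D hi
      have h4 : (Sp.erase i).card * (2 * e + 2) ≤ ∑ x ∈ Sp.erase i, D x := by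
        have h0 := Finset.card_nsmul_le_sum (Sp.erase i) D (2 * e + 2)
          (fun x hx => hplow x (Finset.mem_of_mem_erase hx))
        simpa [smul_eq_mul] using h0
      have h5 : (Sp.erase i).card + 1 + 1 = f := by
        rw [Finset.card_erase_add_one hi]; exact hnp'
      obtain ⟨g, hg⟩ : ∃ g : ℕ, (Sp.erase i).card = g := ⟨_, rfl⟩
      rw [hg] at h4 h5
      subst h5
      subst hf
      nlinarith [h4, h3, h, hB2, hsum]

example : ∀ {ι : Type u} (Sp Sm : Finset ι) (D : ι → ℕ) (p e : ℕ) (_ : 2 * e + 1 = p) (_ : 4 ≤ e)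
    (_ : Even e) (_ : Sp.card + Sm.card + 1 = e)
    (_ : ∀ i ∈ Sp, Even (D i) ∧ 2 ≤ D i ∧ (D i : ℤ) ≡ 1 [ZMOD p])
    (_ : ∀ i ∈ Sm, Even (D i) ∧ 2 ≤ D i ∧ (D i : ℤ) ≡ -1 [ZMOD p])
    (_ : ∑ i ∈ Sm, D i = ∑ i ∈ Sp, D i + e + 2)
    (_ : ∑ i ∈ Sm, D i ≤ (e + 1) ^ 2) (_ : ∑ i ∈ Sm, D i + 1 ≠ (e + 1) ^ 2),
    (∀ i ∈ Sm, D i = p - 1) ∧ (∀ i ∈ Sp, D i = p + 1) ∧ 2 * Sm.card = e ∧ 2 * Sp.card + 2 = e :=
  degA

end Cfsg.Agent.H29.BT
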