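import Mathlib
import Cfsg.Agent.H1.BTDefs

set_option autoImplicit false

/-!
# S0997, type B (helper1's team project), piece INV (helper29)

An involution `u` with `τ^a * u^b = x ∈ P \ 1` is conjugate to `τ`.
-/

namespace Cfsg.Agent.H29.BT

open Cfsg Cfsg.Agent.H1.BT

universe u

/-- **S0997-B-INV.** -/
theorem inv : StInv.{u} := by
  intro G _ _ p hp hp2 P hPcard hC τ hτ hinv x hx hx1 u hu a b hab
  -- involutions
  have hττ : τ * τ = 1 := by
    have h := pow_orderOf_eq_one τ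
    rwa [hτ, pow_two] at h
  have hτi : τ⁻¹ = τ := inv_eq_of_mul_eq_one_left hττ
  have huu : u * u = 1 := by
    have h := pow_orderOf_eq_one u
    rwa [hu, pow_two] at h
  have hui : u⁻¹ = u := inv_eq_of_mul_eq_one_left huu
  -- `t' = a τ a⁻¹`, `u' = b u b⁻¹`
  obtain ⟨t', ht'⟩ : ∃ t' : G, t' = a * τ * a⁻¹ := ⟨_, rfl⟩
  obtain ⟨u', hu'⟩ : ∃ u' : G, u' = b * u * b⁻¹ := ⟨_, rfl⟩
  rw [← ht', ← hu'] at hab
  have ht't' : t' * t' = 1 := by
    rw [ht']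
    have h0 : a * τ * a⁻¹ * (a * τ * a⁻¹) = a * (τ * τ) * a⁻¹ := by group
    rw [h0, hττ]; group
  have hu'u' : u' * u' = 1 := by
    rw [hu']
    have h0 : b * u * b⁻¹ * (b * u * b⁻¹) = b * (u * u) * b⁻¹ := by group
    rw [h0, huu]; group
  have ht'i : t'⁻¹ = t' := inv_eq_of_mul_eq_one_left ht't'
  have hu'i : u'⁻¹ = u' := inv_eq_of_mul_eq_one_left hu'u'
  -- `u'` inverts `x`
  have hxi : x⁻¹ = u' * t' := by
    rw [← hab, mul_inv_rev, ht'i, hu'i]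
  have hu'x : u' * x * u'⁻¹ = x⁻¹ := by
    rw [hxi, ← hab, hu'i]
    have h0 : u' * (t' * u') * u' = u' * t' * (u' * u') := by group
    rw [h0, hu'u', mul_one]
  have hτx : τ * x * τ⁻¹ = x⁻¹ := hinv x hx
  -- `c = u' τ` commutes with `x`
  have hcx : (u' * τ) * x = x * (u' * τ) := by
    have h1 : (u' * τ) * x * (u' * τ)⁻¹ = x := by
      have h0 : (u' * τ) * x * (u' * τ)⁻¹ = u' * (τ * x * τ⁻¹) * u'⁻¹ := by group
      rw [h0, hτx]
      have h2 : u' * x⁻¹ * u'⁻¹ = (u' * x * u'⁻¹)⁻¹ := by group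
      rw [h2, hu'x, inv_inv]
    calc (u' * τ) * x = ((u' * τ) * x * (u' * τ)⁻¹) * (u' * τ) := by group
      _ = x * (u' * τ) := by rw [h1]
  -- `P = ⟨x⟩`
  have hPx : Subgroup.zpowers x = (P : Subgroup G) := by
    apply Subgroup.eq_of_le_of_card_ge ((Subgroup.zpowers_le).mpr hx)
    rw [hPcard, Nat.card_zpowers]
    have h1 : orderOf x ∣ p := by
      have h0 := Subgroup.orderOf_dvd_natCard _ hx
      rwa [hPcard] at h0
    rcases (Nat.dvd_prime hp).mp h1 with h | h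
    · exact absurd (orderOf_eq_one_iff.mp h) hx1
    · exact h.ge
  -- `y = u' τ ∈ P`
  have hyP : u' * τ ∈ (P : Subgroup G) := by
    rw [← hC, Subgroup.mem_centralizer_iff]
    intro z hz
    rw [← hPx] at hz
    obtain ⟨i, rfl⟩ := Subgroup.mem_zpowers_iff.mp hz
    exact ((Commute.zpow_right (show Commute (u' * τ) x from hcx) i)).eq.symm
  -- a square root `w` of `y` in `P`
  have hpodd : Odd p := hp.odd_of_ne_two hp2
  obtain ⟨k, hk⟩ := hpodd
  obtain ⟨w, hwdef⟩ : ∃ w : G, w = (u' * τ) ^ (k + 1) := ⟨_, rfl⟩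
  have hwP : w ∈ (P : Subgroup G) := by rw [hwdef]; exact pow_mem hyP _
  have hyp : (u' * τ) ^ p = 1 := by
    have h0 : (⟨u' * τ, hyP⟩ : ↥(P : Subgroup G)) ^ Nat.card ↥(P : Subgroup G) = 1 :=
      pow_card_eq_one'
    rw [hPcard] at h0
    have h1 := congrArg Subtype.val h0
    simpa using h1
  have hww : w * w = u' * τ := by
    rw [hwdef, ← pow_add]
    have h0 : k + 1 + (k + 1) = p + 1 := by omega
    rw [h0, pow_succ, hyp, one_mul]
  -- `w τ w⁻¹ = u'`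
  have hτw : τ * w⁻¹ * τ⁻¹ = w := by
    have h0 := hinv w⁻¹ (inv_mem hwP)
    rwa [inv_inv] at h0
  have hconj : w * τ * w⁻¹ = u' := by
    have h0 : w * τ * w⁻¹ = w * (τ * w⁻¹ * τ⁻¹) * τ := by group
    rw [h0, hτw, hww, mul_assoc, hττ, mul_one]
  refine ⟨b⁻¹ * w, ?_⟩
  have h0 : b⁻¹ * w * τ * (b⁻¹ * w)⁻¹ = b⁻¹ * (w * τ * w⁻¹) * b := by group
  rw [h0, hconj, hu']
  group

example : ∀ {G : Type u} [Group G] [Finite G] (p : ℕ) (_ : p.Prime) (_ : p ≠ 2) (P : Sylow p G)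
    (_ : Nat.card (P : Subgroup G) = p)
    (_ : Subgroup.centralizer ((P : Subgroup G) : Set G) = (P : Subgroup G))
    (τ : G) (_ : orderOf τ = 2) (_ : ∀ y ∈ (P : Subgroup G), τ * y * τ⁻¹ = y⁻¹)
    (x : G) (_ : x ∈ (P : Subgroup G)) (_ : x ≠ 1) (u : G) (_ : orderOf u = 2) (a b : G)
    (_ : a * τ * a⁻¹ * (b * u * b⁻¹) = x), ∃ g : G, g * τ * g⁻¹ = u :=
  inv

end Cfsg.Agent.H29.BT
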