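import Mathlib
import Cfsg.Agent.H29.Dk7

/-!
# Dickson's generation theorem, main case (helper29)

If `L ≤ SL(2, F)` contains `uT 1` and `lT μ`, the Borel subgroup of `L` has index `q + 1` and
`μ` generates `F` as a field, then `L = ⊤`.
-/

set_option autoImplicit false
set_option linter.unusedSimpArgs false
set_option linter.deprecated false
set_option linter.unusedVariables false

namespace Cfsg.Agent.H29.Dk

open Matrix Cfsg.Agent.H65.SL2

section Hua

variable {F : Type*} [Field F]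

/-- An additive subgroup containing `1` and closed under inverses is closed under
multiplication (characteristic `≠ 2`). -/
theorem hua_mul (h2 : (2 : F) ≠ 0) (A : AddSubgroup F) (h1 : (1 : F) ∈ A)
    (hinv : ∀ x ∈ A, x⁻¹ ∈ A) : ∀ x ∈ A, ∀ y ∈ A, x * y ∈ A := by
  have hsq : ∀ x ∈ A, x * x ∈ A := by
    intro x hx
    by_cases hx0 : x = 0
    · subst hx0; simp
    by_cases hx1 : x = 1
    · subst hx1; simpa using h1
    have h1x : 1 - x ≠ 0 := sub_ne_zero.2 (Ne.symm hx1)
    have e0 : x⁻¹ + (1 - x)⁻¹ = (x * (1 - x))⁻¹ := by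
      field_simp
      ring
    have e : x * x = x - (x⁻¹ + (1 - x)⁻¹)⁻¹ := by
      rw [e0, inv_inv]; ring
    rw [e]
    exact A.sub_mem hx (hinv _ (A.add_mem (hinv _ hx) (hinv _ (A.sub_mem h1 hx))))
  have h2xy : ∀ x ∈ A, ∀ y ∈ A, 2 * x * y ∈ A := by
    intro x hx y hy
    have : 2 * x * y = (x + y) * (x + y) - x * x - y * y := by ring
    rw [this]
    exact A.sub_mem (A.sub_mem (hsq _ (A.add_mem hx hy)) (hsq _ hx)) (hsq _ hy)
  have h2mem : (2 : F) ∈ A := by
    have : (2 : F) = 1 + 1 := by norm_num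
    rw [this]; exact A.add_mem h1 h1
  have h4 : (4 : F) ≠ 0 := by
    have : (4 : F) = 2 * 2 := by norm_num
    rw [this]; exact mul_ne_zero h2 h2
  have hq : (4 : F)⁻¹ ∈ A := by
    have : (4 : F)⁻¹ = (2 : F)⁻¹ * (2 : F)⁻¹ := by rw [← mul_inv]; norm_num
    rw [this]
    exact hsq _ (hinv _ h2mem)
  have hhalf : ∀ z ∈ A, z / 2 ∈ A := by
    intro z hz
    have : z / 2 = 2 * z * (4 : F)⁻¹ := by field_simp; ring
    rw [this]
    exact h2xy z hz _ hq
  intro x hx y hy
  have : x * y = (2 * x * y) / 2 := by field_simp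
  rw [this]
  exact hhalf _ (h2xy x hx y hy)

/-- Such an additive subgroup containing a field generator is everything. -/
theorem hua_top (h2 : (2 : F) ≠ 0) (A : AddSubgroup F) (h1 : (1 : F) ∈ A)
    (hinv : ∀ x ∈ A, x⁻¹ ∈ A) {μ : F} (hμ : μ ∈ A)
    (hgen : Subfield.closure ({μ} : Set F) = ⊤) : ∀ x : F, x ∈ A := by
  have hmul := hua_mul h2 A h1 hinv
  let K : Subfield F :=
    { carrier := A
      mul_mem' := fun {x y} hx hy => hmul x hx y hy
      one_mem' := h1
      add_mem' := fun {x y} hx hy => A.add_mem hx hy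
      zero_mem' := A.zero_mem
      neg_mem' := fun {x} hx => A.neg_mem hx
      inv_mem' := fun x hx => hinv x hx }
  have hle : Subfield.closure ({μ} : Set F) ≤ K := by
    rw [Subfield.closure_le]
    intro x hx
    rw [Set.mem_singleton_iff] at hx
    subst hx
    exact hμ
  rw [hgen] at hle
  intro x
  exact hle (Subfield.mem_top x)

end Hua

variable {F : Type*} [Field F]
variable (L : Subgroup (Matrix.SpecialLinearGroup (Fin 2) F))

/-- If `L` contains `lT μ` and all `uT s`, then `L = ⊤`. -/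
theorem top_of_all_uT {μ : F} (hμ0 : μ ≠ 0) (hl : lT μ ∈ L) (hall : ∀ s : F, uT s ∈ L) :
    L = ⊤ := by
  apply sl2_gen L hall
  intro t
  have hw : lT μ * uT (-μ⁻¹) * lT μ ∈ L := L.mul_mem (L.mul_mem hl (hall _)) hl
  have e : (lT μ * uT (-μ⁻¹) * lT μ) * uT (-t / μ ^ 2) = lT t * (lT μ * uT (-μ⁻¹) * lT μ) := by
    apply ext4 <;>
      simp only [mul00, mul01, mul10, mul11, uT00, uT01, uT10, uT11, lT00, lT01, lT10, lT11] <;>
      field_simp <;> ring
  have : lT t = (lT μ * uT (-μ⁻¹) * lT μ) * uT (-t / μ ^ 2) * (lT μ * uT (-μ⁻¹) * lT μ)⁻¹ := by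
    rw [e]; group
  rw [this]
  exact L.mul_mem (L.mul_mem hw (hall _)) (L.inv_mem hw)

variable [Finite F]

set_option maxHeartbeats 800000 in
/-- **Main case**: if the Borel subgroup of `L` has index `q + 1` and `μ` generates `F`,
then `L = ⊤`. -/
theorem main_top (p : ℕ) [Fact p.Prime] [CharP F p] (hp : p ≠ 2) (h1 : uT (1 : F) ∈ L) {μ : F}
    (hl : lT μ ∈ L) (hμ0 : μ ≠ 0) (hgen : Subfield.closure ({μ} : Set F) = ⊤)
    (hcard : Nat.card L = (Nat.card (L ⊓ Un : Subgroup _) + 1) * Nat.card (L ⊓ Bo : Subgroup _)) :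
    L = ⊤ := by
  classical
  have h2 : (2 : F) ≠ 0 := two_ne_zero_of (p := p) hp
  have hg₀ : lT μ ∉ (Bo : Subgroup (Matrix.SpecialLinearGroup (Fin 2) F)) := lT_not_Bo hμ0
  have hD := Dc_card L hg₀
  have hsub : Dc L (lT μ) ∪ ((L ⊓ Bo : Subgroup _) : Set (Matrix.SpecialLinearGroup (Fin 2) F))
      ⊆ (L : Set (Matrix.SpecialLinearGroup (Fin 2) F)) := by
    apply Set.union_subset (Dc_subset L hl)
    intro x hx
    exact (Subgroup.mem_inf.1 hx).1
  have hdisj : Disjoint (Dc L (lT μ))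
      ((L ⊓ Bo : Subgroup _) : Set (Matrix.SpecialLinearGroup (Fin 2) F)) := by
    rw [Set.disjoint_left]
    intro x hx hx'
    exact Dc_not_Bo L hg₀ hx (Subgroup.mem_inf.1 hx').2
  have hun := Set.ncard_union_eq hdisj (Set.toFinite _) (Set.toFinite _)
  have e1 : ((L ⊓ Bo : Subgroup _) : Set (Matrix.SpecialLinearGroup (Fin 2) F)).ncard
      = Nat.card (L ⊓ Bo : Subgroup _) := rfl
  have e2 : (L : Set (Matrix.SpecialLinearGroup (Fin 2) F)).ncard = Nat.card L := rfl
  have heq : Dc L (lT μ) ∪ ((L ⊓ Bo : Subgroup _) : Set (Matrix.SpecialLinearGroup (Fin 2) F))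
      = (L : Set (Matrix.SpecialLinearGroup (Fin 2) F)) := by
    apply Set.eq_of_subset_of_ncard_le hsub _ (Set.toFinite _)
    rw [hun, hD, e1, e2, hcard]
    exact le_of_eq (by ring)
  -- the relation for every element outside the Borel subgroup
  have key : ∀ x ∈ L, x.1 1 0 ≠ 0 →
      ∃ s : F, uT s ∈ L ∧ x.1 0 0 * μ - x.1 1 0 = s * μ * x.1 1 0 := by
    intro x hx hx10
    have hx' : x ∈ (L : Set (Matrix.SpecialLinearGroup (Fin 2) F)) := hx
    rw [← heq] at hx'
    rcases hx' with h | h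
    · obtain ⟨s, hs, hrel⟩ := Dc_rel L h
      simp only [lT10, lT00] at hrel
      exact ⟨s, hs, by linear_combination hrel⟩
    · exact absurd (mem_Bo.1 (Subgroup.mem_inf.1 h).2) hx10
  -- `1/μ ∈ A`
  have ha : uT μ⁻¹ ∈ L := by
    have h10 : (lT μ * lT μ).1 1 0 = 2 * μ := by rw [mul10]; simp; ring
    have h00 : (lT μ * lT μ).1 0 0 = 1 := by rw [mul00]; simp
    obtain ⟨s, hs, hrel⟩ := key (lT μ * lT μ) (L.mul_mem hl hl)
      (by rw [h10]; exact mul_ne_zero h2 hμ0)
    rw [h10, h00] at hrel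
    have hs' : μ⁻¹ = -s + -s := by
      have : μ * (2 * s * μ + 1) = 0 := by linear_combination -hrel
      rcases mul_eq_zero.1 this with h | h
      · exact absurd h hμ0
      · field_simp
        linear_combination h
    rw [hs', uT_add, uT_neg]
    exact L.mul_mem (L.inv_mem hs) (L.inv_mem hs)
  -- inverse closure
  have hinvA : ∀ c : F, uT c ∈ L → c ≠ 0 → uT (μ⁻¹ * μ⁻¹ / c) ∈ L := by
    intro c hc hc0
    have hc' : uT (c + (-μ⁻¹ + -μ⁻¹)) ∈ L := by
      rw [uT_add, uT_add, uT_neg]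
      exact L.mul_mem hc (L.mul_mem (L.inv_mem ha) (L.inv_mem ha))
    have h10 : (lT μ * uT (c + (-μ⁻¹ + -μ⁻¹)) * lT μ).1 1 0 = c * μ ^ 2 := by
      rw [lul10]
      field_simp
      ring
    have h00 : (lT μ * uT (c + (-μ⁻¹ + -μ⁻¹)) * lT μ).1 0 0 = c * μ - 1 := by
      simp only [mul10, mul00, mul01, mul11, uT00, uT01, uT10, uT11, lT00, lT01, lT10, lT11]
      field_simp
      ring
    obtain ⟨s, hs, hrel⟩ := key _ (L.mul_mem (L.mul_mem hl hc') hl)
      (by rw [h10]; exact mul_ne_zero hc0 (pow_ne_zero 2 hμ0))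
    rw [h10, h00] at hrel
    have hs' : μ⁻¹ * μ⁻¹ / c = -s := by
      have : μ * (s * c * μ ^ 2 + 1) = 0 := by linear_combination -hrel
      rcases mul_eq_zero.1 this with h | h
      · exact absurd h hμ0
      · field_simp
        linear_combination h
    rw [hs', uT_neg]
    exact L.inv_mem hs
  -- the scaled additive group
  let A' : AddSubgroup F :=
    { carrier := {x | uT (x * μ⁻¹) ∈ L}
      add_mem' := by
        intro a b ha hb
        simp only [Set.mem_setOf_eq] at ha hb ⊢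
        rw [add_mul, uT_add]
        exact L.mul_mem ha hb
      zero_mem' := by
        simp only [Set.mem_setOf_eq]
        rw [zero_mul, uT_zero]
        exact L.one_mem
      neg_mem' := by
        intro a ha
        simp only [Set.mem_setOf_eq] at ha ⊢
        rw [neg_mul, uT_neg]
        exact L.inv_mem ha }
  have hA'1 : (1 : F) ∈ A' := by
    show uT (1 * μ⁻¹) ∈ L
    rw [one_mul]; exact ha
  have hA'μ : μ ∈ A' := by
    show uT (μ * μ⁻¹) ∈ L
    rw [mul_inv_cancel₀ hμ0]; exact h1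
  have hA'inv : ∀ x ∈ A', x⁻¹ ∈ A' := by
    intro x hx
    by_cases hx0 : x = 0
    · subst hx0; rw [_root_.inv_zero]; exact A'.zero_mem
    have := hinvA (x * μ⁻¹) hx (mul_ne_zero hx0 (inv_ne_zero hμ0))
    show uT (x⁻¹ * μ⁻¹) ∈ L
    have e : x⁻¹ * μ⁻¹ = μ⁻¹ * μ⁻¹ / (x * μ⁻¹) := by
      field_simp
    rw [e]; exact this
  have hall' := hua_top h2 A' hA'1 hA'inv hA'μ hgen
  apply top_of_all_uT L hμ0 hl
  intro s
  have := hall' (s * μ)
  have e : s = s * μ * μ⁻¹ := by field_simp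
  rw [e]
  exact this

end Cfsg.Agent.H29.Dk
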