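import Mathlib
import Cfsg.Agent.H29.Dk9

/-!
# Dickson's generation theorem, exceptional case (helper29)

The exceptional case of the class equation (`q = 3`, index `10`) forces
`lam = ±1` or `lam ^ 2 = -1`.
-/

set_option autoImplicit false
set_option linter.unusedSimpArgs false
set_option linter.deprecated false
set_option linter.unusedVariables false

namespace Cfsg.Agent.H29.Dk

open Matrix Cfsg.Agent.H65.SL2

variable {F : Type*} [Field F] [Finite F]
variable (L : Subgroup (Matrix.SpecialLinearGroup (Fin 2) F))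

set_option maxHeartbeats 1600000 in
/-- The exceptional case: the possible values of `lam`. -/
theorem exc_cases (p : ℕ) [Fact p.Prime] [CharP F p] (hp : p ≠ 2) (h1 : uT (1 : F) ∈ L) {lam : F}
    (hl : lT lam ∈ L) (hl0 : lam ≠ 0) (hq : Nat.card (L ⊓ Un : Subgroup _) = 3)
    (hcard : Nat.card L = 10 * Nat.card (L ⊓ Bo : Subgroup _)) :
    lam = 1 ∨ lam = -1 ∨ lam ^ 2 = 1 - lam ∨ lam ^ 2 = lam + 1 ∨ lam ^ 2 = -1 := by
  classical
  have h2 : (2 : F) ≠ 0 := two_ne_zero_of (p := p) hp
  have h3 : (3 : F) = 0 := three_eq_zero_of L h1 hq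
  have hcases : ∀ {s : F}, uT s ∈ L → s = 0 ∨ s = 1 ∨ s = -1 :=
    fun hs => uT_mem_cases L h1 hq h2 hs
  by_cases hlam : lam = 1 ∨ lam = -1
  · rcases hlam with h | h
    · exact Or.inl h
    · exact Or.inr (Or.inl h)
  rw [not_or] at hlam
  obtain ⟨hlam1, hlam2⟩ := hlam
  have nod : ∀ d : F, (d = 0 ∨ d = 1 ∨ d = -1) → d * lam = 1 → False := by
    intro d hd h
    rcases hd with rfl | rfl | rfl
    · simp at h
    · exact hlam1 (by simpa using h)
    · exact hlam2 (by linear_combination -h)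
  have hum1 : uT (-1 : F) ∈ L := by rw [uT_neg]; exact L.inv_mem h1
  have hlm : lT (-lam) ∈ L := by rw [lT_neg]; exact L.inv_mem hl
  -- the element `g₀`
  obtain ⟨g₀, hg₀L, hg₀U⟩ := conj_into_T L p h1 hl (tr_lT lam)
  have hu := eq_uT_of_mem_Un hg₀U
  obtain ⟨s, hs⟩ : ∃ s : F, s = (g₀⁻¹ * lT lam * g₀).1 0 1 := ⟨_, rfl⟩
  rw [← hs] at hu
  have hlT : lT lam = g₀ * uT s * g₀⁻¹ := by rw [← hu]; group
  have h01 := conj_uT01 g₀ s
  have h10 := conj_uT10 g₀ s
  rw [← hlT] at h01 h10
  simp only [lT01, lT10] at h01 h10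
  have hs0 : s ≠ 0 := by
    rintro rfl
    apply hl0
    rw [h10]; ring
  have hg00 : g₀.1 0 0 = 0 := by
    rcases mul_eq_zero.1 h01.symm with h | h
    · exact absurd h hs0
    · exact pow_eq_zero_iff (two_ne_zero) |>.1 h
  have hγ : g₀.1 1 0 ≠ 0 := by
    intro h
    apply hl0
    rw [h10, h]; ring
  have hg₀B : g₀ ∉ (Bo : Subgroup (Matrix.SpecialLinearGroup (Fin 2) F)) := fun h => hγ (mem_Bo.1 h)
  have hlB : lT lam ∉ (Bo : Subgroup (Matrix.SpecialLinearGroup (Fin 2) F)) := lT_not_Bo hl0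
  have hlmB : lT (-lam) ∉ (Bo : Subgroup (Matrix.SpecialLinearGroup (Fin 2) F)) :=
    lT_not_Bo (neg_ne_zero.2 hl0)
  -- pairwise disjointness
  have d01 : Disjoint (Dc L g₀) (Dc L (lT lam)) := by
    rw [Set.disjoint_left]
    intro x hx hx'
    have hx10 : x.1 1 0 ≠ 0 := fun h => Dc_not_Bo L hg₀B hx (mem_Bo.2 h)
    obtain ⟨a, ha, r0⟩ := Dc_rel L hx
    obtain ⟨b, hb, r1⟩ := Dc_rel L hx'
    simp only [lT10, lT00] at r1
    rw [hg00] at r0
    have e0 : x.1 0 0 = a * x.1 1 0 := by
      have : g₀.1 1 0 * (x.1 0 0 - a * x.1 1 0) = 0 := by linear_combination r0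
      rcases mul_eq_zero.1 this with h | h
      · exact absurd h hγ
      · linear_combination h
    rw [e0] at r1
    have : x.1 1 0 * ((a - b) * lam - 1) = 0 := by linear_combination r1
    rcases mul_eq_zero.1 this with h | h
    · exact hx10 h
    · exact nod (a - b) (sub_cases3 h3 (hcases ha) (hcases hb)) (by linear_combination h)
  have d02 : Disjoint (Dc L g₀) (Dc L (lT (-lam))) := by
    rw [Set.disjoint_left]
    intro x hx hx'
    have hx10 : x.1 1 0 ≠ 0 := fun h => Dc_not_Bo L hg₀B hx (mem_Bo.2 h)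
    obtain ⟨a, ha, r0⟩ := Dc_rel L hx
    obtain ⟨b, hb, r1⟩ := Dc_rel L hx'
    simp only [lT10, lT00] at r1
    rw [hg00] at r0
    have e0 : x.1 0 0 = a * x.1 1 0 := by
      have : g₀.1 1 0 * (x.1 0 0 - a * x.1 1 0) = 0 := by linear_combination r0
      rcases mul_eq_zero.1 this with h | h
      · exact absurd h hγ
      · linear_combination h
    rw [e0] at r1
    have : x.1 1 0 * ((b - a) * lam - 1) = 0 := by linear_combination r1
    rcases mul_eq_zero.1 this with h | h
    · exact hx10 h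
    · exact nod (b - a) (sub_cases3 h3 (hcases hb) (hcases ha)) (by linear_combination h)
  have d12 : Disjoint (Dc L (lT lam)) (Dc L (lT (-lam))) := by
    rw [Set.disjoint_left]
    intro x hx hx'
    have hx10 : x.1 1 0 ≠ 0 := fun h => Dc_not_Bo L hlB hx (mem_Bo.2 h)
    obtain ⟨a, ha, r0⟩ := Dc_rel L hx
    obtain ⟨b, hb, r1⟩ := Dc_rel L hx'
    simp only [lT10, lT00] at r0 r1
    have : x.1 1 0 * ((a - b) * lam - 1) = 0 := by
      linear_combination (-1 : F) * r0 - r1 - x.1 1 0 * h3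
    rcases mul_eq_zero.1 this with h | h
    · exact hx10 h
    · exact nod (a - b) (sub_cases3 h3 (hcases ha) (hcases hb)) (by linear_combination h)
  have dB : ∀ g : Matrix.SpecialLinearGroup (Fin 2) F, g ∉ (Bo : Subgroup _) →
      Disjoint (Dc L g) ((L ⊓ Bo : Subgroup _) : Set (Matrix.SpecialLinearGroup (Fin 2) F)) := by
    intro g hg
    rw [Set.disjoint_left]
    intro x hx hx'
    exact Dc_not_Bo L hg hx (Subgroup.mem_inf.1 hx').2
  have e1 : ((L ⊓ Bo : Subgroup _) : Set (Matrix.SpecialLinearGroup (Fin 2) F)).ncard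
      = Nat.card (L ⊓ Bo : Subgroup _) := rfl
  have e2 : (L : Set (Matrix.SpecialLinearGroup (Fin 2) F)).ncard = Nat.card L := rfl
  have hsub : Dc L g₀ ∪ Dc L (lT lam) ∪ Dc L (lT (-lam)) ∪
      ((L ⊓ Bo : Subgroup _) : Set (Matrix.SpecialLinearGroup (Fin 2) F))
      ⊆ (L : Set (Matrix.SpecialLinearGroup (Fin 2) F)) := by
    refine Set.union_subset (Set.union_subset (Set.union_subset (Dc_subset L hg₀L)
      (Dc_subset L hl)) (Dc_subset L hlm)) ?_
    intro x hx
    exact (Subgroup.mem_inf.1 hx).1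
  have hun : (Dc L g₀ ∪ Dc L (lT lam) ∪ Dc L (lT (-lam)) ∪
      ((L ⊓ Bo : Subgroup _) : Set (Matrix.SpecialLinearGroup (Fin 2) F))).ncard
      = 10 * Nat.card (L ⊓ Bo : Subgroup _) := by
    rw [Set.ncard_union_eq (Set.disjoint_union_left.2 ⟨Set.disjoint_union_left.2
        ⟨dB g₀ hg₀B, dB _ hlB⟩, dB _ hlmB⟩) (Set.toFinite _) (Set.toFinite _),
      Set.ncard_union_eq (Set.disjoint_union_left.2 ⟨d02, d12⟩) (Set.toFinite _) (Set.toFinite _),
      Set.ncard_union_eq d01 (Set.toFinite _) (Set.toFinite _),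
      Dc_card L hg₀B, Dc_card L hlB, Dc_card L hlmB, e1, hq]
    ring
  have heq := Set.eq_of_subset_of_ncard_le hsub (by rw [hun, e2, hcard]) (Set.toFinite _)
  -- the element `g₁`
  have hg₁L : lT lam * uT 1 * g₀ ∈ (L : Set (Matrix.SpecialLinearGroup (Fin 2) F)) :=
    L.mul_mem (L.mul_mem hl h1) hg₀L
  have hg₁00 : (lT lam * uT 1 * g₀).1 0 0 = g₀.1 1 0 := by
    simp only [mul10, mul00, mul01, mul11, uT00, uT01, uT10, uT11, lT00, lT01, lT10, lT11, hg00]
    ring
  have hg₁10 : (lT lam * uT 1 * g₀).1 1 0 = (lam + 1) * g₀.1 1 0 := by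
    simp only [mul10, mul00, mul01, mul11, uT00, uT01, uT10, uT11, lT00, lT01, lT10, lT11, hg00]
    ring
  have hlam1' : lam + 1 ≠ 0 := fun h => hlam2 (by linear_combination h)
  rw [← heq] at hg₁L
  rcases hg₁L with ((hg₁ | hg₁) | hg₁) | hg₁
  · -- in `D₀`: impossible
    exfalso
    obtain ⟨a, ha, r⟩ := Dc_rel L hg₁
    rw [hg₁00, hg₁10, hg00] at r
    have : g₀.1 1 0 * g₀.1 1 0 * (a * (lam + 1) - 1) = 0 := by linear_combination -r
    rcases mul_eq_zero.1 this with h | h
    · exact hγ (mul_self_eq_zero.1 h)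
    · rcases hcases ha with rfl | rfl | rfl
      · simp at h
      · exact hl0 (by linear_combination h)
      · exact hlam1 (by linear_combination -h - h3)
  · -- in `D₁`
    obtain ⟨a, ha, r⟩ := Dc_rel L hg₁
    rw [hg₁00, hg₁10] at r
    simp only [lT10, lT00] at r
    have : g₀.1 1 0 * (a * lam * (lam + 1) + 1) = 0 := by linear_combination -r
    rcases mul_eq_zero.1 this with h | h
    · exact absurd h hγ
    · rcases hcases ha with rfl | rfl | rfl
      · simp at h
      · exfalso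
        have : (lam - 1) * (lam - 1) = 0 := by linear_combination h - lam * h3
        exact hlam1 (by linear_combination mul_self_eq_zero.1 this)
      · right; right; left
        linear_combination -h
  · -- in `D₂`
    obtain ⟨a, ha, r⟩ := Dc_rel L hg₁
    rw [hg₁00, hg₁10] at r
    simp only [lT10, lT00] at r
    have : g₀.1 1 0 * (a * lam * (lam + 1) - 2 * lam - 1) = 0 := by linear_combination r
    rcases mul_eq_zero.1 this with h | h
    · exact absurd h hγ
    · rcases hcases ha with rfl | rfl | rfl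
      · exfalso
        exact hlam1 (by linear_combination h + lam * h3)
      · right; right; right; left
        linear_combination h
      · right; right; right; right
        linear_combination -h - lam * h3
  · -- in `B`: impossible
    exfalso
    have := (Subgroup.mem_inf.1 hg₁).2
    rw [mem_Bo, hg₁10] at this
    exact mul_ne_zero hlam1' hγ this


omit [Finite F] in
/-- Conjugating `uT s` by an upper triangular matrix. -/
theorem conj_uT_of_Bo {x : Matrix.SpecialLinearGroup (Fin 2) F} (hx : x ∈ (Bo : Subgroup _))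
    (s : F) : x * uT s * x⁻¹ = uT (s * x.1 0 0 ^ 2) := by
  have hmem : x * uT s * x⁻¹ ∈ (Un : Subgroup _) := conj_mem_Un hx (uT_mem_Un s)
  rw [eq_uT_of_mem_Un hmem, conj_uT01]

/-- The case `lam ^ 2 = 1 - lam` cannot occur with `q = 3`. -/
theorem no_exc (h1 : uT (1 : F) ∈ L) {lam : F} (hl : lT lam ∈ L)
    (hq : Nat.card (L ⊓ Un : Subgroup _) = 3) (h2 : (2 : F) ≠ 0) (hlam : lam ^ 2 = 1 - lam) :
    False := by
  have h3 : (3 : F) = 0 := three_eq_zero_of L h1 hq
  have hum1 : uT (-1 : F) ∈ L := by rw [uT_neg]; exact L.inv_mem h1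
  have hlm : lT (-lam) ∈ L := by rw [lT_neg]; exact L.inv_mem hl
  have hx : uT (-1) * lT lam * uT 1 * lT (-lam) * uT 1 * lT (-lam) ∈ L :=
    L.mul_mem (L.mul_mem (L.mul_mem (L.mul_mem (L.mul_mem hum1 hl) h1) hlm) h1) hlm
  have h10 : (uT (-1) * lT lam * uT 1 * lT (-lam) * uT 1 * lT (-lam)).1 1 0 = 0 := by
    simp only [mul10, mul00, mul01, mul11, uT00, uT01, uT10, uT11, lT00, lT01, lT10, lT11]
    grind
  have h00 : (uT (-1) * lT lam * uT 1 * lT (-lam) * uT 1 * lT (-lam)).1 0 0 = -1 - lam := by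
    simp only [mul10, mul00, mul01, mul11, uT00, uT01, uT10, uT11, lT00, lT01, lT10, lT11]
    grind
  have hc := conj_uT_of_Bo (mem_Bo.2 h10) (1 : F)
  rw [h00] at hc
  have hmem : uT (1 * (-1 - lam) ^ 2) ∈ L := by
    rw [← hc]
    exact L.mul_mem (L.mul_mem hx h1) (L.inv_mem hx)
  have e : (1 : F) * (-1 - lam) ^ 2 = lam - 1 := by
    linear_combination hlam + h3
  rw [e] at hmem
  rcases uT_mem_cases L h1 hq h2 hmem with h | h | h
  · -- lam = 1
    have : lam = 1 := by linear_combination h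
    rw [this] at hlam
    norm_num at hlam
  · -- lam = 2 = -1
    have : lam = -1 := by linear_combination h + h3
    rw [this] at hlam
    apply h2
    linear_combination hlam + h3
  · -- lam = 0
    have : lam = 0 := by linear_combination h
    rw [this] at hlam
    norm_num at hlam

end Cfsg.Agent.H29.Dk
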