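import Mathlib
import Cfsg.Agent.H29.Dk10

/-!
# Dickson's generation theorem: the field with nine elements (helper29)

For `μ ^ 2 = -1` in characteristic `3`, the group generated by `uT 1` and `lT μ` is a proper
subgroup (it preserves a set of `40` vectors), the field generated by `μ` has nine elements,
and in the exceptional case of the class equation the Borel subgroup has order `12`.
-/

set_option autoImplicit false
set_option linter.unusedSimpArgs false
set_option linter.deprecated false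
set_option linter.unusedVariables false

namespace Cfsg.Agent.H29.Dk

open Matrix Cfsg.Agent.H65.SL2

/-- Bit mask of the `40` first columns of the group `⟨uT 1, lT i⟩ ≤ SL(2, 9)`. -/
def msk9 : ℕ := 1290698908711397158547534

/-- Membership in the invariant set of first columns `(a + b i, c + d i)`. -/
def Pm (a b c d : ZMod 3) : Bool :=
  Nat.testBit msk9 (a.val + 3 * b.val + 9 * c.val + 27 * d.val)

theorem Pm_u : ∀ a b c d : ZMod 3, Pm a b c d = true → Pm (a + c) (b + d) c d = true := by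
  decide

theorem Pm_u' : ∀ a b c d : ZMod 3, Pm a b c d = true → Pm (a - c) (b - d) c d = true := by
  decide

theorem Pm_l : ∀ a b c d : ZMod 3, Pm a b c d = true → Pm a b (c - b) (d + a) = true := by
  decide

theorem Pm_l' : ∀ a b c d : ZMod 3, Pm a b c d = true → Pm a b (c + b) (d - a) = true := by
  decide

theorem Pm_e : Pm 1 0 0 0 = true := by decide

theorem Pm_n : ¬ (Pm 1 1 0 0 = true) := by decide

theorem sq_add_sq_zmod3 : ∀ u v : ZMod 3, u ^ 2 + v ^ 2 = 0 → u = 0 ∧ v = 0 := by decide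

theorem zmod3_cases : ∀ k : ZMod 3, k = 0 ∨ k = 1 ∨ k = -1 := by decide

section F9

variable {F : Type*} [Field F] [CharP F 3]

/-- The embedding of the prime field. -/
def io (F : Type*) [Field F] [CharP F 3] : ZMod 3 →+* F := ZMod.castHom (dvd_refl 3) F

theorem io_inj : Function.Injective (io F) := (io F).injective

theorem phi_zero {μ : F} (hμ : μ ^ 2 = -1) {u v : ZMod 3} (h : io F u + io F v * μ = 0) :
    u = 0 ∧ v = 0 := by
  have h' : io F (u ^ 2 + v ^ 2) = 0 := by
    rw [map_add, map_pow, map_pow]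
    linear_combination (io F u - io F v * μ) * h + (io F v) ^ 2 * hμ
  exact sq_add_sq_zmod3 u v (io_inj (by rw [h', map_zero]))

theorem phi_inj {μ : F} (hμ : μ ^ 2 = -1) {u v u' v' : ZMod 3}
    (h : io F u + io F v * μ = io F u' + io F v' * μ) : u = u' ∧ v = v' := by
  have : io F (u - u') + io F (v - v') * μ = 0 := by
    rw [map_sub, map_sub]; linear_combination h
  obtain ⟨h1, h2⟩ := phi_zero hμ this
  exact ⟨sub_eq_zero.1 h1, sub_eq_zero.1 h2⟩

/-- The first column of every element of `⟨uT 1, lT μ⟩` lies in the invariant set. -/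
theorem col_inv {μ : F} (hμ : μ ^ 2 = -1) {g : Matrix.SpecialLinearGroup (Fin 2) F}
    (hg : g ∈ Subgroup.closure ({uT (1 : F), lT μ} : Set (Matrix.SpecialLinearGroup (Fin 2) F))) :
    ∃ a b c d : ZMod 3, Pm a b c d = true ∧ g.1 0 0 = io F a + io F b * μ ∧
      g.1 1 0 = io F c + io F d * μ := by
  induction hg using Subgroup.closure_induction_left with
  | one => exact ⟨1, 0, 0, 0, Pm_e, by simp, by simp⟩
  | mul_left x hx y hy ih =>
    obtain ⟨a, b, c, d, hP, h00, h10⟩ := ih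
    rcases hx with rfl | rfl
    · refine ⟨a + c, b + d, c, d, Pm_u _ _ _ _ hP, ?_, ?_⟩
      · rw [mul00, uT00, uT01, h00, h10, map_add, map_add]; ring
      · rw [mul10, uT10, uT11, h10]; ring
    · refine ⟨a, b, c - b, d + a, Pm_l _ _ _ _ hP, ?_, ?_⟩
      · rw [mul00, lT00, lT01, h00]; ring
      · rw [mul10, lT10, lT11, h00, h10, map_sub, map_add]
        linear_combination (io F b) * hμ
  | inv_mul_cancel x hx y hy ih =>
    obtain ⟨a, b, c, d, hP, h00, h10⟩ := ih
    rcases hx with rfl | rfl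
    · rw [← uT_neg]
      refine ⟨a - c, b - d, c, d, Pm_u' _ _ _ _ hP, ?_, ?_⟩
      · rw [mul00, uT00, uT01, h00, h10, map_sub, map_sub]; ring
      · rw [mul10, uT10, uT11, h10]; ring
    · rw [← lT_neg]
      refine ⟨a, b, c + b, d - a, Pm_l' _ _ _ _ hP, ?_, ?_⟩
      · rw [mul00, lT00, lT01, h00]; ring
      · rw [mul10, lT10, lT11, h00, h10, map_add, map_sub]
        linear_combination (-(io F b)) * hμ

/-- `⟨uT 1, lT μ⟩` is a proper subgroup when `μ ^ 2 = -1` in characteristic `3`. -/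
theorem f9_ne_top {μ : F} (hμ : μ ^ 2 = -1) :
    Subgroup.closure ({uT (1 : F), lT μ} : Set (Matrix.SpecialLinearGroup (Fin 2) F)) ≠ ⊤ := by
  intro htop
  have h3 : (3 : F) = 0 := by
    have := CharP.cast_eq_zero F 3
    exact_mod_cast this
  let M : Matrix.SpecialLinearGroup (Fin 2) F :=
    ⟨!![1 + μ, 0; 0, μ - 1], by
      rw [Matrix.det_fin_two_of]
      linear_combination hμ - h3⟩
  have hM : M ∈ Subgroup.closure
      ({uT (1 : F), lT μ} : Set (Matrix.SpecialLinearGroup (Fin 2) F)) := by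
    rw [htop]; exact Subgroup.mem_top _
  obtain ⟨a, b, c, d, hP, h00, h10⟩ := col_inv hμ hM
  have e00 : M.1 0 0 = io F 1 + io F 1 * μ := by simp [M]
  have e10 : M.1 1 0 = io F 0 + io F 0 * μ := by simp [M]
  rw [e00] at h00
  rw [e10] at h10
  obtain ⟨ha, hb⟩ := phi_inj hμ h00
  obtain ⟨hc, hd⟩ := phi_inj hμ h10
  subst ha hb hc hd
  exact Pm_n hP

/-- Every element of the field generated by `μ` is `u + v μ`. -/
theorem f9_surj {μ : F} (hμ : μ ^ 2 = -1) (hgen : Subfield.closure ({μ} : Set F) = ⊤) (x : F) :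
    ∃ u v : ZMod 3, x = io F u + io F v * μ := by
  let K : Subfield F :=
    { carrier := {x | ∃ u v : ZMod 3, x = io F u + io F v * μ}
      mul_mem' := by
        rintro _ _ ⟨u, v, rfl⟩ ⟨u', v', rfl⟩
        refine ⟨u * u' - v * v', u * v' + v * u', ?_⟩
        rw [map_sub, map_add, map_mul, map_mul, map_mul, map_mul]
        linear_combination (io F v * io F v') * hμ
      one_mem' := ⟨1, 0, by simp⟩
      add_mem' := by
        rintro _ _ ⟨u, v, rfl⟩ ⟨u', v', rfl⟩
        exact ⟨u + u', v + v', by rw [map_add, map_add]; ring⟩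
      zero_mem' := ⟨0, 0, by simp⟩
      neg_mem' := by
        rintro _ ⟨u, v, rfl⟩
        exact ⟨-u, -v, by rw [map_neg, map_neg]; ring⟩
      inv_mem' := by
        rintro _ ⟨u, v, rfl⟩
        by_cases h0 : io F u + io F v * μ = 0
        · rw [h0, _root_.inv_zero]; exact ⟨0, 0, by simp⟩
        have hn : u ^ 2 + v ^ 2 ≠ 0 := by
          intro h
          obtain ⟨rfl, rfl⟩ := sq_add_sq_zmod3 u v h
          simp at h0
        refine ⟨u * (u ^ 2 + v ^ 2)⁻¹, -v * (u ^ 2 + v ^ 2)⁻¹, ?_⟩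
        apply inv_eq_of_mul_eq_one_right
        have hn' : io F (u ^ 2 + v ^ 2) * io F (u ^ 2 + v ^ 2)⁻¹ = 1 := by
          rw [← map_mul, mul_inv_cancel₀ hn, map_one]
        rw [map_mul, map_mul, map_neg]
        rw [map_add, map_pow, map_pow] at hn'
        linear_combination hn' - (io F v) ^ 2 * (io F (u ^ 2 + v ^ 2)⁻¹) * hμ }
  have hle : Subfield.closure ({μ} : Set F) ≤ K := by
    rw [Subfield.closure_le]
    intro y hy
    rw [Set.mem_singleton_iff] at hy
    subst hy
    exact ⟨0, 1, by simp⟩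
  rw [hgen] at hle
  exact hle (Subfield.mem_top x)

/-- The field generated by a square root of `-1` in characteristic `3` has nine elements. -/
theorem f9_card [Fintype F] {μ : F} (hμ : μ ^ 2 = -1)
    (hgen : Subfield.closure ({μ} : Set F) = ⊤) : Fintype.card F = 9 := by
  have hbij : Function.Bijective (fun uv : ZMod 3 × ZMod 3 => io F uv.1 + io F uv.2 * μ) := by
    refine ⟨?_, ?_⟩
    · rintro ⟨u, v⟩ ⟨u', v'⟩ h
      obtain ⟨h1, h2⟩ := phi_inj hμ h
      exact Prod.ext h1 h2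
    · intro x
      obtain ⟨u, v, rfl⟩ := f9_surj hμ hgen x
      exact ⟨(u, v), rfl⟩
  rw [← Fintype.card_of_bijective hbij]
  simp [ZMod.card]

end F9

section Borel

variable {F : Type*} [Field F]

theorem pow_Bo {b : Matrix.SpecialLinearGroup (Fin 2) F} (hb : b ∈ (Bo : Subgroup _)) (k : ℕ) :
    b ^ k ∈ (Bo : Subgroup _) ∧ (b ^ k).1 0 0 = b.1 0 0 ^ k := by
  refine ⟨Subgroup.pow_mem _ hb _, ?_⟩
  induction k with
  | zero => simp
  | succ k ih =>
    rw [pow_succ, mul00, ih, mem_Bo.1 hb, mul_zero, add_zero, pow_succ]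

variable [Finite F] (L : Subgroup (Matrix.SpecialLinearGroup (Fin 2) F))

set_option maxHeartbeats 800000 in
/-- In the exceptional case with `μ ^ 2 = -1` the Borel subgroup of `L` has order `12`. -/
theorem borel_card12 (h1 : uT (1 : F) ∈ L) {μ : F} (hl : lT μ ∈ L)
    (hq : Nat.card (L ⊓ Un : Subgroup _) = 3) (h2 : (2 : F) ≠ 0) (hμ : μ ^ 2 = -1) :
    Nat.card (L ⊓ Bo : Subgroup _) = 12 := by
  classical
  have hcases : ∀ {s : F}, uT s ∈ L → s = 0 ∨ s = 1 ∨ s = -1 :=
    fun hs => uT_mem_cases L h1 hq h2 hs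
  have hμ0 : μ ≠ 0 := by
    rintro rfl
    norm_num at hμ
  have hum1 : uT (-1 : F) ∈ L := by rw [uT_neg]; exact L.inv_mem h1
  have hlm : lT (-μ) ∈ L := by rw [lT_neg]; exact L.inv_mem hl
  obtain ⟨b, hbdef⟩ : ∃ b, b = lT μ * uT (-1) * lT (-μ) * uT 1 * lT μ := ⟨_, rfl⟩
  have hbL : b ∈ L := by
    rw [hbdef]
    exact L.mul_mem (L.mul_mem (L.mul_mem (L.mul_mem hl hum1) hlm) h1) hl
  have hb10 : b.1 1 0 = 0 := by
    rw [hbdef]
    simp only [mul10, mul00, mul01, mul11, uT00, uT01, uT10, uT11, lT00, lT01, lT10, lT11]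
    linear_combination μ * hμ
  have hb00 : b.1 0 0 = μ := by
    rw [hbdef]
    simp only [mul10, mul00, mul01, mul11, uT00, uT01, uT10, uT11, lT00, lT01, lT10, lT11]
    linear_combination hμ
  have hbB : b ∈ (Bo : Subgroup (Matrix.SpecialLinearGroup (Fin 2) F)) := mem_Bo.2 hb10
  have hord : orderOf μ = 4 := by
    have : Fact (Nat.Prime 2) := ⟨Nat.prime_two⟩
    have := orderOf_eq_prime_pow (x := μ) (p := 2) (n := 1)
      (by
        intro h
        apply h2
        have h' : μ ^ 2 = 1 := by simpa using h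
        linear_combination hμ - h')
      (by
        have : μ ^ 2 ^ (1 + 1) = (μ ^ 2) ^ 2 := by rw [← pow_mul]; norm_num
        rw [this, hμ]; norm_num)
    simpa using this
  -- the parametrisation of the Borel subgroup
  let f : Fin 4 × (L ⊓ Un : Subgroup (Matrix.SpecialLinearGroup (Fin 2) F)) →
      (L ⊓ Bo : Subgroup (Matrix.SpecialLinearGroup (Fin 2) F)) := fun kt =>
    ⟨b ^ (kt.1 : ℕ) * kt.2.1, Subgroup.mem_inf.2
      ⟨L.mul_mem (L.pow_mem hbL _) (Subgroup.mem_inf.1 kt.2.2).1,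
        Subgroup.mul_mem _ (pow_Bo hbB _).1 (Un_le_Bo (Subgroup.mem_inf.1 kt.2.2).2)⟩⟩
  have h00 : ∀ kt, (f kt).1.1 0 0 = μ ^ (kt.1 : ℕ) := by
    intro kt
    show (b ^ (kt.1 : ℕ) * kt.2.1).1 0 0 = _
    rw [mul00, (pow_Bo hbB _).2, hb00, (mem_Un.1 (Subgroup.mem_inf.1 kt.2.2).2).2,
      (mem_Un.1 (Subgroup.mem_inf.1 kt.2.2).2).1]
    ring
  have hinj : Function.Injective f := by
    rintro ⟨k, t⟩ ⟨k', t'⟩ h
    have e := congrArg (fun x : (L ⊓ Bo : Subgroup (Matrix.SpecialLinearGroup (Fin 2) F)) =>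
      x.1.1 0 0) h
    simp only [h00] at e
    have hk : (k : ℕ) = k' :=
      pow_injOn_Iio_orderOf (by rw [hord]; exact k.2) (by rw [hord]; exact k'.2) e
    have hk' : k = k' := Fin.ext hk
    subst hk'
    have e2 : b ^ (k : ℕ) * t.1 = b ^ (k : ℕ) * t'.1 := congrArg Subtype.val h
    have : t = t' := Subtype.ext (mul_left_cancel e2)
    rw [this]
  have hsurj : Function.Surjective f := by
    rintro ⟨x, hx⟩
    have hxL := (Subgroup.mem_inf.1 hx).1
    have hxB := (Subgroup.mem_inf.1 hx).2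
    have hc := conj_uT_of_Bo hxB (1 : F)
    have hmem : uT (1 * x.1 0 0 ^ 2) ∈ L := by
      rw [← hc]; exact L.mul_mem (L.mul_mem hxL h1) (L.inv_mem hxL)
    have hx0 : x.1 0 0 ≠ 0 := by
      intro h0
      have hd := det_eq x
      rw [h0, mem_Bo.1 hxB] at hd
      simp at hd
    obtain ⟨k, hk⟩ : ∃ k : Fin 4, x.1 0 0 = μ ^ (k : ℕ) := by
      rcases hcases hmem with h | h | h
      · exfalso
        rw [one_mul] at h
        exact hx0 (pow_eq_zero_iff (two_ne_zero) |>.1 h)
      · have : (x.1 0 0 - 1) * (x.1 0 0 + 1) = 0 := by linear_combination h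
        rcases mul_eq_zero.1 this with h' | h'
        · exact ⟨0, by simp only [Fin.val_zero, pow_zero]; linear_combination h'⟩
        · refine ⟨2, ?_⟩
          show x.1 0 0 = μ ^ 2
          rw [hμ]; linear_combination h'
      · have : (x.1 0 0 - μ) * (x.1 0 0 + μ) = 0 := by linear_combination h - hμ
        rcases mul_eq_zero.1 this with h' | h'
        · refine ⟨1, ?_⟩
          show x.1 0 0 = μ ^ 1
          rw [pow_one]; linear_combination h'
        · refine ⟨3, ?_⟩
          show x.1 0 0 = μ ^ 3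
          linear_combination h' - μ * hμ
    have htL : (b ^ (k : ℕ))⁻¹ * x ∈ L := L.mul_mem (L.inv_mem (L.pow_mem hbL _)) hxL
    have htB : (b ^ (k : ℕ))⁻¹ * x ∈ (Bo : Subgroup (Matrix.SpecialLinearGroup (Fin 2) F)) :=
      Subgroup.mul_mem _ (Subgroup.inv_mem _ (pow_Bo hbB _).1) hxB
    have htU : (b ^ (k : ℕ))⁻¹ * x ∈ (Un : Subgroup (Matrix.SpecialLinearGroup (Fin 2) F)) := by
      rw [mem_Un]
      refine ⟨mem_Bo.1 htB, ?_⟩
      have e : x = b ^ (k : ℕ) * ((b ^ (k : ℕ))⁻¹ * x) := by group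
      have e00 : x.1 0 0 = (b ^ (k : ℕ) * ((b ^ (k : ℕ))⁻¹ * x)).1 0 0 := by rw [← e]
      rw [mul00, (pow_Bo hbB _).2, hb00, mem_Bo.1 htB, mul_zero, add_zero, hk] at e00
      have hμk : μ ^ (k : ℕ) ≠ 0 := pow_ne_zero _ hμ0
      exact mul_left_cancel₀ hμk (by rw [← e00, mul_one])
    refine ⟨(k, ⟨_, Subgroup.mem_inf.2 ⟨htL, htU⟩⟩), ?_⟩
    apply Subtype.ext
    show b ^ (k : ℕ) * ((b ^ (k : ℕ))⁻¹ * x) = x
    group
  have hcard := Nat.card_congr (Equiv.ofBijective f ⟨hinj, hsurj⟩)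
  rw [← hcard, Nat.card_prod, Nat.card_fin, hq]

end Borel

end Cfsg.Agent.H29.Dk
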