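import Cfsg.Agent.H86.FusSat
import Cfsg.Agent.H86.FusNormal
import Cfsg.Agent.H86.FusSylow
import Cfsg.Agent.H86.GrpLemmas

/-!
# The fusion system generated by `Inn(S)` and the injective maps inside the conjugates of `E`
(helper29)

For subgroups `E ≤ S`, `eSys S E hE` is the fusion system over `S` whose maps with source `P ≤ S` are
the conjugations by elements of `S` together with all injective homomorphisms `φ : P → S` such that
`P ≤ s E s⁻¹` and `φ(P) ≤ s' E s'⁻¹` for some `s, s' ∈ S`.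

Generic facts: description of the maps (`mor_eSys_iff`), subgroups not contained in a conjugate of
`E` are fully automized and receptive, the trivial subgroup is, reduction of saturation to the
subgroups of the conjugates of `E` (`eSys_saturated`), and a criterion for `S` not being normal in
the system (`eSys_not_normal`).
-/

set_option autoImplicit false

namespace Cfsg.Agent.H29.ES

open Cfsg Cfsg.FusionSystem Cfsg.Agent.H86

variable {Ω : Type*} [Group Ω]

/-- The fusion system over `S` generated by the inner maps and all injective homomorphisms between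
subgroups of the `S`-conjugates of `E`. -/
def eSys (S E : Subgroup Ω) (hE : E ≤ S) : FusionSystem S where
  Hom P := {φ | P ≤ S ∧ ((∃ g ∈ S, ∀ x : P, φ x = g * (x : Ω) * g⁻¹) ∨
    (Function.Injective φ ∧ ∃ s ∈ S, ∃ s' ∈ S, (∀ x : P, s⁻¹ * (x : Ω) * s ∈ E) ∧
      ∀ x : P, s'⁻¹ * φ x * s' ∈ E))}
  le_of_mem := by
    rintro P φ ⟨hP, h⟩
    refine ⟨hP, fun x => ?_⟩
    rcases h with ⟨g, hg, h⟩ | ⟨-, s, hs, s', hs', -, h⟩
    · rw [h]
      exact S.mul_mem (S.mul_mem hg (hP x.2)) (S.inv_mem hg)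
    · have h1 := hE (h x)
      have e : φ x = s' * (s'⁻¹ * φ x * s') * s'⁻¹ := by group
      rw [e]
      exact S.mul_mem (S.mul_mem hs' h1) (S.inv_mem hs')
  injective_of_mem := by
    rintro P φ ⟨hP, h⟩
    rcases h with ⟨g, hg, h⟩ | ⟨hinj, -⟩
    · intro a b hab
      rw [h, h] at hab
      exact Subtype.ext (mul_left_cancel (mul_right_cancel hab))
    · exact hinj
  conj_mem := by
    intro P g hP hg
    exact ⟨hP, Or.inl ⟨g, hg, fun x => rfl⟩⟩
  comp_mem := by
    rintro P Q φ ψ ⟨hP, hφ⟩ ⟨hQ, hψ⟩ h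
    refine ⟨hP, ?_⟩
    have hφinj : Function.Injective φ := by
      rcases hφ with ⟨g, hg, hφ⟩ | ⟨hinj, -⟩
      · intro a b hab
        rw [hφ, hφ] at hab
        exact Subtype.ext (mul_left_cancel (mul_right_cancel hab))
      · exact hinj
    have hψinj : Function.Injective ψ := by
      rcases hψ with ⟨g, hg, hψ⟩ | ⟨hinj, -⟩
      · intro a b hab
        rw [hψ, hψ] at hab
        exact Subtype.ext (mul_left_cancel (mul_right_cancel hab))
      · exact hinj
    have hcinj : Function.Injective (ψ.comp (φ.codRestrict Q h)) := by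
      intro a b hab
      have h1 : (φ.codRestrict Q h) a = (φ.codRestrict Q h) b := hψinj hab
      exact hφinj (congrArg Subtype.val h1)
    have hcapp : ∀ x : P, (ψ.comp (φ.codRestrict Q h)) x = ψ ⟨φ x, h x⟩ := fun x => rfl
    rcases hφ with ⟨g, hg, hφ⟩ | ⟨hinj, s, hs, s', hs', h1, h2⟩
    · rcases hψ with ⟨g', hg', hψ⟩ | ⟨hinj', t, ht, t', ht', h1', h2'⟩
      · left
        refine ⟨g' * g, S.mul_mem hg' hg, fun x => ?_⟩
        rw [hcapp, hψ]
        show g' * φ x * g'⁻¹ = _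
        rw [hφ]
        group
      · right
        refine ⟨hcinj, g⁻¹ * t, S.mul_mem (S.inv_mem hg) ht, t', ht', fun x => ?_, fun x => ?_⟩
        · have h3 := h1' ⟨φ x, h x⟩
          have e : (g⁻¹ * t)⁻¹ * (x : Ω) * (g⁻¹ * t) = t⁻¹ * (g * (x : Ω) * g⁻¹) * t := by group
          rw [e, ← hφ]
          exact h3
        · rw [hcapp]
          exact h2' ⟨φ x, h x⟩
    · rcases hψ with ⟨g', hg', hψ⟩ | ⟨hinj', t, ht, t', ht', h1', h2'⟩
      · right
        refine ⟨hcinj, s, hs, g' * s', S.mul_mem hg' hs', h1, fun x => ?_⟩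
        rw [hcapp, hψ]
        have e : (g' * s')⁻¹ * (g' * ((⟨φ x, h x⟩ : Q) : Ω) * g'⁻¹) * (g' * s') =
            s'⁻¹ * φ x * s' := by group
        rw [e]
        exact h2 x
      · right
        refine ⟨hcinj, s, hs, t', ht', h1, fun x => ?_⟩
        rw [hcapp]
        exact h2' ⟨φ x, h x⟩
  inv_mem := by
    rintro P φ ⟨hP, hφ⟩
    rcases hφ with ⟨g, hg, hφ⟩ | ⟨hinj, s, hs, s', hs', h1, h2⟩
    · have hr : φ.range ≤ S := by
        rintro _ ⟨x, rfl⟩
        rw [hφ]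
        exact S.mul_mem (S.mul_mem hg (hP x.2)) (S.inv_mem hg)
      refine ⟨conjHom φ.range g⁻¹, ⟨hr, Or.inl ⟨g⁻¹, S.inv_mem hg, fun x => rfl⟩⟩, fun x => ?_⟩
      show g⁻¹ * φ x * g⁻¹⁻¹ = x
      rw [hφ]
      group
    · have hr : φ.range ≤ S := by
        rintro _ ⟨x, rfl⟩
        have h3 := hE (h2 x)
        have e : φ x = s' * (s'⁻¹ * φ x * s') * s'⁻¹ := by group
        rw [e]
        exact S.mul_mem (S.mul_mem hs' h3) (S.inv_mem hs')
      refine ⟨P.subtype.comp (MonoidHom.ofInjective hinj).symm.toMonoidHom,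
        ⟨hr, Or.inr ⟨?_, s', hs', s, hs, ?_, ?_⟩⟩, fun x => ?_⟩
      · intro a b hab
        have h3 : (MonoidHom.ofInjective hinj).symm a = (MonoidHom.ofInjective hinj).symm b :=
          Subtype.ext hab
        exact (MonoidHom.ofInjective hinj).symm.injective h3
      · rintro ⟨_, x, rfl⟩
        exact h2 x
      · intro y
        exact h1 ((MonoidHom.ofInjective hinj).symm y)
      · show (((MonoidHom.ofInjective hinj).symm ⟨φ x, ⟨x, rfl⟩⟩ : P) : Ω) = x
        have h3 : (MonoidHom.ofInjective hinj).symm ⟨φ x, ⟨x, rfl⟩⟩ = x := by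
          rw [MulEquiv.symm_apply_eq]
          exact Subtype.ext rfl
        rw [h3]

/-- `P` is contained in an `S`-conjugate of `E`. -/
def InE (S E P : Subgroup Ω) : Prop := ∃ s ∈ S, ∀ x ∈ P, s⁻¹ * x * s ∈ E

variable {S E : Subgroup Ω} {hE : E ≤ S}

theorem mor_eSys_iff {P : Subgroup Ω} {f : Ω → Ω} :
    Mor (eSys S E hE) P f ↔ P ≤ S ∧ ((∃ g ∈ S, ∀ x ∈ P, f x = g * x * g⁻¹) ∨
      (Set.InjOn f (P : Set Ω) ∧ (∀ x ∈ P, ∀ y ∈ P, f (x * y) = f x * f y) ∧
        ∃ s ∈ S, ∃ s' ∈ S, (∀ x ∈ P, s⁻¹ * x * s ∈ E) ∧ ∀ x ∈ P, s'⁻¹ * f x * s' ∈ E)) := by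
  constructor
  · rintro ⟨φ, ⟨hP, hφ⟩, hφf⟩
    refine ⟨hP, ?_⟩
    rcases hφ with ⟨g, hg, hφ⟩ | ⟨hinj, s, hs, s', hs', h1, h2⟩
    · left
      exact ⟨g, hg, fun x hx => by rw [← hφf ⟨x, hx⟩, hφ]⟩
    · right
      refine ⟨fun x hx y hy hxy => ?_, fun x hx y hy => ?_, s, hs, s', hs',
        fun x hx => h1 ⟨x, hx⟩, fun x hx => ?_⟩
      · have h3 : φ ⟨x, hx⟩ = φ ⟨y, hy⟩ := by
          rw [hφf ⟨x, hx⟩, hφf ⟨y, hy⟩]
          exact hxy
        exact congrArg Subtype.val (hinj h3)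
      · have h3 := hφf (⟨x, hx⟩ * ⟨y, hy⟩)
        rw [map_mul, hφf ⟨x, hx⟩, hφf ⟨y, hy⟩] at h3
        exact h3.symm
      · rw [← hφf ⟨x, hx⟩]
        exact h2 ⟨x, hx⟩
  · rintro ⟨hP, h⟩
    rcases h with ⟨g, hg, h⟩ | ⟨hinj, hmul, s, hs, s', hs', h1, h2⟩
    · exact (Mor.conj (eSys S E hE) hP hg).congr (fun x hx => (h x hx).symm)
    · have hone : f 1 = 1 := by
        have h3 := hmul 1 P.one_mem 1 P.one_mem
        rw [mul_one] at h3
        exact (mul_eq_left.1 h3.symm)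
      let φ : P →* Ω :=
        { toFun := fun x => f x
          map_one' := hone
          map_mul' := fun x y => hmul x x.2 y y.2 }
      refine ⟨φ, ⟨hP, Or.inr ⟨fun a b hab => Subtype.ext (hinj a.2 b.2 hab), s, hs, s', hs',
        fun x => h1 x x.2, fun x => h2 x x.2⟩⟩, fun x => rfl⟩

/-- A subgroup whose system automorphisms are all induced by `S` is fully automized. -/
theorem fullyAutomized_of_le {S : Subgroup Ω} {p : ℕ} (hS : IsPGroup p S) {F : FusionSystem S}
    {Q : Subgroup Ω} (hQ : Q ≤ S) (h : F.autGroup Q ≤ autInducedBy S Q) :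
    F.IsFullyAutomized p Q := by
  have hX : IsPGroup p (F.autGroup Q) := (autInducedBy_isPGroup hS Q).to_le h
  obtain ⟨R⟩ := (inferInstance : Nonempty (Sylow p (F.autGroup Q)))
  refine ⟨hQ, R, ?_⟩
  rw [sylow_eq_top_of_isPGroup hX R]
  exact (Subgroup.subgroupOf_eq_top.2 h).symm

theorem fullyAutomized_bot {S : Subgroup Ω} {p : ℕ} (hS : IsPGroup p S) (F : FusionSystem S) :
    F.IsFullyAutomized p ⊥ := by
  refine fullyAutomized_of_le hS bot_le (fun α _ => ?_)
  have h1 : α = 1 := by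
    apply MulEquiv.ext
    intro x
    have hx : x = 1 := Subtype.ext (Subgroup.mem_bot.1 x.2)
    rw [hx, map_one]
    rfl
  rw [h1]
  exact Subgroup.one_mem _

theorem receptive_bot {S : Subgroup Ω} (F : FusionSystem S) : F.IsReceptive ⊥ := by
  refine receptive_of bot_le (fun P f hf himg N hN => ?_)
  have hNS : N ≤ S := fun g hg => ((hN g).1 hg).1
  refine ⟨fun x => x, Mor.id F hNS, fun x hx => ?_⟩
  have h1 : f x = 1 := by
    have h2 := hf.mem_imgS_of_mem hx
    rw [himg] at h2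
    exact Subgroup.mem_bot.1 h2
  have h3 : f x = f 1 := by rw [h1, hf.map_one]
  have hx1 : x = 1 := hf.injOn hx P.one_mem h3
  show x = f x
  rw [h1, hx1]

theorem eSys_fullyAutomized_of_not_inE (hS : IsPGroup 2 S) {P : Subgroup Ω} (hP : P ≤ S)
    (hn : ¬ InE S E P) : (eSys S E hE).IsFullyAutomized 2 P := by
  refine fullyAutomized_of_le hS hP (fun α hα => ?_)
  rw [mem_autGroup_iff hP] at hα
  obtain ⟨-, h⟩ := mor_eSys_iff.1 hα
  rcases h with ⟨g, hg, h⟩ | ⟨-, -, s, hs, -, -, h1, -⟩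
  · rw [mem_autInducedBy_iff]
    exact ⟨g, hg, fun x => by rw [← autFun_apply α x]; exact h x x.2⟩
  · exact absurd ⟨s, hs, h1⟩ hn

theorem eSys_receptive_of_not_inE {P : Subgroup Ω} (hP : P ≤ S) (hn : ¬ InE S E P) :
    (eSys S E hE).IsReceptive P := by
  refine receptive_of hP (fun P' f hf himg N hN => ?_)
  have hNS : N ≤ S := fun g hg => ((hN g).1 hg).1
  obtain ⟨-, h⟩ := mor_eSys_iff.1 hf
  rcases h with ⟨g, hg, h⟩ | ⟨-, -, -, -, s', hs', -, h2⟩
  · exact ⟨fun x => g * x * g⁻¹, Mor.conj _ hNS hg, fun x hx => (h x hx).symm⟩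
  · exfalso
    apply hn
    refine ⟨s', hs', fun y hy => ?_⟩
    rw [← himg] at hy
    obtain ⟨x, hx, rfl⟩ := hf.mem_imgS.1 hy
    exact h2 x hx

/-- Saturation of `eSys` reduces to the subgroups of the conjugates of `E`. -/
theorem eSys_saturated (hS : IsPGroup 2 S)
    (h : ∀ P : Subgroup Ω, P ≤ S → InE S E P → ∃ Q : Subgroup Ω, (eSys S E hE).IsConj P Q ∧
      (eSys S E hE).IsFullyAutomized 2 Q ∧ (eSys S E hE).IsReceptive Q) :
    (eSys S E hE).IsSaturated 2 := by
  intro P hP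
  by_cases hin : InE S E P
  · exact h P hP hin
  · exact ⟨P, isConj_refl _ hP, eSys_fullyAutomized_of_not_inE hS hP hin,
      eSys_receptive_of_not_inE hP hin⟩

/-- If `S` is not contained in a conjugate of `E` and some map of the system on `E` is not induced
by an element of `S`, then `S` is not normal in the system. -/
theorem eSys_not_normal (hSE : ¬ InE S E S) (f : Ω → Ω) (hf : Mor (eSys S E hE) E f)
    (hnot : ¬ ∃ g ∈ S, ∀ x ∈ E, f x = g * x * g⁻¹) : ¬ (eSys S E hE).IsNormal S := by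
  intro hN
  obtain ⟨-, H⟩ := isNormal_iff.1 hN
  obtain ⟨f', hf', hf'f, -⟩ := H E f hf
  have hsup : E ⊔ S = S := sup_eq_right.2 hE
  rw [hsup] at hf'
  obtain ⟨-, h⟩ := mor_eSys_iff.1 hf'
  rcases h with ⟨g, hg, h⟩ | ⟨-, -, s, hs, -, -, h1, -⟩
  · exact hnot ⟨g, hg, fun x hx => by rw [← hf'f x hx]; exact h x (hE hx)⟩
  · exact hSE ⟨s, hs, h1⟩

end Cfsg.Agent.H29.ES
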