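import Cfsg.Agent.H29.MetaAut
import Cfsg.Agent.H29.MetaTwoFus
import Cfsg.Agent.H86.SuperSolFus

/-!
# Saturated fusion systems with `S` normal and `Aut(S)` a `p`-group are inner (helper29)
-/

set_option autoImplicit false

namespace Cfsg.Agent.H29.MA

open Cfsg Cfsg.FusionSystem Cfsg.Agent.H86

variable {Ω : Type*} [Group Ω]

theorem hom_eq_inner {S : Subgroup Ω} [Finite S] {p : ℕ} [Fact p.Prime] (hS : IsPGroup p S)
    {F : FusionSystem S} (hF : F.IsSaturated p) (hN : F.IsNormal S)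
    (hA : IsPGroup p (MulAut S)) :
    ∀ P : Subgroup Ω, F.Hom P = (innerFusionSystem S).Hom P := by
  have hAut : F.autGroup S ≤ Inn S := by
    obtain ⟨Q, hSQ, hQa, -⟩ := hF S le_rfl
    have hQS : Q = S :=
      Subgroup.eq_of_le_of_card_ge (isConj_le_right hSQ) (le_of_eq (isConj_card hSQ).symm)
    rw [hQS] at hQa
    obtain ⟨R, hR⟩ := hQa.2
    rw [autInducedBy_self] at hR
    have hX : IsPGroup p (F.autGroup S) := hA.to_subgroup _
    rw [sylow_eq_top_of_isPGroup hX R] at hR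
    exact Subgroup.subgroupOf_eq_top.1 hR.symm
  intro P
  ext φ
  constructor
  · intro hφ
    have hP : P ≤ S := (F.le_of_mem hφ).1
    refine ⟨hP, ?_⟩
    obtain ⟨-, H⟩ := isNormal_iff.1 hN
    obtain ⟨f', hf', hf'φ, himg⟩ := H P (extFun P φ) (mor_extFun hφ)
    have hsup : P ⊔ S = S := sup_eq_right.2 hP
    rw [hsup] at hf'
    have hmem := hAut (mkAut_mem hf' himg)
    obtain ⟨r, hr, hrx⟩ := (mem_inn_iff _).1 hmem
    refine ⟨r, hr, fun x => ?_⟩
    have h1 := hrx ⟨x, hP x.2⟩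
    rw [mkAut_apply] at h1
    rw [← extFun_apply P φ x, ← hf'φ x x.2]
    exact h1
  · rintro ⟨hP, g, hg, h⟩
    have : φ = conjHom P g := MonoidHom.ext h
    rw [this]
    exact F.conj_mem hP hg

/-- A metacyclic `2`-group which is not homocyclic of rank two, dihedral, generalized quaternion or
quasi-dihedral supports only the inner saturated fusion system. -/
theorem metacyclic_two_inner {S : Subgroup Ω} [Finite S] (hS : IsPGroup 2 S)
    (F : FusionSystem S) (hF : F.IsSaturated 2) (hm : IsMetacyclic ↥S)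
    (hh : ¬ ∃ n : ℕ, 0 < n ∧
      Nonempty (↥S ≃* Multiplicative (ZMod (2 ^ n)) × Multiplicative (ZMod (2 ^ n))))
    (hd : ¬ ∃ m : ℕ, Nonempty (↥S ≃* DihedralGroup m))
    (hq : ¬ ∃ m : ℕ, Nonempty (↥S ≃* QuaternionGroup m))
    (hsd : ¬ Cfsg.IsQuasiDihedral ↥S) :
    ∀ P : Subgroup Ω, F.Hom P = (innerFusionSystem S).Hom P := by
  haveI : Fact (Nat.Prime 2) := ⟨Nat.prime_two⟩
  have hN := Cfsg.Agent.H29.MW.metacyclic_stronglyClosed_normal_two 2 hS F hF S
    (stronglyClosed_self F) rfl hm hd hq hsd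
  have hA : IsPGroup 2 (MulAut ↥S) := mulAut_isPGroup_two hS hm hh (fun h => hq ⟨2, h⟩)
  exact hom_eq_inner hS hF hN hA

end Cfsg.Agent.H29.MA
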