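import Mathlib
import Cfsg.Agent.H29.MetaAut

/-!
# Automorphism groups of metacyclic `p`-groups, `p` odd (helper29)

* `aut_odd_irred`: if a set of automorphisms of a metacyclic `p`-group `X` (`p` odd) leaves no
  line of the Frattini quotient invariant, then `X ≅ C_{p^n} × C_{p^n}`.
-/

set_option autoImplicit false

namespace Cfsg.Agent.H29.MO

open Cfsg Cfsg.Agent.H29.MW Cfsg.Agent.H29.MA

/-- In a group of exponent `p`, a nontrivial power of `b` generates `⟨b⟩`. -/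
theorem mem_zpowers_swap {W : Type*} [Group W] {p : ℕ} [hp : Fact p.Prime] {a b : W}
    (hb : b ^ p = 1) (ha : a ≠ 1) (hab : a ∈ Subgroup.zpowers b) : b ∈ Subgroup.zpowers a := by
  obtain ⟨k, rfl⟩ := Subgroup.mem_zpowers_iff.1 hab
  have hpk : ¬ (p : ℤ) ∣ k := by
    rintro ⟨r, rfl⟩
    apply ha
    rw [zpow_mul, zpow_natCast, hb, one_zpow]
  have hcop : IsCoprime k (p : ℤ) := by
    have h1 := (Int.prime_iff_natAbs_prime.2 (by simpa using hp.out)).coprime_iff_not_dvd.2 hpk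
    exact h1.symm
  obtain ⟨u, v, huv⟩ := hcop
  refine Subgroup.mem_zpowers_iff.2 ⟨u, ?_⟩
  calc (b ^ k) ^ u = b ^ (k * u) := (zpow_mul b k u).symm
    _ = b ^ (1 - (p : ℤ) * v) := by congr 1; linarith
    _ = b := by rw [zpow_sub, zpow_one, zpow_mul, zpow_natCast, hb, one_zpow, inv_one, mul_one]

/-- In a group of exponent `p`, `w ^ a` only depends on `a` modulo `p`. -/
theorem pow_eq_of_exp {W : Type*} [Group W] {p : ℕ} {w : W} (hw : w ^ p = 1) {a b c : ℕ}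
    (h1 : p ∣ a + c) (h2 : p ∣ b + c) : w ^ a = w ^ b := by
  obtain ⟨r, hr⟩ := h1
  obtain ⟨s, hs⟩ := h2
  have e1 : w ^ a * w ^ c = 1 := by rw [← pow_add, hr, pow_mul, hw, one_pow]
  have e2 : w ^ b * w ^ c = 1 := by rw [← pow_add, hs, pow_mul, hw, one_pow]
  exact mul_right_cancel (e1.trans e2.symm)

/-- An automorphism of `p'`-order (in a `p'`-group of automorphisms) acting trivially on the
Frattini quotient is trivial. -/
theorem eq_one_of_frQuot_eq_one {X : Type*} [Group X] [Finite X] {p : ℕ} [Fact p.Prime]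
    (hX : IsPGroup p X) (H : Subgroup (MulAut X)) (hH : (Nat.card H).Coprime p)
    {h : MulAut X} (hh : h ∈ H) (h1 : frQuot X h = 1) : h = 1 := by
  have hk : h ∈ (frQuot X).ker := MonoidHom.mem_ker.2 h1
  obtain ⟨k, hk'⟩ := (frQuot_ker_isPGroup hX) ⟨h, hk⟩
  have hk2 : h ^ p ^ k = 1 := by
    have := congrArg Subtype.val hk'
    simpa using this
  have hc : h ^ Nat.card H = 1 := by
    have h3 : (⟨h, hh⟩ : H) ^ Nat.card H = 1 := pow_card_eq_one'
    have h4 := congrArg Subtype.val h3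
    rwa [Subgroup.coe_pow] at h4
  have h3 : orderOf h ∣ Nat.gcd (p ^ k) (Nat.card H) :=
    Nat.dvd_gcd (orderOf_dvd_of_pow_eq_one hk2) (orderOf_dvd_of_pow_eq_one hc)
  have h4 : Nat.gcd (p ^ k) (Nat.card H) = 1 := Nat.Coprime.pow_left k hH.symm
  rw [h4, Nat.dvd_one, orderOf_eq_one_iff] at h3
  exact h3

/-- If a set `H` of automorphisms of a metacyclic `p`-group `X`, `p` odd, leaves no line of the
Frattini quotient invariant, then `X` is homocyclic of rank two. -/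
theorem aut_odd_irred {X : Type*} [Group X] [Finite X] (p : ℕ) [Fact p.Prime] (hp : p ≠ 2)
    (hX : IsPGroup p X) (hm : IsMetacyclic X) (H : Subgroup (MulAut X))
    (w₀ : X ⧸ frattini X) (hw₀ : w₀ ≠ 1)
    (hirr : ∀ w : X ⧸ frattini X, w ≠ 1 → ∃ h ∈ H, frQuot X h w ∉ Subgroup.zpowers w) :
    ∃ n : ℕ, 0 < n ∧
      Nonempty (X ≃* Multiplicative (ZMod (p ^ n)) × Multiplicative (ZMod (p ^ n))) := by
  have hpp := Fact.out (p := p.Prime)
  have hcomm : ∀ a b : X ⧸ frattini X, a * b = b * a := frQuot_comm hX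
  have hexp : ∀ a : X ⧸ frattini X, a ^ p = 1 := frQuot_exp hX
  have hcard : Nat.card (X ⧸ frattini X) ≤ p ^ 2 := card_frQuot_le hX hm
  obtain ⟨N, hNn, hNc, hQc⟩ := hm
  obtain ⟨⟨ν₁, hν₁N⟩, hgen⟩ := IsCyclic.exists_generator (α := ↥N)
  have hνm : ∀ n ∈ N, n ∈ Subgroup.zpowers ν₁ := by
    intro n hn
    obtain ⟨k, hk⟩ := Subgroup.mem_zpowers_iff.1 (hgen ⟨n, hn⟩)
    exact Subgroup.mem_zpowers_iff.2 ⟨k, by have := congrArg Subtype.val hk; simpa using this⟩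
  have hN : ∀ x : X, x * ν₁ * x⁻¹ ∈ Subgroup.zpowers ν₁ :=
    fun x => hνm _ (hNn.conj_mem _ hν₁N x)
  obtain ⟨g0, hg0⟩ := IsCyclic.exists_generator (α := X ⧸ N)
  obtain ⟨g, rfl⟩ := QuotientGroup.mk'_surjective N g0
  have hw1 : QuotientGroup.mk' (frattini X) ν₁ ≠ 1 := by
    intro h
    have hall : ∀ w : X ⧸ frattini X,
        w ∈ Subgroup.zpowers (QuotientGroup.mk' (frattini X) g) := by
      intro w
      obtain ⟨x, rfl⟩ := QuotientGroup.mk'_surjective (frattini X) w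
      obtain ⟨k, hk⟩ := Subgroup.mem_zpowers_iff.1 (hg0 (QuotientGroup.mk' N x))
      have hk' : ((g ^ k : X) : X ⧸ N) = ((x : X) : X ⧸ N) :=
        (map_zpow (QuotientGroup.mk' N) g k).trans hk
      have h3 := hνm _ (QuotientGroup.eq.1 hk')
      obtain ⟨j, hj⟩ := Subgroup.mem_zpowers_iff.1 h3
      have e : x = g ^ k * ν₁ ^ j := by rw [hj]; group
      rw [e, map_mul, map_zpow, map_zpow, h, one_zpow, mul_one]
      exact Subgroup.zpow_mem_zpowers _ k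
    by_cases hg1 : QuotientGroup.mk' (frattini X) g = 1
    · apply hw₀
      obtain ⟨k, rfl⟩ := Subgroup.mem_zpowers_iff.1 (hall w₀)
      rw [hg1, one_zpow]
    · obtain ⟨h', -, hh'⟩ := hirr _ hg1
      exact hh' (hall _)
  obtain ⟨β, hβH, hw2⟩ := hirr _ hw1
  obtain ⟨hgenX, hN2, hord2, hc1, hc2, hcc⟩ := core_setup hX hcard ν₁ hN β hw1 hw2
  have hmk2 : frQuot X β (QuotientGroup.mk' (frattini X) ν₁) =
      QuotientGroup.mk' (frattini X) (β ν₁) := rfl
  rw [hmk2] at hw2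
  obtain ⟨ν₂, hν₂⟩ : ∃ ν₂, β ν₁ = ν₂ := ⟨_, rfl⟩
  rw [hν₂] at hgenX hN2 hord2 hc1 hc2 hcc hw2
  obtain ⟨μ, hμ⟩ : ∃ μ, orderOf ν₁ = p ^ μ := by
    obtain ⟨k, hk⟩ := hX ν₁
    obtain ⟨e, -, he⟩ := (Nat.dvd_prime_pow hpp).1 (orderOf_dvd_of_pow_eq_one hk)
    exact ⟨e, he⟩
  have hν₁ne : ν₁ ≠ 1 := by
    intro h
    apply hw1
    rw [h, map_one]
  have hμ1 : 1 ≤ μ := by
    by_contra hlt
    have h0 : μ = 0 := by omega
    rw [h0, pow_zero, orderOf_eq_one_iff] at hμ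
    exact hν₁ne hμ
  refine ⟨μ, hμ1, ?_⟩
  by_cases hD : ∀ d : X, d ∈ Subgroup.zpowers ν₁ → d ∈ Subgroup.zpowers ν₂ → d = 1
  · have hc := hD _ hc1 hc2
    have hcomm12 : ν₁ * ν₂ = ν₂ * ν₁ := by
      have e : ν₂ * ν₁ = (ν₂ * ν₁ * ν₂⁻¹ * ν₁⁻¹) * ν₁ * ν₂ := by group
      rw [e, hc, one_mul]
    haveI : NeZero (p ^ μ) := ⟨pow_ne_zero _ hpp.ne_zero⟩
    exact prod_equiv ν₁ ν₂ (p ^ μ) hμ (hord2.trans hμ) hcomm12
      (fun a b hab => hD _ (Subgroup.pow_mem _ (Subgroup.mem_zpowers ν₁) a) (by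
        have h5 : ν₁ ^ a = (ν₂ ^ b)⁻¹ := eq_inv_of_mul_eq_one_left hab
        rw [h5]
        exact Subgroup.inv_mem _ (Subgroup.pow_mem _ (Subgroup.mem_zpowers ν₂) b))) hgenX
  · exfalso
    push Not at hD
    obtain ⟨d, hd1, hd2, hdne⟩ := hD
    obtain ⟨μ', rfl⟩ : ∃ μ', μ = μ' + 1 := ⟨μ - 1, by omega⟩
    have hord2' : orderOf ν₂ = p ^ (μ' + 1) := hord2.trans hμ
    have hν1pow : ν₁ ^ p ^ (μ' + 1) = 1 := by rw [← hμ]; exact pow_orderOf_eq_one ν₁
    have hν2pow : ν₂ ^ p ^ (μ' + 1) = 1 := by rw [← hord2']; exact pow_orderOf_eq_one ν₂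
    have hlt : p ^ μ' < p ^ (μ' + 1) := Nat.pow_lt_pow_right hpp.one_lt (Nat.lt_succ_self _)
    have hzp : (ν₁ ^ p ^ μ') ^ p = 1 := by rw [← pow_mul, ← pow_succ]; exact hν1pow
    have hz1 : ν₁ ^ p ^ μ' ≠ 1 := by
      intro h
      have h3 := orderOf_dvd_of_pow_eq_one h
      rw [hμ] at h3
      have h4 := Nat.le_of_dvd (pow_pos hpp.pos _) h3
      omega
    have hz2p : (ν₂ ^ p ^ μ') ^ p = 1 := by rw [← pow_mul, ← pow_succ]; exact hν2pow
    have hz21 : ν₂ ^ p ^ μ' ≠ 1 := by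
      intro h
      have h3 := orderOf_dvd_of_pow_eq_one h
      rw [hord2'] at h3
      have h4 := Nat.le_of_dvd (pow_pos hpp.pos _) h3
      omega
    -- the subgroup of order `p` of `⟨ν₂⟩` lies in `⟨ν₁⟩`
    obtain ⟨t, ht⟩ : ∃ t : ℕ, ν₂ ^ p ^ μ' = (ν₁ ^ p ^ μ') ^ t := by
      have ho2 : orderOf (ν₂ ^ p ^ μ') = p := orderOf_eq_prime hz2p hz21
      obtain ⟨e, he⟩ : ∃ e, orderOf d = p ^ e := by
        obtain ⟨k, hk⟩ := hX d
        obtain ⟨e, -, he⟩ := (Nat.dvd_prime_pow hpp).1 (orderOf_dvd_of_pow_eq_one hk)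
        exact ⟨e, he⟩
      have he1 : p ∣ orderOf d := by
        rw [he]
        have : e ≠ 0 := by
          rintro rfl
          rw [pow_zero, orderOf_eq_one_iff] at he
          exact hdne he
        exact dvd_pow_self p this
      have h3 := mem_zpowers_of_orderOf_dvd (C := ↥(Subgroup.zpowers ν₂))
        (x := ⟨ν₂ ^ p ^ μ', Subgroup.pow_mem _ (Subgroup.mem_zpowers ν₂) _⟩) (y := ⟨d, hd2⟩)
        (by rw [Subgroup.orderOf_mk, Subgroup.orderOf_mk, ho2]; exact he1)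
      obtain ⟨k, hk⟩ := Subgroup.mem_zpowers_iff.1 h3
      have hk' : d ^ k = ν₂ ^ p ^ μ' := by
        have := congrArg Subtype.val hk
        rwa [Subgroup.coe_zpow] at this
      have h4 : ν₂ ^ p ^ μ' ∈ Subgroup.zpowers ν₁ := by
        rw [← hk']
        exact Subgroup.zpow_mem _ hd1 k
      rw [← mem_powers_iff_mem_zpowers] at h4
      obtain ⟨r, hr⟩ := (Submonoid.mem_powers_iff _ _).1 h4
      have h5 : ν₁ ^ (r * p) = 1 := by rw [pow_mul, hr]; exact hz2p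
      have h6 := orderOf_dvd_of_pow_eq_one h5
      rw [hμ, pow_succ] at h6
      have h7 : p ^ μ' ∣ r := Nat.dvd_of_mul_dvd_mul_right hpp.pos h6
      obtain ⟨t, rfl⟩ := h7
      exact ⟨t, by rw [← hr, pow_mul]⟩
    -- the commutator
    obtain ⟨c, hc⟩ : ∃ c, ν₂ * ν₁ * ν₂⁻¹ * ν₁⁻¹ = c := ⟨_, rfl⟩
    rw [hc] at hc1 hc2 hcc
    have hrel : ν₂ * ν₁ = c * ν₁ * ν₂ := by rw [← hc]; group
    have hcA : Commute c ν₁ := (hcc ν₁).symm
    have hcB : Commute c ν₂ := (hcc ν₂).symm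
    have hcK : c ^ p ^ μ' = 1 := by
      rw [← mem_powers_iff_mem_zpowers] at hc1
      obtain ⟨e, he⟩ := (Submonoid.mem_powers_iff _ _).1 hc1
      have hpe : p ∣ e := by
        by_contra hpe
        obtain ⟨f, hf⟩ := Subgroup.mem_zpowers_iff.1 hc2
        have h3 : QuotientGroup.mk' (frattini X) ν₁ ^ e =
            QuotientGroup.mk' (frattini X) ν₂ ^ f := by
          rw [← map_pow, ← map_zpow, he, hf]
        have ha1 : QuotientGroup.mk' (frattini X) ν₁ ^ e ≠ 1 := by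
          intro h5
          have h6 := orderOf_dvd_of_pow_eq_one h5
          rw [orderOf_eq_prime (hexp _) hw1] at h6
          exact hpe h6
        have h5 : QuotientGroup.mk' (frattini X) ν₂ ∈
            Subgroup.zpowers (QuotientGroup.mk' (frattini X) ν₁ ^ e) :=
          mem_zpowers_swap (hexp _) ha1 (by rw [h3]; exact Subgroup.zpow_mem_zpowers _ f)
        apply hw2
        exact (Subgroup.zpowers_le.2 (Subgroup.pow_mem _ (Subgroup.mem_zpowers _) e)) h5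
      obtain ⟨e', rfl⟩ := hpe
      have h8 : p * e' * p ^ μ' = p ^ (μ' + 1) * e' := by ring
      rw [← he, ← pow_mul, h8, pow_mul, hν1pow, one_pow]
    -- the power formula
    have hKodd : Odd (p ^ μ') := (hpp.odd_of_ne_two hp).pow
    have hchoose : p ^ μ' ∣ (p ^ μ').choose 2 := by
      obtain ⟨m, hm⟩ := hKodd
      rw [Nat.choose_two_right, hm]
      refine ⟨m, ?_⟩
      have h8 : (2 * m + 1) * (2 * m + 1 - 1) = 2 * ((2 * m + 1) * m) := by
        rw [Nat.add_sub_cancel]; ring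
      rw [h8, Nat.mul_div_cancel_left _ (by norm_num : 0 < 2)]
    have hpowK : ∀ a b : ℕ, (ν₁ ^ a * ν₂ ^ b) ^ p ^ μ' = (ν₁ ^ p ^ μ') ^ (a + t * b) := by
      intro a b
      have hrel' := comm_pow_pow hrel hcA hcB a b
      have hkey := mul_pow_class_two hrel' ((hcA.pow_left (a * b)).pow_right a)
        ((hcB.pow_left (a * b)).pow_right b) (p ^ μ')
      obtain ⟨q, hq⟩ := hchoose
      have hc1' : (c ^ (a * b)) ^ (p ^ μ').choose 2 = 1 := by
        have h8 : a * b * (p ^ μ' * q) = p ^ μ' * (a * b * q) := by ring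
        rw [hq, ← pow_mul, h8, pow_mul, hcK, one_pow]
      have e1 : (ν₁ ^ a) ^ p ^ μ' = (ν₁ ^ p ^ μ') ^ a := by rw [← pow_mul, mul_comm, pow_mul]
      have e2 : (ν₂ ^ b) ^ p ^ μ' = (ν₁ ^ p ^ μ') ^ (t * b) := by
        rw [← pow_mul, mul_comm, pow_mul, ht, ← pow_mul]
      rw [hkey, hc1', mul_one, e1, e2, ← pow_add]
    -- an element of order dividing `p ^ μ'` outside the Frattini subgroup
    obtain ⟨x₀, hx₀⟩ : ∃ x₀, ν₁ ^ ((p - 1) * t) * ν₂ = x₀ := ⟨_, rfl⟩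
    have hp1t : ∀ s : ℕ, (p - 1) * s + s = p * s := by
      intro s
      obtain ⟨p', rfl⟩ : ∃ p', p = p' + 1 := ⟨p - 1, by have := hpp.pos; omega⟩
      rw [Nat.add_sub_cancel]; ring
    have hx₀K : x₀ ^ p ^ μ' = 1 := by
      have h3 := hpowK ((p - 1) * t) 1
      rw [pow_one, hx₀, mul_one, hp1t] at h3
      rw [h3, pow_mul, hzp, one_pow]
    have hmkx₀ : QuotientGroup.mk' (frattini X) x₀ =
        QuotientGroup.mk' (frattini X) ν₁ ^ ((p - 1) * t) * QuotientGroup.mk' (frattini X) ν₂ := by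
      rw [← hx₀, map_mul, map_pow]
    have hx₀ne : QuotientGroup.mk' (frattini X) x₀ ≠ 1 := by
      intro h
      rw [hmkx₀] at h
      apply hw2
      rw [eq_inv_of_mul_eq_one_right h]
      exact Subgroup.inv_mem _ (Subgroup.pow_mem _ (Subgroup.mem_zpowers _) _)
    obtain ⟨h', hh'H, hh'⟩ := hirr _ hx₀ne
    apply hh'
    have hmk3 : frQuot X h' (QuotientGroup.mk' (frattini X) x₀) =
        QuotientGroup.mk' (frattini X) (h' x₀) := rfl
    rw [hmk3]
    obtain ⟨a, b, hab⟩ := hgenX (h' x₀)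
    have h3 : (ν₁ ^ p ^ μ') ^ (a + t * b) = 1 := by
      rw [← hpowK, ← hab, ← map_pow, hx₀K, map_one]
    have h4 : p ∣ a + t * b := by
      have h5 := orderOf_dvd_of_pow_eq_one h3
      rwa [orderOf_eq_prime hzp hz1] at h5
    refine Subgroup.mem_zpowers_iff.2 ⟨(b : ℤ), ?_⟩
    rw [zpow_natCast, hab, map_mul, map_pow, map_pow, hmkx₀,
      Commute.mul_pow (hcomm _ _) b, ← pow_mul]
    congr 1
    refine pow_eq_of_exp (hexp _) (c := t * b) ?_ h4
    have h9 : (p - 1) * t * b + t * b = p * (t * b) := by rw [mul_assoc, hp1t]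
    rw [h9]
    exact dvd_mul_right _ _

end Cfsg.Agent.H29.MO
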