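import Mathlib
import Cfsg.Agent.H29.MetaOdd
import Cfsg.Agent.H29.MetaTwoFus
import Cfsg.Agent.H29.MetaFus
import Cfsg.Agent.H86.AbelSS
import Cfsg.Agent.H64.MetaAut
import Cfsg.Agent.H5.KleinSys
import Cfsg.Agent.H24.QdKlein
import Cfsg.Agent.H40.KleinData
import Cfsg.Agent.Helper55.TriAut
import Cfsg.Agent.H89.QuatSys

/-!
# Metacyclic `p`-groups of supersoluble type: assembly (helper29)

The two conditions of S5283 (`S` normal in every saturated fusion system over `S`; `p'`-subgroups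
of `Aut S` abelian of exponent dividing `p - 1`) for a metacyclic `p`-group `S`, in terms of the
isomorphism type of `S`.
-/

set_option autoImplicit false

namespace Cfsg.Agent.H29.MSS

open Cfsg Cfsg.FusionSystem Cfsg.Agent.H86 Cfsg.Agent.H29.MW Cfsg.Agent.H29.MA Cfsg.Agent.H29.MO

/-- `p'`-groups of automorphisms of a metacyclic `p`-group, `p` odd, not homocyclic of rank 2. -/
theorem r2_odd {X : Type*} [Group X] [Finite X] (p : ℕ) [Fact p.Prime] (hp : p ≠ 2)
    (hX : IsPGroup p X) (hm : IsMetacyclic X)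
    (hnot : ¬ ∃ n : ℕ, 0 < n ∧
      Nonempty (X ≃* Multiplicative (ZMod (p ^ n)) × Multiplicative (ZMod (p ^ n))))
    (H : Subgroup (MulAut X)) (hH : (Nat.card H).Coprime p) :
    IsMulCommutative H ∧ ∀ h ∈ H, h ^ (p - 1) = 1 := by
  by_cases hW : ∀ w : X ⧸ frattini X, w = 1
  · have h1 : ∀ h ∈ H, h = 1 := by
      intro h hh
      apply eq_one_of_frQuot_eq_one hX H hH hh
      apply MulEquiv.ext
      intro w
      rw [hW w, map_one]
      rfl
    refine ⟨⟨⟨fun a b => ?_⟩⟩, fun h hh => by rw [h1 h hh, one_pow]⟩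
    apply Subtype.ext
    rw [Subgroup.coe_mul, Subgroup.coe_mul, h1 _ a.2, h1 _ b.2]
  · push Not at hW
    obtain ⟨w₀, hw₀⟩ := hW
    by_cases hinv : ∃ z : X ⧸ frattini X, z ≠ 1 ∧ ∀ h ∈ H, frQuot X h z ∈ Subgroup.zpowers z
    · obtain ⟨z, hz, hzinv⟩ := hinv
      exact Cfsg.Agent.Helper55.TriAut.tri_aut p hX (card_frQuot_le hX hm) H hH z hz hzinv
    · exfalso
      push Not at hinv
      exact hnot (aut_odd_irred p hp hX hm H w₀ hw₀ hinv)

/-- Groups of odd order of automorphisms of a metacyclic `2`-group which is neither homocyclic of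
rank 2 nor quaternion of order `8` are trivial. -/
theorem r2_two {X : Type*} [Group X] [Finite X] (hX : IsPGroup 2 X) (hm : IsMetacyclic X)
    (hnot : ¬ ∃ n : ℕ, 0 < n ∧
      Nonempty (X ≃* Multiplicative (ZMod (2 ^ n)) × Multiplicative (ZMod (2 ^ n))))
    (hq : ¬ Nonempty (X ≃* QuaternionGroup 2))
    (H : Subgroup (MulAut X)) (hH : (Nat.card H).Coprime 2) :
    IsMulCommutative H ∧ ∀ h ∈ H, h ^ (2 - 1) = 1 := by
  have h1 : ∀ h ∈ H, h = 1 := by
    intro h hh
    by_contra hne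
    have hc : h ^ Nat.card H = 1 := by
      have h3 : (⟨h, hh⟩ : H) ^ Nat.card H = 1 := pow_card_eq_one'
      have h4 := congrArg Subtype.val h3
      rwa [Subgroup.coe_pow] at h4
    rcases aut_two_main hX hm h (Nat.card H) (Nat.coprime_two_right.1 hH) hc hne with h5 | h5
    · exact hnot h5
    · exact hq h5
  refine ⟨⟨⟨fun a b => ?_⟩⟩, fun h hh => by rw [h1 h hh, one_pow]⟩
  apply Subtype.ext
  rw [Subgroup.coe_mul, Subgroup.coe_mul, h1 _ a.2, h1 _ b.2]

theorem quaternion_zero_infinite : Infinite (QuaternionGroup 0) :=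
  Infinite.of_injective (fun k : ℤ => (QuaternionGroup.a k : QuaternionGroup 0))
    (fun x y h => by injection h)

/-- A metacyclic `p`-group which is not dihedral, quasidihedral or quaternion is normal in every
saturated fusion system over it. -/
theorem r1 {Ω : Type*} [Group Ω] {S : Subgroup Ω} [Finite S] (p : ℕ) [Fact p.Prime]
    (hS : IsPGroup p ↥S) (hm : Cfsg.IsMetacyclic ↥S)
    (hbad : ¬ (p = 2 ∧ ((∃ n : ℕ, 2 ≤ n ∧ Nonempty (↥S ≃* DihedralGroup n)) ∨
      Cfsg.IsQuasiDihedral ↥S ∨ (∃ n : ℕ, 2 ≤ n ∧ Nonempty (↥S ≃* QuaternionGroup n)))))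
    (F : Cfsg.FusionSystem S) (hF : F.IsSaturated p) : F.IsNormal S := by
  by_cases hp : p = 2
  · by_cases hab : ∀ a b : S, a * b = b * a
    · exact isNormal_of_comm hS hab hF
    · refine metacyclic_stronglyClosed_normal_two p hS F hF S (stronglyClosed_self F) hp hm
        ?_ ?_ ?_
      · rintro ⟨m, ⟨e⟩⟩
        rcases Nat.lt_or_ge m 2 with hm2 | hm2
        · apply hab
          intro a b
          apply e.injective
          rw [map_mul, map_mul]
          interval_cases m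
          · exfalso
            have h3 := Nat.card_congr e.toEquiv
            rw [DihedralGroup.nat_card] at h3
            have h4 := Nat.card_pos (α := S)
            omega
          · exact (by decide : ∀ x y : DihedralGroup 1, x * y = y * x) _ _
        · exact hbad ⟨hp, Or.inl ⟨m, hm2, ⟨e⟩⟩⟩
      · rintro ⟨m, ⟨e⟩⟩
        rcases Nat.lt_or_ge m 2 with hm2 | hm2
        · apply hab
          intro a b
          apply e.injective
          rw [map_mul, map_mul]
          interval_cases m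
          · exfalso
            haveI : Finite (QuaternionGroup 0) := Finite.of_equiv S e.toEquiv
            exact quaternion_zero_infinite.false
          · exact (by decide : ∀ x y : QuaternionGroup 1, x * y = y * x) _ _
        · exact hbad ⟨hp, Or.inr (Or.inr ⟨m, hm2, ⟨e⟩⟩)⟩
      · intro hsd
        exact hbad ⟨hp, Or.inr (Or.inl hsd)⟩
  · exact metacyclic_stronglyClosed_normal p hS F hF S (stronglyClosed_self F) hp hm

/-- The excluded groups fail one of the two conditions. -/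
theorem bad_not {Ω : Type*} [Group Ω] {S : Subgroup Ω} [Finite S] (p : ℕ) [Fact p.Prime]
    (hS : IsPGroup p ↥S)
    (hbad : (∃ n : ℕ, 0 < n ∧
      Nonempty (↥S ≃* Multiplicative (ZMod (p ^ n)) × Multiplicative (ZMod (p ^ n)))) ∨
      (p = 2 ∧ ((∃ n : ℕ, 2 ≤ n ∧ Nonempty (↥S ≃* DihedralGroup n)) ∨
        Cfsg.IsQuasiDihedral ↥S ∨ (∃ n : ℕ, 2 ≤ n ∧ Nonempty (↥S ≃* QuaternionGroup n)))))
    (h1 : ∀ F : Cfsg.FusionSystem S, F.IsSaturated p → F.IsNormal S)
    (h2 : ∀ H : Subgroup (MulAut ↥S), (Nat.card ↥H).Coprime p →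
      IsMulCommutative ↥H ∧ ∀ h ∈ H, h ^ (p - 1) = 1) : False := by
  rcases hbad with ⟨n, hn, ⟨e⟩⟩ | ⟨rfl, hbad⟩
  · by_cases hp : p = 2
    · subst hp
      obtain ⟨H, hH, h, hh, hne⟩ := Cfsg.Agent.H64.MetaAut.homocyclic_aut_three n hn e
      have h3 := (h2 H hH).2 h hh
      rw [show 2 - 1 = 1 from rfl, pow_one] at h3
      exact hne h3
    · obtain ⟨H, hH, hnc⟩ := Cfsg.Agent.H64.MetaAut.homocyclic_aut_nonabelian p n hp hn e
      exact hnc (h2 H hH).1
  · have h3 : ∀ H : Subgroup (MulAut S), (Nat.card H).Coprime 2 → ∀ h ∈ H, h = 1 := by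
      intro H hH h hh
      have h4 := (h2 H hH).2 h hh
      rwa [show 2 - 1 = 1 from rfl, pow_one] at h4
    rcases hbad with ⟨n, hn, ⟨e⟩⟩ | hsd | ⟨n, hn, ⟨e⟩⟩
    · rcases Nat.lt_or_ge n 3 with hn3 | hn3
      · have hn2 : n = 2 := by omega
        subst hn2
        obtain ⟨H, hH, h, hh, hne⟩ := Cfsg.Agent.H64.MetaAut.klein_quat_aut_three (Or.inl ⟨e⟩)
        exact hne (h3 H hH h hh)
      · obtain ⟨z, y, h₀, hz, hy, hh₀, hzc, hz2, hy2, hz1, hy1, hzy, hC, hh⟩ :=
          Cfsg.Agent.H40.KD.dihedral_klein_data hS n hn3 e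
        obtain ⟨F, hF, hFn⟩ := Cfsg.Agent.H5.KleinSys.klein_sys hS z y h₀ hz hy hh₀ hzc hz2 hy2
          hz1 hy1 hzy hC hh
        exact hFn (h1 F hF)
    · obtain ⟨z, y, h₀, hz, hy, hh₀, hzc, hz2, hy2, hz1, hy1, hzy, hC, hh⟩ :=
        Cfsg.Agent.H24.QdK.quasidihedral_klein_data hS hsd
      obtain ⟨F, hF, hFn⟩ := Cfsg.Agent.H5.KleinSys.klein_sys hS z y h₀ hz hy hh₀ hzc hz2 hy2
        hz1 hy1 hzy hC hh
      exact hFn (h1 F hF)
    · rcases Nat.lt_or_ge n 3 with hn3 | hn3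
      · have hn2 : n = 2 := by omega
        subst hn2
        obtain ⟨H, hH, h, hh, hne⟩ := Cfsg.Agent.H64.MetaAut.klein_quat_aut_three (Or.inr ⟨e⟩)
        exact hne (h3 H hH h hh)
      · obtain ⟨i, j, ξ, hi, hj, hξ, hi4, hi2, hj2, hji, hzc, hin, hξi, hξj, hNj, hNk⟩ :=
          Cfsg.Agent.H40.KD.quaternion_quat_data hS n hn3 e
        obtain ⟨F, hF, hFn⟩ := Cfsg.Agent.H89.QuatSys.quat_sys hS i j ξ hi hj hξ hi4 hi2 hj2 hji
          hzc hin hξi hξj hNj hNk
        exact hFn (h1 F hF)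

end Cfsg.Agent.H29.MSS
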