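import Cfsg.Agent.H29.ZJCtl
import Cfsg.Agent.H38.QdStable

set_option autoImplicit false
set_option linter.unusedVariables false
set_option linter.unusedSectionVars false
open Cfsg

/-!
# `Z(J_o)` controls strong fusion in `Qd(p)`-free groups, and a relative version (helper29)

* `fsf_nZ_qd`, `ctl_nZ_qd`: Glauberman's Theorem B for `Qd(p)`-free groups (`p` odd).
* `rel_ctl`: the same in `N_G(R)/R`, stated inside `G`: for `R ⊴ P` proper there is
  `R < W ≤ P` such that every conjugation `c_g`, `g ∈ N_G(R)`, between subsets of `P` agrees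
  modulo `R` with `c_x` for some `x ∈ N_G(R) ∩ N_G(W)`.
-/

namespace Cfsg.Agent.H29.ZC

open Cfsg.Agent.H39 Cfsg.Agent.H40.Sec Cfsg.Agent.H29

universe u

local notation "N(" Q ")" => Subgroup.normalizer (SetLike.coe (Q : Subgroup _))

theorem involves_of_isSec {Q : Type*} {Y G : Type u} [Group Q] [Group Y] [Group G]
    (hs : IsSec Y G) (h : Cfsg.Involves Q Y) : Cfsg.Involves Q G := by
  obtain ⟨K, f, hf⟩ := hs
  exact Cfsg.Agent.H38.involves_trans K.subtype K.subtype_injective f hf h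

/-- **Theorem B** for `Z(J_o)`: in a `Qd(p)`-free group, `p` odd. -/
theorem fsf_nZ_qd {G : Type u} [Group G] [Finite G] {p : ℕ} [Fact p.Prime] (hp2 : p ≠ 2)
    (hfree : ¬ Cfsg.Involves ↥(Cfsg.qd p) G) (S : Sylow p G) :
    FSF (IndFam {WJo} G) ⊤ (S : Subgroup G) := by
  apply fsf_of_normal_in_sections WJo isCharPFunctor_WJo _ S
  intro Y _ _ hY hcon T
  rw [induced_WJo]
  exact nZ_normalS hp2 0 hcon
    (qstabS_of_qstab (qstab_of_isNormalizerPStable
      (Cfsg.Agent.H38.isNormalizerPStable_of_not_involves_qd hp2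
        (fun h => hfree (involves_of_isSec hY h))))) T T
    (isStronglyClosed_self _)

/-- `N_G(Z(J_o(S)))` controls strong fusion in `S` for `Qd(p)`-free `G`. -/
theorem ctl_nZ_qd {G : Type u} [Group G] [Finite G] {p : ℕ} [Fact p.Prime] (hp2 : p ≠ 2)
    (hfree : ¬ Cfsg.Involves ↥(Cfsg.qd p) G) (S : Sylow p G) (A : Set G)
    (hA : A ⊆ (S : Subgroup G)) (g : G)
    (hg : (fun a => g * a * g⁻¹) '' A ⊆ (S : Subgroup G)) :
    ∃ x ∈ N(nZ 0 (S : Subgroup G)), ∀ a ∈ A, x * a * x⁻¹ = g * a * g⁻¹ := by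
  have h := ctl_of_fsf (fsf_nZ_qd hp2 hfree S) A hA g hg
  rwa [induced_WJo] at h

/-- Relative Theorem B: control of fusion modulo a normal subgroup `R` of the Sylow
subgroup `P`, for conjugations by elements of `N_G(R)`. -/
theorem rel_ctl {G : Type u} [Group G] [Finite G] {p : ℕ} [Fact p.Prime] (hp2 : p ≠ 2)
    (hfree : ¬ Cfsg.Involves ↥(Cfsg.qd p) G) (P : Sylow p G) (R : Subgroup G)
    (hRP : R ≤ (P : Subgroup G)) (hne : R ≠ (P : Subgroup G))
    (hnorm : (P : Subgroup G) ≤ N(R)) :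
    ∃ W : Subgroup G, R ≤ W ∧ W ≤ (P : Subgroup G) ∧ W ≠ R ∧
      ∀ g : G, g ∈ N(R) → ∀ A : Set G, A ⊆ (P : Subgroup G) →
        (fun a => g * a * g⁻¹) '' A ⊆ (P : Subgroup G) →
        ∃ x ∈ N(R), x ∈ N(W) ∧ ∀ a ∈ A, (x * a * x⁻¹)⁻¹ * (g * a * g⁻¹) ∈ R := by
  classical
  set N : Subgroup G := N(R) with hN
  have hRN : R ≤ N := Subgroup.le_normalizer
  haveI hR'n : (R.subgroupOf N).Normal := Subgroup.normal_in_normalizer
  let π : ↥N →* ↥N ⧸ R.subgroupOf N := QuotientGroup.mk' (R.subgroupOf N)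
  have hπs : Function.Surjective π := QuotientGroup.mk'_surjective _
  have hπ1 : ∀ a : ↥N, π a = 1 ↔ (a : G) ∈ R := by
    intro a
    rw [QuotientGroup.mk'_apply, QuotientGroup.eq_one_iff]
    exact Subgroup.mem_subgroupOf
  have hπeq : ∀ a b : ↥N, π a = π b ↔ (a : G)⁻¹ * (b : G) ∈ R := by
    intro a b
    rw [QuotientGroup.mk'_apply, QuotientGroup.mk'_apply, QuotientGroup.eq]
    exact Subgroup.mem_subgroupOf
  have hfree' : ¬ Cfsg.Involves ↥(Cfsg.qd p) (↥N ⧸ R.subgroupOf N) :=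
    fun h => hfree (Cfsg.Agent.H38.involves_of_section N R h)
  let PN : Sylow p ↥N := P.subtype hnorm
  let Ph : Sylow p (↥N ⧸ R.subgroupOf N) := PN.mapSurjective hπs
  have hPh : ∀ y : ↥N ⧸ R.subgroupOf N, y ∈ (Ph : Subgroup _) ↔ ∃ s : ↥N, (s : G) ∈ (P : Subgroup G) ∧ π s = y := by
    intro y
    show y ∈ ((PN : Subgroup ↥N).map π) ↔ _
    rw [Subgroup.mem_map]
    constructor
    · rintro ⟨s, hs, rfl⟩
      exact ⟨s, Subgroup.mem_subgroupOf.mp hs, rfl⟩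
    · rintro ⟨s, hs, rfl⟩
      exact ⟨s, Subgroup.mem_subgroupOf.mpr hs, rfl⟩
  have hPh' : ∀ a : ↥N, π a ∈ (Ph : Subgroup _) ↔ (a : G) ∈ (P : Subgroup G) := by
    intro a
    rw [hPh]
    constructor
    · rintro ⟨s, hs, he⟩
      have h1 : (s : G)⁻¹ * (a : G) ∈ R := (hπeq s a).mp he
      have h2 : (a : G) = (s : G) * ((s : G)⁻¹ * (a : G)) := by group
      rw [h2]
      exact Subgroup.mul_mem _ hs (hRP h1)
    · intro ha
      exact ⟨a, ha, rfl⟩
  set Wh : Subgroup (↥N ⧸ R.subgroupOf N) := nZ 0 (Ph : Subgroup _) with hWh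
  have hWhle : Wh ≤ (Ph : Subgroup _) := nZ_le 0 _
  have hPhne : (Ph : Subgroup (↥N ⧸ R.subgroupOf N)) ≠ ⊥ := by
    intro hbot
    apply hne
    apply le_antisymm hRP
    intro s hs
    have h1 : π ⟨s, hnorm hs⟩ ∈ (Ph : Subgroup _) := (hPh' _).mpr hs
    rw [hbot, Subgroup.mem_bot] at h1
    exact (hπ1 _).mp h1
  have hWhne : Wh ≠ ⊥ := nZ_zero_ne_bot Ph.isPGroup' hPhne
  refine ⟨(Wh.comap π).map N.subtype, ?_, ?_, ?_, ?_⟩
  · intro r hr
    refine ⟨⟨r, hRN hr⟩, ?_, rfl⟩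
    show π ⟨r, hRN hr⟩ ∈ Wh
    rw [(hπ1 _).mpr hr]
    exact Subgroup.one_mem _
  · rintro _ ⟨w, hw, rfl⟩
    exact (hPh' w).mp (hWhle hw)
  · intro heq
    apply hWhne
    rw [eq_bot_iff]
    intro y hy
    obtain ⟨w, rfl⟩ := hπs y
    have h1 : (w : G) ∈ (Wh.comap π).map N.subtype := ⟨w, hy, rfl⟩
    rw [heq] at h1
    rw [Subgroup.mem_bot]
    exact (hπ1 w).mpr h1
  · intro g hg A hA hgA
    obtain ⟨xh, hxh, hxa⟩ := ctl_nZ_qd hp2 hfree' Ph (π '' {a : ↥N | (a : G) ∈ A})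
      (by
        rintro _ ⟨a, ha, rfl⟩
        exact (hPh' a).mpr (hA ha))
      (π ⟨g, hg⟩)
      (by
        rintro _ ⟨_, ⟨a, ha, rfl⟩, rfl⟩
        show π ⟨g, hg⟩ * π a * (π ⟨g, hg⟩)⁻¹ ∈ (Ph : Subgroup _)
        rw [← map_inv, ← map_mul, ← map_mul]
        exact (hPh' _).mpr (hgA ⟨a, ha, rfl⟩))
    obtain ⟨x, rfl⟩ := hπs xh
    refine ⟨x, x.2, ?_, ?_⟩
    · rw [Subgroup.mem_normalizer_iff]
      intro w
      have key : ∀ w' : ↥N, π w' ∈ Wh ↔ π (x * w' * x⁻¹) ∈ Wh := by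
        intro w'
        rw [map_mul, map_mul, map_inv]
        exact (Subgroup.mem_normalizer_iff.mp hxh) (π w')
      constructor
      · rintro ⟨w', hw', rfl⟩
        exact ⟨x * w' * x⁻¹, (key w').mp hw', rfl⟩
      · rintro ⟨v, hv, hvw⟩
        have hwN : w ∈ N := by
          have h1 : w = (x : G)⁻¹ * (v : G) * (x : G) := by
            have h2 : (v : G) = (x : G) * w * (x : G)⁻¹ := hvw
            rw [h2]; group
          rw [h1]
          exact N.mul_mem (N.mul_mem (N.inv_mem x.2) v.2) x.2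
        refine ⟨⟨w, hwN⟩, (key ⟨w, hwN⟩).mpr ?_, rfl⟩
        have h3 : x * ⟨w, hwN⟩ * x⁻¹ = v := Subtype.ext hvw.symm
        show π (x * ⟨w, hwN⟩ * x⁻¹) ∈ Wh
        rw [h3]
        exact hv
    · intro a ha
      have haN : a ∈ N := hnorm (hA ha)
      have h1 := hxa (π ⟨a, haN⟩) ⟨⟨a, haN⟩, ha, rfl⟩
      rw [← map_inv, ← map_mul, ← map_mul, ← map_inv, ← map_mul, ← map_mul] at h1
      exact (hπeq _ _).mp h1

end Cfsg.Agent.H29.ZC
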