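import Mathlib
import Cfsg.Prelude.Def_LocalEven
import Cfsg.Agent.H29.QuadP

/-!
# Lifting normalizers of `p`-subgroups through surjections — helper29
-/

set_option autoImplicit false
set_option linter.unusedVariables false
set_option linter.unusedSectionVars false

namespace Cfsg.Agent.H29.QP

open Cfsg.Agent.H29

variable {p : ℕ} [Fact p.Prime]

theorem sup_sylow_top_of_pquot {G : Type*} [Group G] [Finite G] (K : Subgroup G) [K.Normal]
    (hGK : ∀ g : G, ∃ j : ℕ, g ^ (p ^ j) ∈ K) (P : Sylow p G) :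
    K ⊔ (P : Subgroup G) = ⊤ := by
  have hq : IsPGroup p (G ⧸ K) := by
    intro g
    obtain ⟨g, rfl⟩ := QuotientGroup.mk_surjective g
    obtain ⟨j, hj⟩ := hGK g
    exact ⟨j, by rw [← QuotientGroup.mk_pow]; exact (QuotientGroup.eq_one_iff _).mpr hj⟩
  obtain ⟨n, hn⟩ := IsPGroup.iff_card.mp hq
  have h1 : (K ⊔ (P : Subgroup G)).index ∣ p ^ n := by
    rw [← hn, ← Subgroup.index_eq_card]; exact Subgroup.index_dvd_of_le le_sup_left
  have h2 : (K ⊔ (P : Subgroup G)).index ∣ (P : Subgroup G).index :=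
    Subgroup.index_dvd_of_le le_sup_right
  obtain ⟨i, -, hi'⟩ := (Nat.dvd_prime_pow Fact.out).mp h1
  rcases i with _ | i
  · exact Subgroup.index_eq_one.mp (by simpa using hi')
  · exfalso
    apply P.not_dvd_index
    refine dvd_trans ?_ h2
    rw [hi']
    exact dvd_pow_self p (Nat.succ_ne_zero i)

/-- A `p`-subgroup of a quotient lifts to a `p`-subgroup whose normalizer maps onto the
normalizer (Sylow + Frattini). -/
theorem lift_normalizer {K X : Type*} [Group K] [Group X] [Finite K] (f : K →* X)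
    (hf : Function.Surjective f) (Pb : Subgroup X) (hPb : IsPGroup p Pb) :
    ∃ P₀ : Subgroup K, IsPGroup p P₀ ∧ P₀.map f = Pb ∧
      (Subgroup.normalizer (P₀ : Set K)).map f = Subgroup.normalizer (Pb : Set X) := by
  classical
  obtain ⟨Q, hQ⟩ : ∃ Q : Subgroup K, Q = Pb.comap f := ⟨_, rfl⟩
  obtain ⟨M, hM⟩ : ∃ M : Subgroup K, M = Subgroup.normalizer (Q : Set K) := ⟨_, rfl⟩
  have hQM : Q ≤ M := by rw [hM]; exact Subgroup.le_normalizer
  have hQmem : ∀ k : K, k ∈ Q ↔ f k ∈ Pb := by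
    intro k; rw [hQ, Subgroup.mem_comap]
  have hnorm : (Q.subgroupOf M).Normal := by rw [hM]; exact Subgroup.normal_in_normalizer
  obtain ⟨S⟩ : Nonempty (Sylow p (Q.subgroupOf M)) := inferInstance
  -- the restricted homomorphism
  obtain ⟨g', hg'⟩ : ∃ g' : (Q.subgroupOf M) →* X,
      g' = f.comp (M.subtype.comp (Q.subgroupOf M).subtype) := ⟨_, rfl⟩
  have hg'v : ∀ q : Q.subgroupOf M, g' q = f ((q : M) : K) := fun q => by rw [hg']; rfl
  have hg'P : ∀ q : Q.subgroupOf M, g' q ∈ Pb := by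
    intro q
    rw [hg'v]
    have : ((q : M) : K) ∈ Q := Subgroup.mem_subgroupOf.1 q.2
    exact (hQmem _).1 this
  have hsup : g'.ker ⊔ (S : Subgroup (Q.subgroupOf M)) = ⊤ := by
    apply sup_sylow_top_of_pquot
    intro q
    obtain ⟨j, hj⟩ := hPb ⟨g' q, hg'P q⟩
    refine ⟨j, ?_⟩
    rw [MonoidHom.mem_ker, map_pow]
    exact congrArg Subtype.val hj
  have hdec : ∀ q : Q.subgroupOf M, ∃ s ∈ (S : Subgroup (Q.subgroupOf M)), g' q = g' s := by
    intro q
    have hq : q ∈ ((g'.ker ⊔ (S : Subgroup (Q.subgroupOf M)) : Subgroup _) : Set _) := by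
      rw [hsup]; trivial
    rw [Subgroup.normal_mul] at hq
    obtain ⟨c, hc, s, hs, rfl⟩ := Set.mem_mul.1 hq
    refine ⟨s, hs, ?_⟩
    rw [map_mul, MonoidHom.mem_ker.1 hc, one_mul]
  obtain ⟨P₀, hP₀⟩ : ∃ P₀ : Subgroup K,
      P₀ = ((S : Subgroup (Q.subgroupOf M)).map (Q.subgroupOf M).subtype).map M.subtype := ⟨_, rfl⟩
  have hmemP₀ : ∀ s ∈ (S : Subgroup (Q.subgroupOf M)), (((s : Q.subgroupOf M) : M) : K) ∈ P₀ := by
    intro s hs
    rw [hP₀]
    exact ⟨(s : M), ⟨s, hs, rfl⟩, rfl⟩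
  have hPp : IsPGroup p P₀ := by
    rw [hP₀]; exact (S.isPGroup'.map _).map _
  have hmap : P₀.map f = Pb := by
    apply le_antisymm
    · rw [hP₀]
      rintro _ ⟨_, ⟨_, ⟨s, hs, rfl⟩, rfl⟩, rfl⟩
      have := hg'P s
      rw [hg'v] at this
      exact this
    · intro xb hxb
      obtain ⟨q, rfl⟩ := hf xb
      have hqQ : q ∈ Q := (hQmem q).2 hxb
      obtain ⟨s, hs, hqs⟩ := hdec ⟨⟨q, hQM hqQ⟩, Subgroup.mem_subgroupOf.2 hqQ⟩
      rw [hg'v, hg'v] at hqs
      change f q = _ at hqs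
      rw [hqs]
      exact ⟨_, hmemP₀ s hs, rfl⟩
  refine ⟨P₀, hPp, hmap, ?_⟩
  apply le_antisymm
  · have := Subgroup.le_normalizer_map (H := P₀) f
    rw [hmap] at this
    exact this
  · intro nb hnb
    obtain ⟨n, rfl⟩ := hf nb
    have hnM : n ∈ M := by
      rw [hM, hQ, ← Subgroup.comap_normalizer_eq_of_surjective _ hf]
      exact hnb
    have hfr := Sylow.normalizer_sup_eq_top S
    have hn' : (⟨n, hnM⟩ : M) ∈ ((Subgroup.normalizer
        (((S : Subgroup (Q.subgroupOf M)).map (Q.subgroupOf M).subtype : Subgroup M) : Set M)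
        ⊔ Q.subgroupOf M : Subgroup M) : Set M) := by
      rw [hfr]; trivial
    rw [Subgroup.mul_normal] at hn'
    obtain ⟨m, hm, q, hq, hmq⟩ := Set.mem_mul.1 hn'
    obtain ⟨s, hs, hqs⟩ := hdec ⟨q, hq⟩
    rw [hg'v, hg'v] at hqs
    have hsN : (s : M) ∈ Subgroup.normalizer
        (((S : Subgroup (Q.subgroupOf M)).map (Q.subgroupOf M).subtype : Subgroup M) : Set M) :=
      Subgroup.le_normalizer ⟨s, hs, rfl⟩
    have hmsN := Subgroup.mul_mem _ hm hsN
    have hK : ((m * (s : M) : M) : K) ∈ Subgroup.normalizer (P₀ : Set K) := by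
      rw [hP₀]
      exact Subgroup.le_normalizer_map M.subtype ⟨_, hmsN, rfl⟩
    refine ⟨_, hK, ?_⟩
    have e1 : n = (m : K) * (q : K) := by
      have := congrArg (fun t : M => (t : K)) hmq
      exact this.symm
    rw [e1, map_mul, Subgroup.coe_mul, map_mul]
    congr 1
    exact hqs.symm

/-- If the normalizer of a `p`-subgroup of a quotient involves `SL₂(p)`, so does the normalizer
of a `p`-subgroup upstairs. -/
theorem invSL_lift {K X : Type*} [Group K] [Group X] [Finite K] (f : K →* X)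
    (hf : Function.Surjective f) (Pb : Subgroup X) (hPb : IsPGroup p Pb) (hne : Pb ≠ ⊥)
    (h : InvSL p ↥(Subgroup.normalizer (Pb : Set X))) :
    ∃ P₀ : Subgroup K, IsPGroup p P₀ ∧ P₀ ≠ ⊥ ∧ InvSL p ↥(Subgroup.normalizer (P₀ : Set K)) := by
  obtain ⟨P₀, hP₀, hmap, hnorm⟩ := lift_normalizer f hf Pb hPb
  refine ⟨P₀, hP₀, ?_, ?_⟩
  · rintro rfl
    apply hne
    rw [← hmap, Subgroup.map_bot]
  · have hmem : ∀ n : ↥(Subgroup.normalizer (P₀ : Set K)),
        (f.comp (Subgroup.normalizer (P₀ : Set K)).subtype) n ∈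
          Subgroup.normalizer (Pb : Set X) := by
      intro n
      rw [← hnorm]
      exact ⟨n, n.2, rfl⟩
    refine invSL_of_surjective ((f.comp (Subgroup.normalizer (P₀ : Set K)).subtype).codRestrict
      (Subgroup.normalizer (Pb : Set X)) hmem) ?_ h
    intro y
    have hy : (y : X) ∈ (Subgroup.normalizer (P₀ : Set K)).map f := by rw [hnorm]; exact y.2
    obtain ⟨n, hn, hny⟩ := hy
    exact ⟨⟨n, hn⟩, Subtype.ext hny⟩

/-- From a subgroup to the ambient group. -/
theorem invSL_normalizer_map {G : Type*} [Group G] (K : Subgroup G) (P₀ : Subgroup K)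
    (h : InvSL p ↥(Subgroup.normalizer (P₀ : Set K))) :
    InvSL p ↥(Subgroup.normalizer ((P₀.map K.subtype : Subgroup G) : Set G)) := by
  have hmem : ∀ n : ↥(Subgroup.normalizer (P₀ : Set K)),
      (K.subtype.comp (Subgroup.normalizer (P₀ : Set K)).subtype) n ∈
        Subgroup.normalizer ((P₀.map K.subtype : Subgroup G) : Set G) := by
    intro n
    exact Subgroup.le_normalizer_map K.subtype ⟨n, n.2, rfl⟩
  refine invSL_of_injective ((K.subtype.comp (Subgroup.normalizer (P₀ : Set K)).subtype).codRestrict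
    _ hmem) ?_ h
  intro a b hab
  have := congrArg Subtype.val hab
  exact Subtype.ext (Subtype.ext this)

theorem involves_of_invSL {T : Type*} [Group T] (h : InvSL p T) :
    Cfsg.Involves (Matrix.SpecialLinearGroup (Fin 2) (ZMod p)) T := by
  obtain ⟨K₀, f, hf⟩ := h
  obtain ⟨L, hL, hiso⟩ := section_of_surj' K₀ f hf
  exact ⟨K₀, L, hL, hiso⟩

end Cfsg.Agent.H29.QP
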