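import Mathlib

set_option autoImplicit false

namespace Cfsg.Agent.H29

open scoped commutatorElement

variable {G : Type*} [Group G]

theorem card_lt_card_of_lt [Finite G] {H K : Subgroup G} (h : H < K) :
    Nat.card H < Nat.card K := by
  by_contra hc
  push Not at hc
  exact h.ne (Subgroup.eq_of_le_of_card_ge h.le hc)

/-- The elements of a commutative subgroup `W` inverted by `a`. -/
def invertedBy (W : Subgroup G) (hW : ∀ x ∈ W, ∀ y ∈ W, x * y = y * x) (a : G) : Subgroup G where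
  carrier := {x | x ∈ W ∧ a * x * a⁻¹ = x⁻¹}
  one_mem' := ⟨W.one_mem, by simp⟩
  mul_mem' := by
    rintro x y ⟨hx, hx'⟩ ⟨hy, hy'⟩
    refine ⟨W.mul_mem hx hy, ?_⟩
    have h1 : a * (x * y) * a⁻¹ = (a * x * a⁻¹) * (a * y * a⁻¹) := by group
    rw [h1, hx', hy', mul_inv_rev]
    exact hW _ (W.inv_mem hx) _ (W.inv_mem hy)
  inv_mem' := by
    rintro x ⟨hx, hx'⟩
    refine ⟨W.inv_mem hx, ?_⟩
    have h1 : a * x⁻¹ * a⁻¹ = (a * x * a⁻¹)⁻¹ := by group
    rw [h1, hx']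

theorem mem_invertedBy {W : Subgroup G} {hW : ∀ x ∈ W, ∀ y ∈ W, x * y = y * x} {a x : G} :
    x ∈ invertedBy W hW a ↔ x ∈ W ∧ a * x * a⁻¹ = x⁻¹ := Iff.rfl

/-- In a commutative subgroup `E` normalized by an elementary abelian 2-group `A`, every nontrivial
`A`-invariant subgroup contains a nontrivial `A`-invariant subgroup on which each element of `A`
acts trivially or by inversion. -/
theorem exists_eigen_subgroup [Finite G] (A E V : Subgroup G)
    (hAc : ∀ a ∈ A, ∀ b ∈ A, a * b = b * a) (hAsq : ∀ a ∈ A, a * a = 1)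
    (hEc : ∀ x ∈ E, ∀ y ∈ E, x * y = y * x) (hVE : V ≤ E) (hV : V ≠ ⊥)
    (hAV : A ≤ Subgroup.normalizer (V : Set G)) :
    ∃ W : Subgroup G, W ≤ V ∧ W ≠ ⊥ ∧ A ≤ Subgroup.normalizer (W : Set G) ∧
      ∀ a ∈ A, (∀ x ∈ W, a * x * a⁻¹ = x) ∨ (∀ x ∈ W, a * x * a⁻¹ = x⁻¹) := by
  obtain ⟨W, -, ⟨⟨hWV', hWne, hAW⟩, hmin⟩⟩ := Finite.exists_le_minimal
    (p := fun W : Subgroup G => W ≤ V ∧ W ≠ ⊥ ∧ A ≤ Subgroup.normalizer (W : Set G))
    (a := V) ⟨le_rfl, hV, hAV⟩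
  refine ⟨W, hWV', hWne, hAW, ?_⟩
  intro a ha
  have hWc : ∀ x ∈ W, ∀ y ∈ W, x * y = y * x :=
    fun x hx y hy => hEc x (hVE (hWV' hx)) y (hVE (hWV' hy))
  have hainv : a⁻¹ = a := inv_eq_of_mul_eq_one_right (hAsq a ha)
  have hconj : ∀ a' ∈ A, ∀ x ∈ W, a' * x * a'⁻¹ ∈ W := Subgroup.le_normalizer_iff.mp hAW
  by_cases hC : W ⊓ Subgroup.centralizer {a} = ⊥
  · by_cases hI : invertedBy W hWc a = ⊥
    · exfalso
      obtain ⟨⟨x, hx⟩, hx1⟩ := Subgroup.ne_bot_iff_exists_ne_one.mp hWne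
      have hx1' : x ≠ 1 := fun h => hx1 (Subtype.ext h)
      have hax : a * x * a⁻¹ ∈ W := hconj a ha x hx
      have hy : x * (a * x * a⁻¹) ∈ W ⊓ Subgroup.centralizer {a} := by
        refine Subgroup.mem_inf.mpr ⟨W.mul_mem hx hax, ?_⟩
        rw [Subgroup.mem_centralizer_singleton_iff]
        have e1 : a * (a * x * a⁻¹) * a⁻¹ = x := by
          have : a * (a * x * a⁻¹) * a⁻¹ = (a * a) * x * (a * a)⁻¹ := by group
          rw [this, hAsq a ha]; simp
        have h1 : a * (x * (a * x * a⁻¹)) * a⁻¹ = (a * x * a⁻¹) * x := by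
          have : a * (x * (a * x * a⁻¹)) * a⁻¹ = (a * x * a⁻¹) * (a * (a * x * a⁻¹) * a⁻¹) := by
            group
          rw [this, e1]
        have h2 : a * (x * (a * x * a⁻¹)) * a⁻¹ = x * (a * x * a⁻¹) := by
          rw [h1]; exact hWc _ hax _ hx
        exact (mul_inv_eq_iff_eq_mul.mp h2).symm
      rw [hC, Subgroup.mem_bot] at hy
      have hx2 : x ∈ invertedBy W hWc a := ⟨hx, (eq_inv_of_mul_eq_one_right hy)⟩
      rw [hI, Subgroup.mem_bot] at hx2
      exact hx1' hx2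
    · right
      have hP : invertedBy W hWc a ≤ V ∧ invertedBy W hWc a ≠ ⊥ ∧
          A ≤ Subgroup.normalizer (invertedBy W hWc a : Set G) := by
        refine ⟨fun x hx => hWV' hx.1, hI, ?_⟩
        rw [Subgroup.le_normalizer_iff]
        rintro a' ha' x ⟨hx, hx'⟩
        refine ⟨hconj a' ha' x hx, ?_⟩
        have h1 : a * (a' * x * a'⁻¹) * a⁻¹ = a' * (a * x * a⁻¹) * a'⁻¹ := by
          have hc := hAc a ha a' ha'
          have hc' : a⁻¹ * a'⁻¹ = a'⁻¹ * a⁻¹ := by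
            rw [← mul_inv_rev, ← mul_inv_rev, hc]
          calc a * (a' * x * a'⁻¹) * a⁻¹ = (a * a') * x * (a'⁻¹ * a⁻¹) := by group
            _ = (a' * a) * x * (a⁻¹ * a'⁻¹) := by rw [hc, hc']
            _ = a' * (a * x * a⁻¹) * a'⁻¹ := by group
        rw [h1, hx']; group
      have h2 := hmin hP (fun x hx => hx.1)
      intro x hx
      exact (h2 hx).2
  · left
    have hP : W ⊓ Subgroup.centralizer {a} ≤ V ∧ W ⊓ Subgroup.centralizer {a} ≠ ⊥ ∧
        A ≤ Subgroup.normalizer ((W ⊓ Subgroup.centralizer {a} : Subgroup G) : Set G) := by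
      refine ⟨inf_le_left.trans hWV', hC, ?_⟩
      rw [Subgroup.le_normalizer_iff]
      intro a' ha' x hx
      obtain ⟨hx1, hx2⟩ := Subgroup.mem_inf.mp hx
      refine Subgroup.mem_inf.mpr ⟨hconj a' ha' x hx1, ?_⟩
      rw [Subgroup.mem_centralizer_singleton_iff] at hx2 ⊢
      have hc := hAc a ha a' ha'
      have hc' : a'⁻¹ * a = a * a'⁻¹ := by
        have := hAc a ha a'⁻¹ (inv_mem ha')
        exact this.symm
      calc a' * x * a'⁻¹ * a = a' * x * (a'⁻¹ * a) := by group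
        _ = a' * (x * a) * a'⁻¹ := by rw [hc']; group
        _ = (a' * a) * x * a'⁻¹ := by rw [hx2]; group
        _ = a * (a' * x * a'⁻¹) := by rw [← hc]; group
    have h2 := hmin hP inf_le_left
    intro x hx
    have h3 := (Subgroup.mem_inf.mp (h2 hx)).2
    rw [Subgroup.mem_centralizer_singleton_iff] at h3
    rw [← h3]; group

theorem conj_conj_of_comm {a a' : G} (hc : a * a' = a' * a) (x : G) :
    a * (a' * x * a'⁻¹) * a⁻¹ = a' * (a * x * a⁻¹) * a'⁻¹ := by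
  have hc' : a'⁻¹ * a⁻¹ = a⁻¹ * a'⁻¹ := by
    rw [← mul_inv_rev, ← mul_inv_rev, hc]
  calc a * (a' * x * a'⁻¹) * a⁻¹ = (a * a') * x * (a'⁻¹ * a⁻¹) := by group
    _ = (a' * a) * x * (a⁻¹ * a'⁻¹) := by rw [hc, hc']
    _ = a' * (a * x * a⁻¹) * a'⁻¹ := by group

theorem invertedBy_normalizer (A W : Subgroup G) (hW : ∀ x ∈ W, ∀ y ∈ W, x * y = y * x)
    (hAc : ∀ a ∈ A, ∀ b ∈ A, a * b = b * a) (hAW : A ≤ Subgroup.normalizer (W : Set G))
    {a : G} (ha : a ∈ A) : A ≤ Subgroup.normalizer (invertedBy W hW a : Set G) := by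
  rw [Subgroup.le_normalizer_iff]
  rintro a' ha' x ⟨hx, hx'⟩
  refine ⟨Subgroup.le_normalizer_iff.mp hAW a' ha' x hx, ?_⟩
  rw [conj_conj_of_comm (hAc a ha a' ha'), hx']
  group

theorem conj_eq_iff_mul_comm {k x : G} : k * x * k⁻¹ = x ↔ k * x = x * k :=
  mul_inv_eq_iff_eq_mul

/-- Dual bases: an elementary abelian 2-group acting faithfully on an abelian group without
2-torsion has a basis `b i` and eigenvectors `x i` with `b i` inverting `x i` and centralizing the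
other `x j`. -/
theorem exists_dual_basis [Finite G] (A E : Subgroup G)
    (hAc : ∀ a ∈ A, ∀ b ∈ A, a * b = b * a) (hAsq : ∀ a ∈ A, a * a = 1)
    (hEc : ∀ x ∈ E, ∀ y ∈ E, x * y = y * x) (hEodd : ∀ x ∈ E, x * x = 1 → x = 1)
    (hAE : A ≤ Subgroup.normalizer (E : Set G)) :
    ∀ (k : ℕ) (B : Subgroup G), B ≤ A → Nat.card B = 2 ^ k →
      B ⊓ Subgroup.centralizer (E : Set G) = ⊥ →
      ∃ (b x : Fin k → G),
        (∀ i, b i ∈ B ∧ x i ∈ E ∧ x i ≠ 1 ∧ b i * x i * (b i)⁻¹ = (x i)⁻¹ ∧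
          ∀ a ∈ A, a * x i * a⁻¹ = x i ∨ a * x i * a⁻¹ = (x i)⁻¹) ∧
        (∀ i j, i ≠ j → b i * x j * (b i)⁻¹ = x j) ∧
        (∀ a ∈ A, ∃ c ∈ B, ∀ j, (a * c) * x j * (a * c)⁻¹ = x j) ∧
        B ≤ Subgroup.closure (Set.range b) := by
  intro k
  induction k with
  | zero =>
    intro B hBA hcard hfaith
    have hB : B = ⊥ := by
      rw [← Subgroup.card_eq_one, hcard, pow_zero]
    refine ⟨fun i => i.elim0, fun i => i.elim0, fun i => i.elim0, fun i => i.elim0, ?_, ?_⟩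
    · intro a _
      exact ⟨1, B.one_mem, fun j => j.elim0⟩
    · rw [hB]; exact bot_le
  | succ k ih =>
    intro B hBA hcard hfaith
    -- a nontrivial element of `B`
    have hBne : B ≠ ⊥ := by
      intro h
      rw [h, Subgroup.card_bot] at hcard
      have : 2 ≤ 2 ^ (k + 1) := by
        calc 2 = 2 ^ 1 := by norm_num
          _ ≤ 2 ^ (k + 1) := Nat.pow_le_pow_right (by norm_num) (by omega)
      omega
    obtain ⟨⟨b₀, hb₀B⟩, hb₀1⟩ := Subgroup.ne_bot_iff_exists_ne_one.mp hBne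
    have hb₀1' : b₀ ≠ 1 := fun h => hb₀1 (Subtype.ext h)
    have hb₀A : b₀ ∈ A := hBA hb₀B
    have hb₀sq : b₀ * b₀ = 1 := hAsq b₀ hb₀A
    have hb₀cent : b₀ ∉ Subgroup.centralizer (E : Set G) := by
      intro h
      have : b₀ ∈ B ⊓ Subgroup.centralizer (E : Set G) := Subgroup.mem_inf.mpr ⟨hb₀B, h⟩
      rw [hfaith, Subgroup.mem_bot] at this
      exact hb₀1' this
    rw [Subgroup.mem_centralizer_iff] at hb₀cent
    push Not at hb₀cent
    obtain ⟨e, he, hne⟩ := hb₀cent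
    have hconjE : ∀ a ∈ A, ∀ x ∈ E, a * x * a⁻¹ ∈ E := Subgroup.le_normalizer_iff.mp hAE
    have hfE : b₀ * e * b₀⁻¹ ∈ E := hconjE b₀ hb₀A e he
    have hyV : e⁻¹ * (b₀ * e * b₀⁻¹) ∈ invertedBy E hEc b₀ := by
      refine ⟨E.mul_mem (E.inv_mem he) hfE, ?_⟩
      have e1 : b₀ * (b₀ * e * b₀⁻¹) * b₀⁻¹ = e := by
        have : b₀ * (b₀ * e * b₀⁻¹) * b₀⁻¹ = (b₀ * b₀) * e * (b₀ * b₀)⁻¹ := by group
        rw [this, hb₀sq]; simp
      have e2 : b₀ * (e⁻¹ * (b₀ * e * b₀⁻¹)) * b₀⁻¹ =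
          (b₀ * e * b₀⁻¹)⁻¹ * (b₀ * (b₀ * e * b₀⁻¹) * b₀⁻¹) := by group
      rw [e2, e1]; group
    have hVne : invertedBy E hEc b₀ ≠ ⊥ := by
      intro h
      rw [h, Subgroup.mem_bot] at hyV
      apply hne
      have h1 : b₀ * e * b₀⁻¹ = e := by
        have := congrArg (fun z => e * z) hyV
        simpa using this
      exact (conj_eq_iff_mul_comm.mp h1).symm
    obtain ⟨W, hWV, hWne, hAW, hWeig⟩ := exists_eigen_subgroup A E (invertedBy E hEc b₀) hAc hAsq hEc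
      (fun x hx => hx.1) hVne (invertedBy_normalizer A E hEc hAc hAE hb₀A)
    obtain ⟨⟨x₁, hx₁W⟩, hx₁1⟩ := Subgroup.ne_bot_iff_exists_ne_one.mp hWne
    have hx₁1' : x₁ ≠ 1 := fun h => hx₁1 (Subtype.ext h)
    have hx₁E : x₁ ∈ E := (hWV hx₁W).1
    have hb₀x₁ : b₀ * x₁ * b₀⁻¹ = x₁⁻¹ := (hWV hx₁W).2
    have hx₁eig : ∀ a ∈ A, a * x₁ * a⁻¹ = x₁ ∨ a * x₁ * a⁻¹ = x₁⁻¹ := by
      intro a ha
      rcases hWeig a ha with h | h
      · exact Or.inl (h x₁ hx₁W)
      · exact Or.inr (h x₁ hx₁W)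
    have hx₁ne : x₁⁻¹ ≠ x₁ := by
      intro h
      apply hx₁1'
      apply hEodd x₁ hx₁E
      calc x₁ * x₁ = x₁⁻¹ * x₁ := by rw [h]
        _ = 1 := inv_mul_cancel x₁
    -- the index two subgroup
    have hB₁def : ∀ g : G, g ∈ B ⊓ Subgroup.centralizer {x₁} ↔ g ∈ B ∧ g * x₁ * g⁻¹ = x₁ := by
      intro g
      rw [Subgroup.mem_inf, Subgroup.mem_centralizer_singleton_iff, conj_eq_iff_mul_comm]
    have hidx : (B ⊓ Subgroup.centralizer {x₁}).relIndex B = 2 := by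
      rw [Subgroup.relIndex_eq_two_iff]
      refine ⟨b₀, hb₀B, ?_⟩
      intro g hg
      have hmul : (g * b₀) * x₁ * (g * b₀)⁻¹ = g * (b₀ * x₁ * b₀⁻¹) * g⁻¹ := by group
      rcases hx₁eig g (hBA hg) with h | h
      · right
        refine ⟨(hB₁def g).mpr ⟨hg, h⟩, ?_⟩
        intro h2
        have h3 := ((hB₁def _).mp h2).2
        rw [hmul, hb₀x₁] at h3
        have h4 : g * x₁⁻¹ * g⁻¹ = (g * x₁ * g⁻¹)⁻¹ := by group
        rw [h4, h] at h3
        exact hx₁ne h3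
      · left
        refine ⟨(hB₁def _).mpr ⟨B.mul_mem hg hb₀B, ?_⟩, ?_⟩
        · rw [hmul, hb₀x₁]
          have h4 : g * x₁⁻¹ * g⁻¹ = (g * x₁ * g⁻¹)⁻¹ := by group
          rw [h4, h, inv_inv]
        · intro h2
          have h3 := ((hB₁def _).mp h2).2
          rw [h] at h3
          exact hx₁ne h3
    have hcard₁ : Nat.card ↥(B ⊓ Subgroup.centralizer {x₁}) = 2 ^ k := by
      have h1 := Subgroup.relIndex_mul_relIndex (H := ⊥) (K := B ⊓ Subgroup.centralizer {x₁}) (L := B)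
        bot_le inf_le_left
      rw [Subgroup.relIndex_bot_left, Subgroup.relIndex_bot_left, hidx, hcard, pow_succ] at h1
      exact Nat.eq_of_mul_eq_mul_right (by norm_num) h1
    have hfaith₁ : (B ⊓ Subgroup.centralizer {x₁}) ⊓ Subgroup.centralizer (E : Set G) = ⊥ := by
      rw [eq_bot_iff, ← hfaith]
      exact inf_le_inf_right _ inf_le_left
    obtain ⟨b', x', hprop, hoff, hcomp, hgen⟩ :=
      ih (B ⊓ Subgroup.centralizer {x₁}) (inf_le_left.trans hBA) hcard₁ hfaith₁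
    obtain ⟨c, hc, hcx⟩ := hcomp b₀ hb₀A
    have hcB : c ∈ B := ((hB₁def c).mp hc).1
    have hcx₁ : c * x₁ * c⁻¹ = x₁ := ((hB₁def c).mp hc).2
    have hb₁B : b₀ * c ∈ B := B.mul_mem hb₀B hcB
    have hb₁x₁ : (b₀ * c) * x₁ * (b₀ * c)⁻¹ = x₁⁻¹ := by
      have : (b₀ * c) * x₁ * (b₀ * c)⁻¹ = b₀ * (c * x₁ * c⁻¹) * b₀⁻¹ := by group
      rw [this, hcx₁, hb₀x₁]
    refine ⟨Fin.cons (b₀ * c) b', Fin.cons x₁ x', ?_, ?_, ?_, ?_⟩
    · intro i
      refine Fin.cases ?_ ?_ i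
      · simp only [Fin.cons_zero]
        exact ⟨hb₁B, hx₁E, hx₁1', hb₁x₁, hx₁eig⟩
      · intro j
        simp only [Fin.cons_succ]
        obtain ⟨h1, h2, h3, h4, h5⟩ := hprop j
        exact ⟨((hB₁def _).mp h1).1, h2, h3, h4, h5⟩
    · intro i j
      refine Fin.cases ?_ ?_ i
      · refine Fin.cases ?_ ?_ j
        · intro h; exact absurd rfl h
        · intro j' _
          simp only [Fin.cons_zero, Fin.cons_succ]
          exact hcx j'
      · intro i'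
        refine Fin.cases ?_ ?_ j
        · intro _
          simp only [Fin.cons_zero, Fin.cons_succ]
          exact ((hB₁def _).mp (hprop i').1).2
        · intro j' hij
          simp only [Fin.cons_succ]
          exact hoff i' j' (fun h => hij (by rw [h]))
    · intro a ha
      rcases hx₁eig a ha with h | h
      · obtain ⟨c', hc', hc'x⟩ := hcomp a ha
        refine ⟨c', ((hB₁def c').mp hc').1, ?_⟩
        intro j
        refine Fin.cases ?_ ?_ j
        · simp only [Fin.cons_zero]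
          have : (a * c') * x₁ * (a * c')⁻¹ = a * (c' * x₁ * c'⁻¹) * a⁻¹ := by group
          rw [this, ((hB₁def c').mp hc').2, h]
        · intro j'
          simp only [Fin.cons_succ]
          exact hc'x j'
      · obtain ⟨c', hc', hc'x⟩ := hcomp (a * (b₀ * c)) (A.mul_mem ha (hBA hb₁B))
        refine ⟨(b₀ * c) * c', B.mul_mem hb₁B ((hB₁def c').mp hc').1, ?_⟩
        intro j
        refine Fin.cases ?_ ?_ j
        · simp only [Fin.cons_zero]
          have : (a * ((b₀ * c) * c')) * x₁ * (a * ((b₀ * c) * c'))⁻¹ =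
              a * ((b₀ * c) * (c' * x₁ * c'⁻¹) * (b₀ * c)⁻¹) * a⁻¹ := by group
          rw [this, ((hB₁def c').mp hc').2, hb₁x₁]
          have h4 : a * x₁⁻¹ * a⁻¹ = (a * x₁ * a⁻¹)⁻¹ := by group
          rw [h4, h, inv_inv]
        · intro j'
          simp only [Fin.cons_succ]
          have h6 : a * ((b₀ * c) * c') = a * (b₀ * c) * c' := by group
          rw [h6]; exact hc'x j'
    · intro g hg
      have hsub : Subgroup.closure (Set.range b') ≤
          Subgroup.closure (Set.range (Fin.cons (b₀ * c) b' : Fin (k + 1) → G)) := by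
        apply Subgroup.closure_mono
        rintro _ ⟨j, rfl⟩
        exact ⟨j.succ, by simp⟩
      have hb₁mem : b₀ * c ∈ Subgroup.closure (Set.range (Fin.cons (b₀ * c) b' : Fin (k + 1) → G)) :=
        Subgroup.subset_closure ⟨0, by simp⟩
      rcases hx₁eig g (hBA hg) with h | h
      · exact hsub (hgen ((hB₁def g).mpr ⟨hg, h⟩))
      · have h1 : (b₀ * c)⁻¹ * g ∈ B ⊓ Subgroup.centralizer {x₁} := by
          refine (hB₁def _).mpr ⟨B.mul_mem (B.inv_mem hb₁B) hg, ?_⟩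
          have : ((b₀ * c)⁻¹ * g) * x₁ * ((b₀ * c)⁻¹ * g)⁻¹ =
              (b₀ * c)⁻¹ * (g * x₁ * g⁻¹) * (b₀ * c) := by group
          rw [this, h]
          have h5 : (b₀ * c)⁻¹ * x₁⁻¹ * (b₀ * c) =
              (b₀ * c)⁻¹ * ((b₀ * c) * x₁ * (b₀ * c)⁻¹) * (b₀ * c) := by rw [hb₁x₁]
          rw [h5]; group
        have h2 : g = (b₀ * c) * ((b₀ * c)⁻¹ * g) := by group
        rw [h2]
        exact mul_mem hb₁mem (hsub (hgen h1))

theorem commutator_lt_of_solvable {L : Subgroup G} (hs : Group.IsSolvable ↥L) (hL : L ≠ ⊥) :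
    ⁅L, L⁆ < L := by
  rw [← Subgroup.nontrivial_iff_ne_bot] at hL
  rw [← L.range_subtype, MonoidHom.range_eq_map, ← Subgroup.map_commutator,
    Subgroup.map_subtype_lt_map_subtype]
  exact Group.IsSolvable.commutator_lt_top_of_nontrivial L

theorem commutator_self_normalizer (A L : Subgroup G)
    (hAL : A ≤ Subgroup.normalizer (L : Set G)) :
    A ≤ Subgroup.normalizer ((⁅L, L⁆ : Subgroup G) : Set G) := by
  rw [Subgroup.le_normalizer_iff]
  intro a ha x hx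
  have h1 : L.map (MulAut.conj a).toMonoidHom = L := Subgroup.mem_normalizer_iff_map_conj_eq.mp (hAL ha)
  have h2 : (⁅L, L⁆).map (MulAut.conj a).toMonoidHom = ⁅L, L⁆ := by
    rw [Subgroup.map_commutator, h1]
  rw [← h2]
  exact ⟨x, hx, rfl⟩

/-- A maximal proper `A`-invariant subgroup containing the derived subgroup. -/
theorem exists_max_invariant [Finite G] (A L : Subgroup G)
    (hAL : A ≤ Subgroup.normalizer (L : Set G)) (hs : Group.IsSolvable ↥L) (hL : L ≠ ⊥) :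
    ∃ N : Subgroup G, ⁅L, L⁆ ≤ N ∧ N ≤ L ∧ N ≠ L ∧ A ≤ Subgroup.normalizer (N : Set G) ∧
      ∀ K : Subgroup G, N ≤ K → K ≤ L → A ≤ Subgroup.normalizer (K : Set G) → K = N ∨ K = L := by
  have hlt := commutator_lt_of_solvable hs hL
  obtain ⟨N, -, ⟨⟨h1, h2, h3, h4⟩, hmax⟩⟩ := Finite.exists_le_maximal
    (p := fun K : Subgroup G => ⁅L, L⁆ ≤ K ∧ K ≤ L ∧ K ≠ L ∧ A ≤ Subgroup.normalizer (K : Set G))
    (a := ⁅L, L⁆) ⟨le_rfl, hlt.le, hlt.ne, commutator_self_normalizer A L hAL⟩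
  refine ⟨N, h1, h2, h3, h4, ?_⟩
  intro K hNK hKL hAK
  by_cases hK : K = L
  · exact Or.inr hK
  · left
    exact le_antisymm (hmax ⟨h1.trans hNK, hKL, hK, hAK⟩ hNK) hNK

/-- preimage of the centralizer of `a` in `L/N` -/
def centMod (L N : Subgroup G) (a : G) (hNL : ∀ l ∈ L, ∀ n ∈ N, l * n * l⁻¹ ∈ N)
    (haL : ∀ l ∈ L, a * l * a⁻¹ ∈ L) : Subgroup G where
  carrier := {l | l ∈ L ∧ l⁻¹ * (a * l * a⁻¹) ∈ N}
  one_mem' := ⟨L.one_mem, by simp⟩
  mul_mem' := by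
    rintro l m ⟨hl, hl'⟩ ⟨hm, hm'⟩
    refine ⟨L.mul_mem hl hm, ?_⟩
    have h1 : (l * m)⁻¹ * (a * (l * m) * a⁻¹) =
        (m⁻¹ * (l⁻¹ * (a * l * a⁻¹)) * m⁻¹⁻¹) * (m⁻¹ * (a * m * a⁻¹)) := by group
    rw [h1]
    exact N.mul_mem (hNL _ (L.inv_mem hm) _ hl') hm'
  inv_mem' := by
    rintro l ⟨hl, hl'⟩
    refine ⟨L.inv_mem hl, ?_⟩
    have h1 : l⁻¹⁻¹ * (a * l⁻¹ * a⁻¹) = l * (l⁻¹ * (a * l * a⁻¹))⁻¹ * l⁻¹ := by group
    rw [h1]
    exact hNL _ hl _ (N.inv_mem hl')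

/-- preimage of the elements of `L/N` inverted by `a` -/
def invMod (L N : Subgroup G) (a : G) (hNL : ∀ l ∈ L, ∀ n ∈ N, l * n * l⁻¹ ∈ N)
    (haL : ∀ l ∈ L, a * l * a⁻¹ ∈ L) (hder : ⁅L, L⁆ ≤ N) : Subgroup G where
  carrier := {l | l ∈ L ∧ l * (a * l * a⁻¹) ∈ N}
  one_mem' := ⟨L.one_mem, by simp⟩
  mul_mem' := by
    rintro l m ⟨hl, hl'⟩ ⟨hm, hm'⟩
    refine ⟨L.mul_mem hl hm, ?_⟩
    have h1 : (l * m) * (a * (l * m) * a⁻¹) =
        (l * (a * l * a⁻¹)) * ⁅(a * l * a⁻¹)⁻¹, m⁆ * (m * (a * m * a⁻¹)) := by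
      rw [commutatorElement_def]; group
    rw [h1]
    exact N.mul_mem (N.mul_mem hl'
      (hder (Subgroup.commutator_mem_commutator (L.inv_mem (haL l hl)) hm))) hm'
  inv_mem' := by
    rintro l ⟨hl, hl'⟩
    refine ⟨L.inv_mem hl, ?_⟩
    have h1 : l⁻¹ * (a * l⁻¹ * a⁻¹) = (l⁻¹ * (l * (a * l * a⁻¹)) * l⁻¹⁻¹)⁻¹ := by group
    rw [h1]
    exact N.inv_mem (hNL _ (L.inv_mem hl) _ hl')

/-- Each element of `A` acts on `L/N` trivially or by inversion. -/
theorem eigen_mod (A L N : Subgroup G)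
    (hAc : ∀ a ∈ A, ∀ b ∈ A, a * b = b * a) (hAsq : ∀ a ∈ A, a * a = 1)
    (hAL : A ≤ Subgroup.normalizer (L : Set G))
    (hder : ⁅L, L⁆ ≤ N) (hNL : N ≤ L) (hNne : N ≠ L) (hAN : A ≤ Subgroup.normalizer (N : Set G))
    (hmax : ∀ K : Subgroup G, N ≤ K → K ≤ L → A ≤ Subgroup.normalizer (K : Set G) → K = N ∨ K = L) :
    ∀ a ∈ A, (∀ l ∈ L, l⁻¹ * (a * l * a⁻¹) ∈ N) ∨ (∀ l ∈ L, l * (a * l * a⁻¹) ∈ N) := by
  have hconjL : ∀ a ∈ A, ∀ l ∈ L, a * l * a⁻¹ ∈ L := Subgroup.le_normalizer_iff.mp hAL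
  have hconjN : ∀ a ∈ A, ∀ n ∈ N, a * n * a⁻¹ ∈ N := Subgroup.le_normalizer_iff.mp hAN
  have hnorm : ∀ l ∈ L, ∀ n ∈ N, l * n * l⁻¹ ∈ N := by
    intro l hl n hn
    have h1 : l * n * l⁻¹ = ⁅l, n⁆ * n := by rw [commutatorElement_def]; group
    rw [h1]
    exact N.mul_mem (hder (Subgroup.commutator_mem_commutator hl (hNL hn))) hn
  intro a ha
  have hC := hmax (centMod L N a hnorm (hconjL a ha))
    (fun n hn => ⟨hNL hn, N.mul_mem (N.inv_mem hn) (hconjN a ha n hn)⟩) (fun l hl => hl.1)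
    (by
      rw [Subgroup.le_normalizer_iff]
      rintro a' ha' l ⟨hl, hl'⟩
      refine ⟨hconjL a' ha' l hl, ?_⟩
      rw [conj_conj_of_comm (hAc a ha a' ha')]
      have h1 : (a' * l * a'⁻¹)⁻¹ * (a' * (a * l * a⁻¹) * a'⁻¹) =
          a' * (l⁻¹ * (a * l * a⁻¹)) * a'⁻¹ := by group
      rw [h1]
      exact hconjN a' ha' _ hl')
  have hI := hmax (invMod L N a hnorm (hconjL a ha) hder)
    (fun n hn => ⟨hNL hn, N.mul_mem hn (hconjN a ha n hn)⟩) (fun l hl => hl.1)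
    (by
      rw [Subgroup.le_normalizer_iff]
      rintro a' ha' l ⟨hl, hl'⟩
      refine ⟨hconjL a' ha' l hl, ?_⟩
      rw [conj_conj_of_comm (hAc a ha a' ha')]
      have h1 : (a' * l * a'⁻¹) * (a' * (a * l * a⁻¹) * a'⁻¹) =
          a' * (l * (a * l * a⁻¹)) * a'⁻¹ := by group
      rw [h1]
      exact hconjN a' ha' _ hl')
  rcases hC with hC | hC
  · rcases hI with hI | hI
    · exfalso
      obtain ⟨l, hlL, hlN⟩ := SetLike.exists_of_lt (lt_of_le_of_ne hNL hNne)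
      have hl' : a * l * a⁻¹ ∈ L := hconjL a ha l hlL
      have e1 : a * (a * l * a⁻¹) * a⁻¹ = l := by
        have : a * (a * l * a⁻¹) * a⁻¹ = (a * a) * l * (a * a)⁻¹ := by group
        rw [this, hAsq a ha]; simp
      have hy : l * (a * l * a⁻¹) ∈ centMod L N a hnorm (hconjL a ha) := by
        refine ⟨L.mul_mem hlL hl', ?_⟩
        have h1 : (l * (a * l * a⁻¹))⁻¹ * (a * (l * (a * l * a⁻¹)) * a⁻¹) =
            (a * l * a⁻¹)⁻¹ * l⁻¹ * (a * l * a⁻¹) * (a * (a * l * a⁻¹) * a⁻¹) := by group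
        rw [h1, e1]
        have h2 : (a * l * a⁻¹)⁻¹ * l⁻¹ * (a * l * a⁻¹) * l = ⁅(a * l * a⁻¹)⁻¹, l⁻¹⁆ := by
          rw [commutatorElement_def]; group
        rw [h2]
        exact hder (Subgroup.commutator_mem_commutator (L.inv_mem hl') (L.inv_mem hlL))
      rw [hC] at hy
      have hl2 : l ∈ invMod L N a hnorm (hconjL a ha) hder := ⟨hlL, hy⟩
      rw [hI] at hl2
      exact hlN hl2
    · right
      intro l hl
      have : l ∈ invMod L N a hnorm (hconjL a ha) hder := by rw [hI]; exact hl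
      exact this.2
  · left
    intro l hl
    have : l ∈ centMod L N a hnorm (hconjL a ha) := by rw [hC]; exact hl
    exact this.2

theorem exists_mul_of_mem_sup_normalizer (A B : Subgroup G)
    (hAB : A ≤ Subgroup.normalizer (B : Set G)) {x : G} (hx : x ∈ A ⊔ B) :
    ∃ a ∈ A, ∃ b ∈ B, a * b = x := by
  have h := Subgroup.coe_mul_of_left_le_normalizer_right A B hAB
  have hx' : x ∈ ((A ⊔ B : Subgroup G) : Set G) := hx
  rw [h] at hx'
  obtain ⟨a, ha, b, hb, rfl⟩ := hx'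
  exact ⟨a, ha, b, hb, rfl⟩

theorem commute_of_mem_zpowers {c g z : G} (hz : z ∈ Subgroup.zpowers c) (h : g * c = c * g) :
    g * z = z * g := by
  obtain ⟨i, rfl⟩ := Subgroup.mem_zpowers_iff.mp hz
  exact (Commute.zpow_right (show Commute g c from h) i)

/-- Key step: an elementary abelian 2-group acting on a solvable group `L` of odd order acts with
the same kernel on a suitable invariant abelian subgroup. -/
theorem exists_abelian_faithful [Finite G] (A : Subgroup G)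
    (hAc : ∀ a ∈ A, ∀ b ∈ A, a * b = b * a) (hAsq : ∀ a ∈ A, a * a = 1) :
    ∀ (n : ℕ) (L : Subgroup G), Nat.card L = n → A ≤ Subgroup.normalizer (L : Set G) →
      Group.IsSolvable ↥L → Odd (Nat.card ↥L) →
      ∃ E : Subgroup G, E ≤ L ∧ (∀ x ∈ E, ∀ y ∈ E, x * y = y * x) ∧
        A ≤ Subgroup.normalizer (E : Set G) ∧
        A ⊓ Subgroup.centralizer (E : Set G) ≤ Subgroup.centralizer (L : Set G) := by
  intro n
  induction n using Nat.strong_induction_on with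
  | _ n ih =>
  intro L hn hAL hsol hodd
  by_cases hL : L = ⊥
  · refine ⟨⊥, bot_le, ?_, ?_, ?_⟩
    · intro x hx y hy
      rw [Subgroup.mem_bot] at hx hy
      rw [hx, hy]
    · rw [Subgroup.le_normalizer_iff]
      intro a _ x hx
      rw [Subgroup.mem_bot] at hx ⊢
      rw [hx]; group
    · rw [hL]
      exact inf_le_right
  obtain ⟨N, hder, hNL, hNne, hAN, hmax⟩ := exists_max_invariant A L hAL hsol hL
  have hsolN : Group.IsSolvable ↥N :=
    Group.isSolvable_of_isSolvable_injective (Subgroup.inclusion_injective hNL)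
  have hoddN : Odd (Nat.card ↥N) := hodd.of_dvd_nat (Subgroup.card_dvd_of_le hNL)
  have hcardN : Nat.card ↥N < n := by
    rw [← hn]; exact card_lt_card_of_lt (lt_of_le_of_ne hNL hNne)
  obtain ⟨E₀, hE₀N, hE₀c, hAE₀, hE₀f⟩ := ih _ hcardN N rfl hAN hsolN hoddN
  by_cases hdone : A ⊓ Subgroup.centralizer (E₀ : Set G) ≤ Subgroup.centralizer (L : Set G)
  · exact ⟨E₀, hE₀N.trans hNL, hE₀c, hAE₀, hdone⟩
  -- the hard case
  rw [SetLike.not_le_iff_exists] at hdone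
  obtain ⟨b, hb, hbL⟩ := hdone
  obtain ⟨hbA, hbE₀⟩ := Subgroup.mem_inf.mp hb
  have hbN : b ∈ Subgroup.centralizer (N : Set G) := hE₀f hb
  have hconjL : ∀ a ∈ A, ∀ l ∈ L, a * l * a⁻¹ ∈ L := Subgroup.le_normalizer_iff.mp hAL
  have hconjN : ∀ a ∈ A, ∀ n ∈ N, a * n * a⁻¹ ∈ N := Subgroup.le_normalizer_iff.mp hAN
  have hnorm : ∀ l ∈ L, ∀ n ∈ N, l * n * l⁻¹ ∈ N := by
    intro l hl n hn
    have h1 : l * n * l⁻¹ = ⁅l, n⁆ * n := by rw [commutatorElement_def]; group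
    rw [h1]
    exact N.mul_mem (hder (Subgroup.commutator_mem_commutator hl (hNL hn))) hn
  have heig := eigen_mod A L N hAc hAsq hAL hder hNL hNne hAN hmax
  -- (f1)
  have hoddL : ∀ y ∈ L, y * y = 1 → y = 1 := by
    intro y hy hyy
    have h1 : orderOf y ∣ 2 := orderOf_dvd_of_pow_eq_one (by rw [pow_two]; exact hyy)
    have h2 : orderOf y ∣ Nat.card ↥L := Subgroup.orderOf_dvd_natCard L hy
    have h3 : Odd (orderOf y) := hodd.of_dvd_nat h2
    have h4 : orderOf y = 1 := by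
      rcases (Nat.dvd_prime Nat.prime_two).mp h1 with h | h
      · exact h
      · rw [h] at h3; exact absurd h3 (by decide)
    exact orderOf_eq_one_iff.mp h4
  -- (f2)
  have hf2 : ∀ c ∈ A, c ∈ Subgroup.centralizer (N : Set G) →
      (∀ l ∈ L, l⁻¹ * (c * l * c⁻¹) ∈ N) → c ∈ Subgroup.centralizer (L : Set G) := by
    intro c hcA hcN hc
    rw [Subgroup.mem_centralizer_iff]
    intro l hl
    have hy := hc l hl
    have h1 : c * (l⁻¹ * (c * l * c⁻¹)) * c⁻¹ = l⁻¹ * (c * l * c⁻¹) := by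
      rw [conj_eq_iff_mul_comm]
      exact (Subgroup.mem_centralizer_iff.mp hcN _ hy).symm
    have e1 : c * (c * l * c⁻¹) * c⁻¹ = l := by
      have : c * (c * l * c⁻¹) * c⁻¹ = (c * c) * l * (c * c)⁻¹ := by group
      rw [this, hAsq c hcA]; simp
    have h2 : c * (l⁻¹ * (c * l * c⁻¹)) * c⁻¹ = (l⁻¹ * (c * l * c⁻¹))⁻¹ := by
      have : c * (l⁻¹ * (c * l * c⁻¹)) * c⁻¹ = (c * l * c⁻¹)⁻¹ * (c * (c * l * c⁻¹) * c⁻¹) := by
        group
      rw [this, e1]; group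
    have h3 : (l⁻¹ * (c * l * c⁻¹)) * (l⁻¹ * (c * l * c⁻¹)) = 1 := by
      have : (l⁻¹ * (c * l * c⁻¹)) = (l⁻¹ * (c * l * c⁻¹))⁻¹ := by rw [← h2, h1]
      nth_rewrite 1 [this]
      exact inv_mul_cancel _
    have h4 := hoddL _ (hNL hy) h3
    have h5 : c * l * c⁻¹ = l := by
      have := congrArg (fun z => l * z) h4
      simpa using this
    exact (conj_eq_iff_mul_comm.mp h5).symm
  -- (f3)
  have hbinv : ∀ l ∈ L, l * (b * l * b⁻¹) ∈ N := by
    rcases heig b hbA with h | h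
    · exact absurd (hf2 b hbA hbN h) hbL
    · exact h
  -- (f4) C = C_L(N) is commutative
  have hCc : ∀ x ∈ L ⊓ Subgroup.centralizer (N : Set G),
      ∀ y ∈ L ⊓ Subgroup.centralizer (N : Set G), x * y = y * x := by
    by_cases hCN : L ⊓ Subgroup.centralizer (N : Set G) ≤ N
    · intro x hx y hy
      exact (Subgroup.mem_centralizer_iff.mp (Subgroup.mem_inf.mp hx).2 y (hCN hy)).symm
    · rw [SetLike.not_le_iff_exists] at hCN
      obtain ⟨c, hc, hcN⟩ := hCN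
      obtain ⟨hcL, hcC⟩ := Subgroup.mem_inf.mp hc
      have hzL : Subgroup.zpowers c ≤ L := Subgroup.zpowers_le.mpr hcL
      have hzN : Subgroup.zpowers c ≤ Subgroup.normalizer (N : Set G) := by
        rw [Subgroup.le_normalizer_iff]
        intro z hz n hn
        exact hnorm z (hzL hz) n hn
      have hK : Subgroup.zpowers c ⊔ N = L := by
        have hAK : A ≤ Subgroup.normalizer ((Subgroup.zpowers c ⊔ N : Subgroup G) : Set G) := by
          rw [Subgroup.le_normalizer_iff]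
          intro a ha k hk
          have hkL : k ∈ L := (sup_le hzL hNL) hk
          rcases heig a ha with h | h
          · have h1 : a * k * a⁻¹ = k * (k⁻¹ * (a * k * a⁻¹)) := by group
            rw [h1]
            exact mul_mem hk (Subgroup.mem_sup_right (h k hkL))
          · have h1 : a * k * a⁻¹ = k⁻¹ * (k * (a * k * a⁻¹)) := by group
            rw [h1]
            exact mul_mem (inv_mem hk) (Subgroup.mem_sup_right (h k hkL))
        rcases hmax _ le_sup_right (sup_le hzL hNL) hAK with h | h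
        · exfalso
          apply hcN
          rw [← h]
          exact Subgroup.mem_sup_left (Subgroup.mem_zpowers c)
        · exact h
      have hcomm_c : ∀ g ∈ L ⊓ Subgroup.centralizer (N : Set G), g * c = c * g := by
        intro g hg
        have hgL : g ∈ Subgroup.zpowers c ⊔ N := by rw [hK]; exact (Subgroup.mem_inf.mp hg).1
        obtain ⟨z, hz, n, hn, rfl⟩ := exists_mul_of_mem_sup_normalizer _ _ hzN hgL
        have h1 : z * c = c * z := (commute_of_mem_zpowers hz rfl).symm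
        have h2 : n * c = c * n := Subgroup.mem_centralizer_iff.mp hcC n hn
        calc z * n * c = z * (n * c) := by group
          _ = z * (c * n) := by rw [h2]
          _ = (z * c) * n := by group
          _ = (c * z) * n := by rw [h1]
          _ = c * (z * n) := by group
      intro x hx y hy
      have hyL : y ∈ Subgroup.zpowers c ⊔ N := by rw [hK]; exact (Subgroup.mem_inf.mp hy).1
      obtain ⟨z, hz, n, hn, rfl⟩ := exists_mul_of_mem_sup_normalizer _ _ hzN hyL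
      have h1 : x * z = z * x := commute_of_mem_zpowers hz (hcomm_c x hx)
      have h2 : n * x = x * n := Subgroup.mem_centralizer_iff.mp (Subgroup.mem_inf.mp hx).2 n hn
      calc x * (z * n) = (x * z) * n := by group
        _ = (z * x) * n := by rw [h1]
        _ = z * (x * n) := by group
        _ = z * (n * x) := by rw [h2]
        _ = z * n * x := by group
  have hAC : A ≤ Subgroup.normalizer ((L ⊓ Subgroup.centralizer (N : Set G) : Subgroup G) : Set G) := by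
    rw [Subgroup.le_normalizer_iff]
    intro a ha l hl
    obtain ⟨hlL, hlC⟩ := Subgroup.mem_inf.mp hl
    refine Subgroup.mem_inf.mpr ⟨hconjL a ha l hlL, ?_⟩
    rw [Subgroup.mem_centralizer_iff]
    intro n hn
    have h1 : a⁻¹ * n * a⁻¹⁻¹ ∈ N := hconjN a⁻¹ (A.inv_mem ha) n hn
    have h2 := Subgroup.mem_centralizer_iff.mp hlC _ h1
    calc n * (a * l * a⁻¹) = a * ((a⁻¹ * n * a⁻¹⁻¹) * l) * a⁻¹ := by group
      _ = a * (l * (a⁻¹ * n * a⁻¹⁻¹)) * a⁻¹ := by rw [h2]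
      _ = a * l * a⁻¹ * n := by group
  -- (f5) a nontrivial element inverted by `b`
  have hbsq : b * b = 1 := hAsq b hbA
  rw [Subgroup.mem_centralizer_iff] at hbL
  push Not at hbL
  obtain ⟨l₀, hl₀, hl₀b⟩ := hbL
  have hl₀' : b * l₀ * b⁻¹ ∈ L := hconjL b hbA l₀ hl₀
  have hbNcomm : ∀ n ∈ N, b * n * b⁻¹ = n := by
    intro n hn
    rw [conj_eq_iff_mul_comm]
    exact (Subgroup.mem_centralizer_iff.mp hbN n hn).symm
  have hy₀C : l₀⁻¹ * (b * l₀ * b⁻¹) ∈ L ⊓ Subgroup.centralizer (N : Set G) := by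
    refine Subgroup.mem_inf.mpr ⟨L.mul_mem (L.inv_mem hl₀) hl₀', ?_⟩
    rw [Subgroup.mem_centralizer_iff]
    intro n hn
    have h1 : l₀ * n * l₀⁻¹ ∈ N := hnorm l₀ hl₀ n hn
    have h2 : b * (l₀ * n * l₀⁻¹) * b⁻¹ = l₀ * n * l₀⁻¹ := hbNcomm _ h1
    have h3 : b⁻¹ * n * b = n := by
      have := hbNcomm n hn
      calc b⁻¹ * n * b = b⁻¹ * (b * n * b⁻¹) * b := by rw [this]
        _ = n := by group
    have h4 : (l₀⁻¹ * (b * l₀ * b⁻¹)) * n * (l₀⁻¹ * (b * l₀ * b⁻¹))⁻¹ = n := by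
      calc (l₀⁻¹ * (b * l₀ * b⁻¹)) * n * (l₀⁻¹ * (b * l₀ * b⁻¹))⁻¹
          = l₀⁻¹ * (b * (l₀ * (b⁻¹ * n * b) * l₀⁻¹) * b⁻¹) * l₀ := by group
        _ = l₀⁻¹ * (b * (l₀ * n * l₀⁻¹) * b⁻¹) * l₀ := by rw [h3]
        _ = l₀⁻¹ * (l₀ * n * l₀⁻¹) * l₀ := by rw [h2]
        _ = n := by group
    exact (conj_eq_iff_mul_comm.mp h4).symm
  have hy₀V : l₀⁻¹ * (b * l₀ * b⁻¹) ∈ invertedBy (L ⊓ Subgroup.centralizer (N : Set G)) hCc b := by
    refine ⟨hy₀C, ?_⟩
    have e1 : b * (b * l₀ * b⁻¹) * b⁻¹ = l₀ := by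
      have : b * (b * l₀ * b⁻¹) * b⁻¹ = (b * b) * l₀ * (b * b)⁻¹ := by group
      rw [this, hbsq]; simp
    have e2 : b * (l₀⁻¹ * (b * l₀ * b⁻¹)) * b⁻¹ =
        (b * l₀ * b⁻¹)⁻¹ * (b * (b * l₀ * b⁻¹) * b⁻¹) := by group
    rw [e2, e1]; group
  have hVne : invertedBy (L ⊓ Subgroup.centralizer (N : Set G)) hCc b ≠ ⊥ := by
    intro h
    rw [h, Subgroup.mem_bot] at hy₀V
    apply hl₀b
    have h1 : b * l₀ * b⁻¹ = l₀ := by
      have := congrArg (fun z => l₀ * z) hy₀V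
      simpa using this
    exact (conj_eq_iff_mul_comm.mp h1).symm
  obtain ⟨W, hWV, hWne, hAW, hWeig⟩ := exists_eigen_subgroup A
    (L ⊓ Subgroup.centralizer (N : Set G)) (invertedBy (L ⊓ Subgroup.centralizer (N : Set G)) hCc b)
    hAc hAsq hCc (fun x hx => hx.1) hVne (invertedBy_normalizer A _ hCc hAc hAC hbA)
  obtain ⟨⟨x, hxW⟩, hx1⟩ := Subgroup.ne_bot_iff_exists_ne_one.mp hWne
  have hx1' : x ≠ 1 := fun h => hx1 (Subtype.ext h)
  have hxC : x ∈ L ⊓ Subgroup.centralizer (N : Set G) := (hWV hxW).1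
  obtain ⟨hxL, hxN⟩ := Subgroup.mem_inf.mp hxC
  have hbx : b * x * b⁻¹ = x⁻¹ := (hWV hxW).2
  have hxeig : ∀ a ∈ A, a * x * a⁻¹ = x ∨ a * x * a⁻¹ = x⁻¹ := by
    intro a ha
    rcases hWeig a ha with h | h
    · exact Or.inl (h x hxW)
    · exact Or.inr (h x hxW)
  have hxE₀ : x ∈ Subgroup.centralizer (E₀ : Set G) := Subgroup.centralizer_le hE₀N hxN
  -- (f7)
  have hzE₀ : Subgroup.zpowers x ≤ Subgroup.centralizer (E₀ : Set G) := Subgroup.zpowers_le.mpr hxE₀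
  have hE₀z : E₀ ≤ Subgroup.centralizer (Subgroup.zpowers x : Set G) :=
    Subgroup.le_centralizer_iff.mp hzE₀
  have hE₀E₀ : E₀ ≤ Subgroup.centralizer (E₀ : Set G) := by
    intro u hu
    rw [Subgroup.mem_centralizer_iff]
    intro v hv
    exact hE₀c v hv u hu
  have hzz : Subgroup.zpowers x ≤ Subgroup.centralizer (Subgroup.zpowers x : Set G) := by
    rw [Subgroup.zpowers_le, Subgroup.mem_centralizer_iff]
    intro v hv
    exact (commute_of_mem_zpowers hv rfl).symm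
  have hEcent : E₀ ⊔ Subgroup.zpowers x ≤
      Subgroup.centralizer ((E₀ ⊔ Subgroup.zpowers x : Subgroup G) : Set G) := by
    apply sup_le
    · rw [Subgroup.le_centralizer_iff]
      exact sup_le hE₀E₀ hzE₀
    · rw [Subgroup.le_centralizer_iff]
      exact sup_le hE₀z hzz
  refine ⟨E₀ ⊔ Subgroup.zpowers x, sup_le (hE₀N.trans hNL) (Subgroup.zpowers_le.mpr hxL), ?_, ?_, ?_⟩
  · intro u hu v hv
    exact (Subgroup.mem_centralizer_iff.mp (hEcent hu) v hv).symm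
  · rw [Subgroup.le_normalizer_iff]
    intro a ha u hu
    have h1 : E₀.map (MulAut.conj a).toMonoidHom = E₀ :=
      Subgroup.mem_normalizer_iff_map_conj_eq.mp (hAE₀ ha)
    have h2 : (Subgroup.zpowers x).map (MulAut.conj a).toMonoidHom = Subgroup.zpowers x := by
      rw [MonoidHom.map_zpowers]
      rcases hxeig a ha with h | h
      · simp only [MulEquiv.coe_toMonoidHom, MulAut.conj_apply]; rw [h]
      · simp only [MulEquiv.coe_toMonoidHom, MulAut.conj_apply]; rw [h, Subgroup.zpowers_inv]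
    have h3 : (E₀ ⊔ Subgroup.zpowers x).map (MulAut.conj a).toMonoidHom = E₀ ⊔ Subgroup.zpowers x := by
      rw [Subgroup.map_sup, h1, h2]
    rw [← h3]
    exact ⟨u, hu, rfl⟩
  · intro c hc
    obtain ⟨hcA, hcE⟩ := Subgroup.mem_inf.mp hc
    have hcE₀ : c ∈ Subgroup.centralizer (E₀ : Set G) :=
      Subgroup.centralizer_le (show (E₀ : Set G) ⊆ ((E₀ ⊔ Subgroup.zpowers x : Subgroup G) : Set G) from
        fun u hu => Subgroup.mem_sup_left hu) hcE
    have hcN : c ∈ Subgroup.centralizer (N : Set G) := hE₀f (Subgroup.mem_inf.mpr ⟨hcA, hcE₀⟩)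
    have hcx : c * x * c⁻¹ = x := by
      rw [conj_eq_iff_mul_comm]
      exact (Subgroup.mem_centralizer_iff.mp hcE x
        (Subgroup.mem_sup_right (Subgroup.mem_zpowers x))).symm
    by_contra hcL
    have hcinv : ∀ l ∈ L, l * (c * l * c⁻¹) ∈ N := by
      rcases heig c hcA with h | h
      · exact absurd (hf2 c hcA hcN h) hcL
      · exact h
    have hbcN : b * c ∈ Subgroup.centralizer (N : Set G) := mul_mem hbN hcN
    have hbc : ∀ l ∈ L, l⁻¹ * ((b * c) * l * (b * c)⁻¹) ∈ N := by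
      intro l hl
      have hm : c * l * c⁻¹ ∈ L := hconjL c hcA l hl
      have h1 := hcinv l hl
      have h2 := hbinv _ hm
      have h3 : l⁻¹ * (l * (c * l * c⁻¹)) * l⁻¹⁻¹ ∈ N := hnorm _ (L.inv_mem hl) _ h1
      have h4 : l⁻¹ * ((b * c) * l * (b * c)⁻¹) =
          (l⁻¹ * (l * (c * l * c⁻¹)) * l⁻¹⁻¹)⁻¹ * ((c * l * c⁻¹) * (b * (c * l * c⁻¹) * b⁻¹)) := by
        group
      rw [h4]
      exact N.mul_mem (N.inv_mem h3) h2
    have hbcL := hf2 (b * c) (A.mul_mem hbA hcA) hbcN hbc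
    have h5 : (b * c) * x * (b * c)⁻¹ = x := by
      rw [conj_eq_iff_mul_comm]
      exact (Subgroup.mem_centralizer_iff.mp hbcL x hxL).symm
    have h6 : (b * c) * x * (b * c)⁻¹ = x⁻¹ := by
      have : (b * c) * x * (b * c)⁻¹ = b * (c * x * c⁻¹) * b⁻¹ := by group
      rw [this, hcx, hbx]
    have h7 : x * x = 1 := by
      have hxx : x = x⁻¹ := h5.symm.trans h6
      calc x * x = x⁻¹ * x := by rw [← hxx]
        _ = 1 := inv_mul_cancel x
    exact hx1' (hoddL x hxL h7)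

end Cfsg.Agent.H29
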