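import Cfsg.Agent.H4.TnDefs

/-!
# TN-PAIRSLOC (helper29) for helper4's S3805 project

Pairs of conjugates of an involution `x` with product in `S₁`: `3·#pairs = 2·i_a(x)²`.
Uses the pieces S1, TI and CA (TIT is not needed).
-/

set_option autoImplicit false

namespace Cfsg.Agent.H29.Tn

open Subgroup Cfsg.Agent.H4.Tn

universe u

theorem pairsLoc (hS : StS1.{u}) (hTI : StTI.{u}) (hC : StCa.{u}) : StPairsLoc.{u} := by
  intro G _ _ T a b u v cfg x hx
  classical
  haveI := Fintype.ofFinite G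
  obtain ⟨c1, c2, c3, c4, c5, c6, c7⟩ := hC G T a b u v cfg
  obtain ⟨s1, s2, s3, s4, s5⟩ := hS G T a b u v cfg
  have hTI' := hTI G T a b u v cfg
  set A : Subgroup G := closure ({b, u} : Set G) with hA
  have a3 : a * a * a = 1 := by
    have := cfg.a3
    rw [pow_succ, pow_two] at this
    exact this
  have haa : a * a = a⁻¹ := by
    rw [eq_inv_iff_mul_eq_one]; exact a3
  have hainv : a⁻¹ * a⁻¹ = a := by
    calc a⁻¹ * a⁻¹ = a⁻¹ * a⁻¹ * (a * a * a) := by rw [a3, mul_one]
      _ = a := by group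
  have haA : a ∉ A := by
    intro h
    have hle : centralizer ({a} : Set G) ≤ A := by
      intro y hy
      obtain ⟨w, hw, h1 | h1 | h1⟩ := c1 y hy
      · rw [h1]; exact hw
      · rw [h1]; exact A.mul_mem h hw
      · rw [h1]; exact A.mul_mem (A.inv_mem h) hw
    have := Subgroup.card_le_of_le hle
    rw [c3, c4] at this
    omega
  have hainvA : a⁻¹ ∉ A := fun h => haA (by simpa using A.inv_mem h)
  have hinvC : ∀ y ∈ centralizer ({a} : Set G), y * y = 1 → y ∈ A := by
    intro y hy hyy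
    obtain ⟨w, hw, h1 | h1 | h1⟩ := c1 y hy
    · rw [h1]; exact hw
    · exfalso
      have hww : a * a = (w * w)⁻¹ := by
        rw [eq_inv_iff_mul_eq_one]
        calc a * a * (w * w) = a * (a * w) * w := by group
          _ = a * (w * a) * w := by rw [c2 w hw]
          _ = (a * w) * (a * w) := by group
          _ = 1 := by rw [← h1]; exact hyy
      apply hainvA; rw [← haa, hww]; exact A.inv_mem (A.mul_mem hw hw)
    · exfalso
      have hc : w * a⁻¹ = a⁻¹ * w := by
        have := c2 w hw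
        calc w * a⁻¹ = a⁻¹ * (a * w) * a⁻¹ := by group
          _ = a⁻¹ * (w * a) * a⁻¹ := by rw [this]
          _ = a⁻¹ * w := by group
      have hww : a⁻¹ * a⁻¹ = (w * w)⁻¹ := by
        rw [eq_inv_iff_mul_eq_one]
        calc a⁻¹ * a⁻¹ * (w * w) = a⁻¹ * (a⁻¹ * w) * w := by group
          _ = a⁻¹ * (w * a⁻¹) * w := by rw [hc]
          _ = (a⁻¹ * w) * (a⁻¹ * w) := by group
          _ = 1 := by rw [← h1]; exact hyy
      apply haA; rw [← hainv, hww]; exact A.inv_mem (A.mul_mem hw hw)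
  have hS1C : ∀ s ∈ S1 a b u, s ∈ centralizer ({a} : Set G) := by
    rintro s ⟨w, hw, rfl | rfl⟩
    · rw [mem_centralizer_singleton_iff, mul_assoc, c2 w hw]
    · rw [mem_centralizer_singleton_iff, mul_assoc, c2 w hw]; group
  have hS1A : ∀ s ∈ S1 a b u, s ∉ A := by
    rintro s ⟨w, hw, rfl | rfl⟩ h
    · exact haA (by simpa using A.mul_mem h (A.inv_mem hw))
    · exact hainvA (by simpa using A.mul_mem h (A.inv_mem hw))
  have hinv : ∀ y, IsConj x y → y * y = 1 := by
    intro y hy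
    obtain ⟨c, rfl⟩ := isConj_iff.1 hy
    calc c * x * c⁻¹ * (c * x * c⁻¹) = c * (x * x) * c⁻¹ := by group
      _ = 1 := by rw [hx]; group
  have hF7 : ∀ y y', y * y = 1 → y' * y' = 1 → y * y' ∈ S1 a b u →
      y * a * y⁻¹ = a⁻¹ ∧ y' * a * y'⁻¹ = a⁻¹ := by
    intro y y' hy hy' hs
    have hyinv : y⁻¹ = y := inv_eq_of_mul_eq_one_left hy
    have hy'inv : y'⁻¹ = y' := inv_eq_of_mul_eq_one_left hy'
    have hsinv : (y * y')⁻¹ = y' * y := by rw [mul_inv_rev, hyinv, hy'inv]
    have hyN : y ∈ normalizer (T : Set G) := by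
      apply hTI' _ hs y
      have : y * (y * y') * y⁻¹ = (y * y')⁻¹ := by
        rw [hsinv, hyinv, ← mul_assoc, hy, one_mul]
      rw [this]; exact s3 _ hs
    have hy'N : y' ∈ normalizer (T : Set G) := by
      apply hTI' _ hs y'
      have : y' * (y * y') * y'⁻¹ = (y * y')⁻¹ := by
        rw [hsinv, hy'inv, mul_assoc, mul_assoc, hy', mul_one]
      rw [this]; exact s3 _ hs
    have hsC := hS1C _ hs
    have hyC : y ∉ centralizer ({a} : Set G) := by
      intro hyC
      have hy'C : y' ∈ centralizer ({a} : Set G) := by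
        have := (centralizer ({a} : Set G)).mul_mem ((centralizer ({a} : Set G)).inv_mem hyC) hsC
        simpa using this
      exact hS1A _ hs (A.mul_mem (hinvC y hyC hy) (hinvC y' hy'C hy'))
    have hy'C : y' ∉ centralizer ({a} : Set G) := by
      intro hy'C
      apply hyC
      have := (centralizer ({a} : Set G)).mul_mem hsC ((centralizer ({a} : Set G)).inv_mem hy'C)
      simpa using this
    exact ⟨c6 y hyN hyC, c6 y' hy'N hy'C⟩
  have hflip : ∀ y, y * a * y⁻¹ = a⁻¹ → a * y = y * a⁻¹ := by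
    intro y hy
    calc a * y = (a⁻¹)⁻¹ * y := by rw [inv_inv]
      _ = (y * a * y⁻¹)⁻¹ * y := by rw [hy]
      _ = y * a⁻¹ := by group
  have hflip' : ∀ y, y * a * y⁻¹ = a⁻¹ → y * a = a⁻¹ * y := by
    intro y hy
    rw [← hy]; group
  have hIC : ∀ y y', y * a * y⁻¹ = a⁻¹ → y' * a * y'⁻¹ = a⁻¹ →
      y * y' ∈ centralizer ({a} : Set G) := by
    intro y y' hy hy'
    rw [mem_centralizer_singleton_iff]
    calc y * y' * a = y * (y' * a) := by group
      _ = y * a⁻¹ * y' := by rw [hflip' y' hy']; group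
      _ = a * (y * y') := by rw [← hflip y hy]; group
  have hprod : ∀ y y', y * a * y⁻¹ = a⁻¹ → y' * a * y'⁻¹ = a⁻¹ →
      y * (a * y' * a⁻¹) = a * (y * y') := by
    intro y y' hy hy'
    calc y * (a * y' * a⁻¹) = (y * a) * y' * a⁻¹ := by group
      _ = a⁻¹ * y * (y' * a⁻¹) := by rw [hflip' y hy]; group
      _ = a⁻¹ * y * (a * y') := by rw [hflip y' hy']
      _ = a⁻¹ * (y * a) * y' := by group
      _ = a⁻¹ * a⁻¹ * (y * y') := by rw [hflip' y hy]; group
      _ = a * (y * y') := by rw [hainv]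
  have hconjI : ∀ y, (IsConj x y ∧ y * a * y⁻¹ = a⁻¹) →
      (IsConj x (a * y * a⁻¹) ∧ (a * y * a⁻¹) * a * (a * y * a⁻¹)⁻¹ = a⁻¹) := by
    rintro y ⟨hy1, hy2⟩
    refine ⟨?_, ?_⟩
    · obtain ⟨c, rfl⟩ := isConj_iff.1 hy1
      exact isConj_iff.2 ⟨a * c, by group⟩
    · calc a * y * a⁻¹ * a * (a * y * a⁻¹)⁻¹ = a * (y * a * y⁻¹) * a⁻¹ := by group
        _ = a⁻¹ := by rw [hy2]; group
  -- counting
  let I : Finset G := Finset.univ.filter (fun y => IsConj x y ∧ y * a * y⁻¹ = a⁻¹)
  have hI : ∀ y, y ∈ I ↔ (IsConj x y ∧ y * a * y⁻¹ = a⁻¹) := by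
    intro y; simp [I]
  let E : G → Finset (G × G) := fun c => (I ×ˢ I).filter (fun p => c * (p.1 * p.2) ∈ A)
  have hE : ∀ c p, p ∈ E c ↔ ((p.1 ∈ I ∧ p.2 ∈ I) ∧ c * (p.1 * p.2) ∈ A) := by
    intro c p; simp [E]
  have hle : ∀ c : G, (E (c * a)).card ≤ (E c).card := by
    intro c
    apply Finset.card_le_card_of_injOn (fun p : G × G => (p.1, a * p.2 * a⁻¹))
    · intro p hp
      have hp' := (hE _ _).1 hp
      obtain ⟨⟨h1, h2⟩, h3⟩ := hp'
      have h1' := (hI _).1 h1
      have h2' := (hI _).1 h2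
      apply (hE _ _).2
      refine ⟨⟨h1, (hI _).2 (hconjI _ h2')⟩, ?_⟩
      show c * (p.1 * (a * p.2 * a⁻¹)) ∈ A
      rw [hprod _ _ h1'.2 h2'.2, ← mul_assoc]; exact h3
    · intro p _ q _ hpq
      simp only [Prod.mk.injEq] at hpq
      exact Prod.ext hpq.1 (mul_left_cancel (mul_right_cancel hpq.2))
  have e1 : (E (a * a)).card ≤ (E a).card := hle a
  have e2 : (E a).card ≤ (E 1).card := by
    have := hle 1; rwa [one_mul] at this
  have e3 : (E 1).card ≤ (E (a * a)).card := by
    have := hle (a * a); rwa [a3] at this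
  have hd1 : Disjoint (E a) (E (a * a)) := by
    rw [Finset.disjoint_left]
    intro p hp hq
    have hp' := ((hE _ _).1 hp).2
    have hq' := ((hE _ _).1 hq).2
    apply haA
    have := A.mul_mem hq' (A.inv_mem hp')
    convert this using 1; group
  have hd0 : Disjoint (E 1) (E a ∪ E (a * a)) := by
    rw [Finset.disjoint_left]
    intro p hp hq
    have hp' := ((hE _ _).1 hp).2
    rw [one_mul] at hp'
    rcases Finset.mem_union.1 hq with hq | hq
    · have hq' := ((hE _ _).1 hq).2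
      apply haA
      have := A.mul_mem hq' (A.inv_mem hp')
      convert this using 1; group
    · have hq' := ((hE _ _).1 hq).2
      apply hainvA
      have := A.mul_mem hq' (A.inv_mem hp')
      rw [← haa]
      convert this using 1; group
  have hun : I ×ˢ I = E 1 ∪ (E a ∪ E (a * a)) := by
    ext p
    constructor
    · intro hp
      have hp' := Finset.mem_product.1 hp
      have h1' := (hI _).1 hp'.1
      have h2' := (hI _).1 hp'.2
      obtain ⟨w, hw, h1 | h1 | h1⟩ := c1 _ (hIC _ _ h1'.2 h2'.2)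
      · apply Finset.mem_union_left
        apply (hE _ _).2
        refine ⟨hp', ?_⟩
        rw [one_mul, h1]; exact hw
      · apply Finset.mem_union_right
        apply Finset.mem_union_right
        apply (hE _ _).2
        refine ⟨hp', ?_⟩
        rw [h1, ← mul_assoc, a3, one_mul]; exact hw
      · apply Finset.mem_union_right
        apply Finset.mem_union_left
        apply (hE _ _).2
        refine ⟨hp', ?_⟩
        rw [h1, mul_inv_cancel_left]; exact hw
    · intro hp
      rcases Finset.mem_union.1 hp with h | h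
      · exact Finset.mem_product.2 ((hE _ _).1 h).1
      · rcases Finset.mem_union.1 h with h | h
        · exact Finset.mem_product.2 ((hE _ _).1 h).1
        · exact Finset.mem_product.2 ((hE _ _).1 h).1
  have hP : (Finset.univ.filter
      (fun p : G × G => IsConj x p.1 ∧ IsConj x p.2 ∧ p.1 * p.2 ∈ S1 a b u)) =
      E a ∪ E (a * a) := by
    ext p
    rw [Finset.mem_filter, Finset.mem_union, hE, hE, hI, hI]
    simp only [Finset.mem_univ, true_and]
    constructor
    · rintro ⟨h1, h2, h3⟩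
      obtain ⟨h4, h5⟩ := hF7 _ _ (hinv _ h1) (hinv _ h2) h3
      obtain ⟨w, hw, h6 | h6⟩ := h3
      · right; refine ⟨⟨⟨h1, h4⟩, ⟨h2, h5⟩⟩, ?_⟩
        rw [h6, ← mul_assoc, a3, one_mul]; exact hw
      · left; refine ⟨⟨⟨h1, h4⟩, ⟨h2, h5⟩⟩, ?_⟩
        rw [h6, mul_inv_cancel_left]; exact hw
    · rintro (⟨⟨⟨h1, h4⟩, ⟨h2, h5⟩⟩, h3⟩ | ⟨⟨⟨h1, h4⟩, ⟨h2, h5⟩⟩, h3⟩)
      · exact ⟨h1, h2, _, h3, Or.inr (by group)⟩
      · refine ⟨h1, h2, _, h3, Or.inl ?_⟩
        have : a * (a * a * (p.1 * p.2)) = (a * a * a) * (p.1 * p.2) := by group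
        rw [this, a3, one_mul]
  have hcardI : Nat.card {y : G // IsConj x y ∧ y * a * y⁻¹ = a⁻¹} = I.card := by
    rw [Nat.card_eq_fintype_card, Fintype.card_subtype]
  have hcardP : Nat.card {p : G × G // IsConj x p.1 ∧ IsConj x p.2 ∧ p.1 * p.2 ∈ S1 a b u} =
      (E a ∪ E (a * a)).card := by
    rw [Nat.card_eq_fintype_card, Fintype.card_subtype, hP]
  have h2 : I.card ^ 2 = (E 1).card + ((E a).card + (E (a * a)).card) := by
    calc I.card ^ 2 = (I ×ˢ I).card := by rw [sq, Finset.card_product]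
      _ = (E 1 ∪ (E a ∪ E (a * a))).card := congrArg Finset.card hun
      _ = _ := by rw [Finset.card_union_of_disjoint hd0, Finset.card_union_of_disjoint hd1]
  rw [hcardI, hcardP, Finset.card_union_of_disjoint hd1, h2]
  omega

example (hS : StS1.{u}) (hTI : StTI.{u}) (hC : StCa.{u}) : StPairsLoc.{u} := pairsLoc hS hTI hC

end Cfsg.Agent.H29.Tn

#print axioms Cfsg.Agent.H29.Tn.pairsLoc
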